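import Cfsg.Agent.Lib.MinG2.C3

/-! Characteristic three: the numbers of a representation. -/

set_option autoImplicit false
set_option linter.unusedSectionVars false
set_option linter.unusedVariables false

namespace Cfsg.Agent.Lib.MinG2

open Module
open scoped Classical

variable {F : Type*} [Field F] {Γ : Type*} [Group Γ] {V : Type*} [AddCommGroup V] [Module ℂ V]
variable {S : Sys F Γ} {ρ : Representation ℂ Γ V} {ψ : AddChar F ℂ}

section Aux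

lemma rho_mul (ρ : Representation ℂ Γ V) (a b : Γ) (v : V) : ρ (a * b) v = ρ a (ρ b v) := by
  rw [map_mul, Module.End.mul_apply]

lemma act_comm {g h : Γ} (hc : h * g = g * h) {c : ℂ} {v : V} (hv : ρ h v = c • v) :
    ρ h (ρ g v) = c • ρ g v := by
  rw [← rho_mul, hc, rho_mul, hv, map_smul]

lemma r9_8' (h3 : (3 : F) = 0) (u t : F) : S.x 9 u * S.x 8 t = S.x 8 t * S.x 9 u := by
  have := S.r9_8 u t
  rw [h3, zero_mul, zero_mul, neg_zero, x_zero S 11 (by norm_num), mul_one] at this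
  exact this

lemma r8_7' (h3 : (3 : F) = 0) (u t : F) :
    S.x 8 u * S.x 7 t = S.x 7 t * S.x 8 u * S.x 9 (2 * t * u) := by
  have := S.r8_7 u t
  rw [h3, zero_mul, zero_mul, zero_mul, zero_mul, neg_zero, x_zero S 10 (by norm_num),
    x_zero S 11 (by norm_num), mul_one, mul_one] at this
  exact this

lemma r9_7' (h3 : (3 : F) = 0) (u t : F) : S.x 9 u * S.x 7 t = S.x 7 t * S.x 9 u := by
  have := S.r9_7 u t
  rw [h3, zero_mul, zero_mul, neg_zero, x_zero S 10 (by norm_num), mul_one] at this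
  exact this

lemma r9_4' (h3 : (3 : F) = 0) (u t : F) :
    S.x 9 u * S.x 4 t = S.x 4 t * S.x 9 u * S.x 8 (2 * t * u) := by
  have := S.r9_4 u t
  rw [h3, zero_mul, zero_mul, zero_mul, zero_mul, x_zero S 6 (by norm_num),
    x_zero S 11 (by norm_num), mul_one, mul_one] at this
  exact this

lemma r8_4' (h3 : (3 : F) = 0) (u t : F) : S.x 8 u * S.x 4 t = S.x 4 t * S.x 8 u := by
  have := S.r8_4 u t
  rw [h3, zero_mul, zero_mul, x_zero S 6 (by norm_num), mul_one] at this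
  exact this

/-- The list of the weights of `x 11, x 8, x 9`. -/
abbrev LLe2 (e1 e2 : F) : List (ℕ × F) := [(11, 1), (8, e1), (9, e2)]

lemma x7_map (h3 : (3 : F) = 0) (t e1 e2 : F) {v : V} (hv : v ∈ Wt S ρ ψ (LLe2 e1 e2)) :
    ρ (S.x 7 t) v ∈ Wt S ρ ψ (LLe2 (e1 + 2 * t * e2) e2) := by
  have h11 : ∀ u, ρ (S.x 11 u) v = ψ (1 * u) • v := fun u => hv (11, 1) (by simp) u
  have h8 : ∀ u, ρ (S.x 8 u) v = ψ (e1 * u) • v := fun u => hv (8, e1) (by simp) u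
  have h9 : ∀ u, ρ (S.x 9 u) v = ψ (e2 * u) • v := fun u => hv (9, e2) (by simp) u
  intro p hp u
  simp only [LLe2, List.mem_cons, List.not_mem_nil, or_false] at hp
  rcases hp with rfl | rfl | rfl
  · exact act_comm (S.comm 7 11 (by simp [commPairs]) t u).symm (h11 u)
  · change ρ (S.x 8 u) (ρ (S.x 7 t) v) = ψ ((e1 + 2 * t * e2) * u) • ρ (S.x 7 t) v
    rw [← rho_mul, r8_7' h3, rho_mul, rho_mul, h9, map_smul, h8, map_smul, map_smul, smul_smul]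
    congr 1
    rw [← AddChar.map_add_eq_mul]
    congr 1
    ring
  · exact act_comm (r9_7' h3 u t) (h9 u)

lemma x4_map (h3 : (3 : F) = 0) (t e1 e2 : F) {v : V} (hv : v ∈ Wt S ρ ψ (LLe2 e1 e2)) :
    ρ (S.x 4 t) v ∈ Wt S ρ ψ (LLe2 e1 (e2 + 2 * t * e1)) := by
  have h11 : ∀ u, ρ (S.x 11 u) v = ψ (1 * u) • v := fun u => hv (11, 1) (by simp) u
  have h8 : ∀ u, ρ (S.x 8 u) v = ψ (e1 * u) • v := fun u => hv (8, e1) (by simp) u
  have h9 : ∀ u, ρ (S.x 9 u) v = ψ (e2 * u) • v := fun u => hv (9, e2) (by simp) u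
  intro p hp u
  simp only [LLe2, List.mem_cons, List.not_mem_nil, or_false] at hp
  rcases hp with rfl | rfl | rfl
  · exact act_comm (S.comm 4 11 (by simp [commPairs]) t u).symm (h11 u)
  · exact act_comm (r8_4' h3 u t) (h8 u)
  · change ρ (S.x 9 u) (ρ (S.x 4 t) v) = ψ ((e2 + 2 * t * e1) * u) • ρ (S.x 4 t) v
    rw [← rho_mul, r9_4' h3, rho_mul, rho_mul, h8, map_smul, h9, map_smul, map_smul, smul_smul]
    congr 1
    rw [← AddChar.map_add_eq_mul]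
    congr 1
    ring

lemma x6_map (a t e1 e2 : F) {v : V} (hv : v ∈ Wt S ρ ψ ((10, a) :: LLe2 e1 e2)) :
    ρ (S.x 6 t) v ∈ Wt S ρ ψ ((10, a - t) :: LLe2 e1 e2) := by
  have h10 : ∀ u, ρ (S.x 10 u) v = ψ (a * u) • v := fun u => hv (10, a) (by simp) u
  have h11 : ∀ u, ρ (S.x 11 u) v = ψ (1 * u) • v := fun u => hv (11, 1) (by simp) u
  have h8 : ∀ u, ρ (S.x 8 u) v = ψ (e1 * u) • v := fun u => hv (8, e1) (by simp) u
  have h9 : ∀ u, ρ (S.x 9 u) v = ψ (e2 * u) • v := fun u => hv (9, e2) (by simp) u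
  intro p hp u
  simp only [LLe2, List.mem_cons, List.not_mem_nil, or_false] at hp
  rcases hp with rfl | rfl | rfl | rfl
  · change ρ (S.x 10 u) (ρ (S.x 6 t) v) = ψ ((a - t) * u) • ρ (S.x 6 t) v
    rw [← rho_mul, S.r10_6, rho_mul, rho_mul, h11, map_smul, h10, map_smul, map_smul, smul_smul]
    congr 1
    rw [← AddChar.map_add_eq_mul]
    congr 1
    ring
  · exact act_comm (S.comm 6 11 (by simp [commPairs]) t u).symm (h11 u)
  · exact act_comm (S.comm 6 8 (by simp [commPairs]) t u).symm (h8 u)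
  · exact act_comm (S.comm 6 9 (by simp [commPairs]) t u).symm (h9 u)

/-- How the torus moves a weight. -/
lemma tor_act {r : ℕ} (hr : r < 12) (s τ : Fˣ) {a : F} {v : V}
    (h : ∀ u, ρ (S.x r u) v = ψ (a * u) • v) (u : F) :
    ρ (S.x r u) (ρ (S.t s τ) v) =
      ψ (a * ((chiV r s τ)⁻¹ : Fˣ) * u) • ρ (S.t s τ) v := by
  have e : S.x r u * S.t s τ = S.t s τ * S.x r ((((chiV r s τ)⁻¹ : Fˣ) : F) * u) := by
    have := S.t_conj s τ r hr (((((chiV r s τ)⁻¹ : Fˣ) : F)) * u)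
    rw [← mul_assoc, Units.mul_inv, one_mul] at this
    rw [← this]
    group
  rw [← rho_mul, e, rho_mul, h, map_smul, mul_assoc]

variable [FiniteDimensional ℂ V]

lemma wr_x7 (h3 : (3 : F) = 0) (t e1 e2 : F) :
    wr S ρ ψ (LLe2 e1 e2) = wr S ρ ψ (LLe2 (e1 + 2 * t * e2) e2) := by
  refine wr_eq_of_maps (S.x 7 t) (fun v hv => x7_map h3 t e1 e2 hv) fun v hv => ?_
  rw [x_inv S 7 (by norm_num)]
  have := x7_map h3 (-t) _ _ hv
  have e : e1 + 2 * t * e2 + 2 * -t * e2 = e1 := by ring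
  rwa [e] at this

lemma wr_x4 (h3 : (3 : F) = 0) (t e1 e2 : F) :
    wr S ρ ψ (LLe2 e1 e2) = wr S ρ ψ (LLe2 e1 (e2 + 2 * t * e1)) := by
  refine wr_eq_of_maps (S.x 4 t) (fun v hv => x4_map h3 t e1 e2 hv) fun v hv => ?_
  rw [x_inv S 4 (by norm_num)]
  have := x4_map h3 (-t) _ _ hv
  have e : e2 + 2 * t * e1 + 2 * -t * e1 = e2 := by ring
  rwa [e] at this

lemma tor_map (c : Fˣ) (e1 e2 : F) {v : V} (hv : v ∈ Wt S ρ ψ (LLe2 e1 e2)) :
    ρ (S.t (c ^ 2) (c ^ 3)⁻¹) v ∈ Wt S ρ ψ (LLe2 (e1 * c) (e2 * (c⁻¹ : Fˣ))) := by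
  have h11 : ∀ u, ρ (S.x 11 u) v = ψ (1 * u) • v := fun u => hv (11, 1) (by simp) u
  have h8 : ∀ u, ρ (S.x 8 u) v = ψ (e1 * u) • v := fun u => hv (8, e1) (by simp) u
  have h9 : ∀ u, ρ (S.x 9 u) v = ψ (e2 * u) • v := fun u => hv (9, e2) (by simp) u
  intro p hp u
  simp only [LLe2, List.mem_cons, List.not_mem_nil, or_false] at hp
  rcases hp with rfl | rfl | rfl
  · have := tor_act (S := S) (by norm_num) (c ^ 2) (c ^ 3)⁻¹ h11 u
    have e : ((chiV 11 (c ^ 2) (c ^ 3)⁻¹)⁻¹ : Fˣ) = 1 := by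
      change (((c ^ 2) ^ 3 * ((c ^ 3)⁻¹) ^ 2)⁻¹ : Fˣ) = 1
      group
    rw [e] at this
    simpa using this
  · have := tor_act (S := S) (by norm_num) (c ^ 2) (c ^ 3)⁻¹ h8 u
    have e : ((chiV 8 (c ^ 2) (c ^ 3)⁻¹)⁻¹ : Fˣ) = c := by
      change ((c ^ 2 * (c ^ 3)⁻¹)⁻¹ : Fˣ) = c
      group
    rw [e] at this
    exact this
  · have := tor_act (S := S) (by norm_num) (c ^ 2) (c ^ 3)⁻¹ h9 u
    have e : ((chiV 9 (c ^ 2) (c ^ 3)⁻¹)⁻¹ : Fˣ) = c⁻¹ := by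
      change (((c ^ 2) ^ 2 * (c ^ 3)⁻¹)⁻¹ : Fˣ) = c⁻¹
      group
    rw [e] at this
    exact this

lemma wr_tor (c : Fˣ) (e1 e2 : F) :
    wr S ρ ψ (LLe2 e1 e2) = wr S ρ ψ (LLe2 (e1 * c) (e2 * (c⁻¹ : Fˣ))) := by
  refine wr_eq_of_maps (S.t (c ^ 2) (c ^ 3)⁻¹) (fun v hv => tor_map c e1 e2 hv) fun v hv => ?_
  have einv : (S.t (c ^ 2) (c ^ 3)⁻¹)⁻¹ = S.t ((c⁻¹) ^ 2) ((c⁻¹) ^ 3)⁻¹ := by
    apply inv_eq_of_mul_eq_one_right
    rw [S.t_mul, ← S.t_one]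
    congr 1 <;> group
  rw [einv]
  have := tor_map c⁻¹ _ _ hv
  have e : e1 * (c : F) * ((c⁻¹ : Fˣ) : F) = e1 := by simp
  have e' : e2 * ((c⁻¹ : Fˣ) : F) * (((c⁻¹)⁻¹ : Fˣ) : F) = e2 := by simp
  rwa [e, e'] at this

lemma two_ne (h3 : (3 : F) = 0) : (2 : F) ≠ 0 := by
  intro h
  have : (1 : F) = 3 - 2 := by norm_num
  rw [h3, h] at this
  simp at this

lemma wr_eq_left (h3 : (3 : F) = 0) {e1 : F} (he : e1 ≠ 0) (e2 : F) :
    wr S ρ ψ (LLe2 e1 e2) = wr S ρ ψ (LLe2 (1 : F) 0) := by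
  have h2 := two_ne h3
  rw [wr_x4 (S := S) (ρ := ρ) (ψ := ψ) h3 (-e2 * (2 * e1)⁻¹) e1 e2]
  have e : e2 + 2 * (-e2 * (2 * e1)⁻¹) * e1 = 0 := by
    field_simp
    ring
  rw [e, wr_tor (S := S) (ρ := ρ) (ψ := ψ) (Units.mk0 e1 he)⁻¹ e1 0]
  simp [he]

lemma wr_eq_one_zero (h3 : (3 : F) = 0) {e1 e2 : F} (he : ¬ (e1 = 0 ∧ e2 = 0)) :
    wr S ρ ψ (LLe2 e1 e2) = wr S ρ ψ (LLe2 (1 : F) 0) := by
  by_cases h1 : e1 = 0
  · subst h1
    have h2 : e2 ≠ 0 := fun h => he ⟨rfl, h⟩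
    rw [wr_x7 (S := S) (ρ := ρ) (ψ := ψ) h3 (2 * e2)⁻¹ 0 e2]
    have e : (0 : F) + 2 * (2 * e2)⁻¹ * e2 = 1 := by
      have := two_ne h3
      field_simp
      ring
    rw [e]
    exact wr_eq_left h3 one_ne_zero e2
  · exact wr_eq_left h3 h1 e2

/-- `x 6` permutes the characters of `x 10`. -/
lemma wr_mul_card [Fintype F] (hψ : ψ ≠ 1) (e1 e2 : F) :
    wr S ρ ψ (LLe2 e1 e2) = Fintype.card F * wr S ρ ψ ((10, (0 : F)) :: LLe2 e1 e2) := by
  have hst : ∀ v ∈ Wt S ρ ψ (LLe2 e1 e2), ∀ w, ρ (S.x 10 w) v ∈ Wt S ρ ψ (LLe2 e1 e2) := by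
    intro v hv w
    have h11 : ∀ u, ρ (S.x 11 u) v = ψ (1 * u) • v := fun u => hv (11, 1) (by simp) u
    have h8 : ∀ u, ρ (S.x 8 u) v = ψ (e1 * u) • v := fun u => hv (8, e1) (by simp) u
    have h9 : ∀ u, ρ (S.x 9 u) v = ψ (e2 * u) • v := fun u => hv (9, e2) (by simp) u
    intro p hp u
    simp only [LLe2, List.mem_cons, List.not_mem_nil, or_false] at hp
    rcases hp with rfl | rfl | rfl
    · exact act_comm (S.comm 10 11 (by simp [commPairs]) w u).symm (h11 u)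
    · exact act_comm (S.comm 8 10 (by simp [commPairs]) u w) (h8 u)
    · exact act_comm (S.comm 9 10 (by simp [commPairs]) u w) (h9 u)
  rw [wr_cons hψ (by norm_num) hst]
  have h : ∀ a : F, wr S ρ ψ ((10, a) :: LLe2 e1 e2) = wr S ρ ψ ((10, (0 : F)) :: LLe2 e1 e2) := by
    intro a
    refine wr_eq_of_maps (S.x 6 a) (fun v hv => ?_) fun v hv => ?_
    · have := x6_map a a e1 e2 hv
      rwa [sub_self] at this
    · rw [x_inv S 6 (by norm_num)]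
      have := x6_map 0 (-a) e1 e2 hv
      rwa [zero_sub, neg_neg] at this
  simp only [h, Finset.sum_const, Finset.card_univ, smul_eq_mul]

lemma wr_9_eq_sum [Fintype F] (hψ : ψ ≠ 1) (h3 : (3 : F) = 0) (e2 : F) :
    wr S ρ ψ [(11, 1), (9, e2)] = ∑ e1 : F, wr S ρ ψ (LLe2 e1 e2) := by
  have hst : ∀ v ∈ Wt S ρ ψ [(11, (1 : F)), (9, e2)], ∀ w,
      ρ (S.x 8 w) v ∈ Wt S ρ ψ [(11, (1 : F)), (9, e2)] := by
    intro v hv w
    have h11 : ∀ u, ρ (S.x 11 u) v = ψ (1 * u) • v := fun u => hv (11, 1) (by simp) u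
    have h9 : ∀ u, ρ (S.x 9 u) v = ψ (e2 * u) • v := fun u => hv (9, e2) (by simp) u
    intro p hp u
    simp only [List.mem_cons, List.not_mem_nil, or_false] at hp
    rcases hp with rfl | rfl
    · exact act_comm (S.comm 8 11 (by simp [commPairs]) w u).symm (h11 u)
    · exact act_comm (r9_8' h3 u w) (h9 u)
  rw [wr_cons hψ (by norm_num) hst]
  refine Finset.sum_congr rfl fun e1 _ => wr_congr S ρ ψ fun p => ?_
  simp only [LLe2, List.mem_cons, List.not_mem_nil, or_false]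
  tauto

lemma wr_11_eq_sum [Fintype F] (hψ : ψ ≠ 1) :
    wr S ρ ψ [(11, (1 : F))] = ∑ e2 : F, wr S ρ ψ [(11, (1 : F)), (9, e2)] := by
  have hst : ∀ v ∈ Wt S ρ ψ [(11, (1 : F))], ∀ w,
      ρ (S.x 9 w) v ∈ Wt S ρ ψ [(11, (1 : F))] := by
    intro v hv w
    have h11 : ∀ u, ρ (S.x 11 u) v = ψ (1 * u) • v := fun u => hv (11, 1) (by simp) u
    intro p hp u
    simp only [List.mem_cons, List.not_mem_nil, or_false] at hp
    subst hp
    exact act_comm (S.comm 9 11 (by simp [commPairs]) w u).symm (h11 u)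
  rw [wr_cons hψ (by norm_num) hst]
  refine Finset.sum_congr rfl fun e2 _ => wr_congr S ρ ψ fun p => ?_
  simp only [List.mem_cons, List.not_mem_nil, or_false]
  tauto

lemma sum_ne_zero_const [Fintype F] (X : ℕ) :
    ∑ e : F, (if e ≠ 0 then X else 0) = (Fintype.card F - 1) * X := by
  rw [Finset.sum_ite, Finset.sum_const_zero, add_zero, Finset.sum_const, smul_eq_mul]
  congr 1
  rw [Finset.filter_ne', Finset.card_erase_of_mem (Finset.mem_univ _), Finset.card_univ]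

lemma sum_split [Fintype F] (f : F → ℕ) :
    ∑ e : F, f e = f 0 + ∑ e : F, (if e ≠ 0 then f e else 0) := by
  rw [Finset.sum_ite, Finset.sum_const_zero, add_zero, Finset.filter_ne',
    Finset.add_sum_erase _ _ (Finset.mem_univ _)]

lemma wr_tor11 {l : F} (hl : l ≠ 0) (e : F) :
    wr S ρ ψ [(11, l), (9, e)] = wr S ρ ψ [(11, (1 : F)), (9, e)] := by
  set c : Fˣ := Units.mk0 l hl with hc
  have hcl : (c : F) = l := rfl
  have e9 : ∀ d : Fˣ, ((chiV 9 d⁻¹ (d ^ 2))⁻¹ : Fˣ) = 1 := by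
    intro d
    change (((d⁻¹) ^ 2 * d ^ 2)⁻¹ : Fˣ) = 1
    group
  have e11 : ∀ d : Fˣ, ((chiV 11 d⁻¹ (d ^ 2))⁻¹ : Fˣ) = d⁻¹ := by
    intro d
    change (((d⁻¹) ^ 3 * (d ^ 2) ^ 2)⁻¹ : Fˣ) = d⁻¹
    group
  have key : ∀ (d : Fˣ) (a : F) {v : V}, v ∈ Wt S ρ ψ [(11, a), (9, e)] →
      ρ (S.t d⁻¹ (d ^ 2)) v ∈ Wt S ρ ψ [(11, a * (d⁻¹ : Fˣ)), (9, e)] := by
    intro d a v hv
    have h11 : ∀ u, ρ (S.x 11 u) v = ψ (a * u) • v := fun u => hv (11, a) (by simp) u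
    have h9 : ∀ u, ρ (S.x 9 u) v = ψ (e * u) • v := fun u => hv (9, e) (by simp) u
    intro p hp u
    simp only [List.mem_cons, List.not_mem_nil, or_false] at hp
    rcases hp with rfl | rfl
    · have := tor_act (S := S) (by norm_num) d⁻¹ (d ^ 2) h11 u
      rw [e11] at this
      exact this
    · have := tor_act (S := S) (by norm_num) d⁻¹ (d ^ 2) h9 u
      rw [e9] at this
      simpa using this
  refine wr_eq_of_maps (S.t c⁻¹ (c ^ 2)) (fun v hv => ?_) fun v hv => ?_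
  · have := key c l hv
    have e1 : l * ((c⁻¹ : Fˣ) : F) = 1 := by
      rw [← hcl]; simp
    rwa [e1] at this
  · have einv : (S.t c⁻¹ (c ^ 2))⁻¹ = S.t (c⁻¹)⁻¹ ((c⁻¹) ^ 2) := by
      apply inv_eq_of_mul_eq_one_right
      rw [S.t_mul, ← S.t_one]
      congr 1 <;> group
    rw [einv]
    have := key c⁻¹ 1 hv
    have e1 : (1 : F) * (((c⁻¹)⁻¹ : Fˣ) : F) = l := by
      rw [← hcl]; simp
    rwa [e1] at this

lemma wr_9_split [Fintype F] (hψ : ψ ≠ 1) (e : F) :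
    wr S ρ ψ [(9, e)] = wr S ρ ψ [(11, (0 : F)), (9, e)] +
      (Fintype.card F - 1) * wr S ρ ψ [(11, (1 : F)), (9, e)] := by
  have hst : ∀ v ∈ Wt S ρ ψ [(9, e)], ∀ w, ρ (S.x 11 w) v ∈ Wt S ρ ψ [(9, e)] := by
    intro v hv w
    have h9 : ∀ u, ρ (S.x 9 u) v = ψ (e * u) • v := fun u => hv (9, e) (by simp) u
    intro p hp u
    simp only [List.mem_cons, List.not_mem_nil, or_false] at hp
    subst hp
    exact act_comm (S.comm 9 11 (by simp [commPairs]) u w) (h9 u)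
  rw [wr_cons hψ (by norm_num) hst, sum_split]
  congr 1
  rw [← sum_ne_zero_const]
  refine Finset.sum_congr rfl fun l _ => ?_
  split_ifs with hl
  · exact wr_tor11 hl e
  · rfl

lemma act_fix11 {v : V} (h : ∀ u, ρ (S.x 11 u) v = ψ (0 * u) • v) (u : F) : ρ (S.x 11 u) v = v := by
  rw [h u]
  simp

lemma wr_L0 [Fintype F] (hψ : ψ ≠ 1) (e : F) :
    wr S ρ ψ [(11, (0 : F)), (9, e)] =
      ∑ c1 : F, ∑ c0 : F, ∑ c3 : F, nf S ρ ψ (c0, c1, e, c3) := by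
  have hst8 : ∀ v ∈ Wt S ρ ψ [(11, (0 : F)), (9, e)], ∀ w,
      ρ (S.x 8 w) v ∈ Wt S ρ ψ [(11, (0 : F)), (9, e)] := by
    intro v hv w
    have h11 : ∀ u, ρ (S.x 11 u) v = ψ (0 * u) • v := fun u => hv (11, 0) (by simp) u
    have h9 : ∀ u, ρ (S.x 9 u) v = ψ (e * u) • v := fun u => hv (9, e) (by simp) u
    intro p hp u
    simp only [List.mem_cons, List.not_mem_nil, or_false] at hp
    rcases hp with rfl | rfl
    · exact act_comm (S.comm 8 11 (by simp [commPairs]) w u).symm (h11 u)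
    · change ρ (S.x 9 u) (ρ (S.x 8 w) v) = ψ (e * u) • ρ (S.x 8 w) v
      rw [← rho_mul, S.r9_8, rho_mul, rho_mul, act_fix11 h11, h9, map_smul]
  rw [wr_cons hψ (by norm_num) hst8]
  refine Finset.sum_congr rfl fun c1 _ => ?_
  have hst6 : ∀ v ∈ Wt S ρ ψ ((8, c1) :: [(11, (0 : F)), (9, e)]), ∀ w,
      ρ (S.x 6 w) v ∈ Wt S ρ ψ ((8, c1) :: [(11, (0 : F)), (9, e)]) := by
    intro v hv w
    have h8 : ∀ u, ρ (S.x 8 u) v = ψ (c1 * u) • v := fun u => hv (8, c1) (by simp) u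
    have h11 : ∀ u, ρ (S.x 11 u) v = ψ (0 * u) • v := fun u => hv (11, 0) (by simp) u
    have h9 : ∀ u, ρ (S.x 9 u) v = ψ (e * u) • v := fun u => hv (9, e) (by simp) u
    intro p hp u
    simp only [List.mem_cons, List.not_mem_nil, or_false] at hp
    rcases hp with rfl | rfl | rfl
    · exact act_comm (S.comm 6 8 (by simp [commPairs]) w u).symm (h8 u)
    · exact act_comm (S.comm 6 11 (by simp [commPairs]) w u).symm (h11 u)
    · exact act_comm (S.comm 6 9 (by simp [commPairs]) w u).symm (h9 u)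
  rw [wr_cons hψ (by norm_num) hst6]
  refine Finset.sum_congr rfl fun c0 _ => ?_
  have hst10 : ∀ v ∈ Wt S ρ ψ ((6, c0) :: (8, c1) :: [(11, (0 : F)), (9, e)]), ∀ w,
      ρ (S.x 10 w) v ∈ Wt S ρ ψ ((6, c0) :: (8, c1) :: [(11, (0 : F)), (9, e)]) := by
    intro v hv w
    have h6 : ∀ u, ρ (S.x 6 u) v = ψ (c0 * u) • v := fun u => hv (6, c0) (by simp) u
    have h8 : ∀ u, ρ (S.x 8 u) v = ψ (c1 * u) • v := fun u => hv (8, c1) (by simp) u
    have h11 : ∀ u, ρ (S.x 11 u) v = ψ (0 * u) • v := fun u => hv (11, 0) (by simp) u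
    have h9 : ∀ u, ρ (S.x 9 u) v = ψ (e * u) • v := fun u => hv (9, e) (by simp) u
    intro p hp u
    simp only [List.mem_cons, List.not_mem_nil, or_false] at hp
    rcases hp with rfl | rfl | rfl | rfl
    · change ρ (S.x 6 u) (ρ (S.x 10 w) v) = ψ (c0 * u) • ρ (S.x 10 w) v
      have e1 : S.x 6 u * S.x 10 w = S.x 10 w * S.x 6 u * S.x 11 (u * w) := by
        have := S.r10_6 w u
        rw [this, mul_assoc, ← S.x_add 11 (by norm_num)]
        simp [x_zero S 11 (by norm_num)]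
      rw [← rho_mul, e1, rho_mul, rho_mul, act_fix11 h11, h6, map_smul]
    · exact act_comm (S.comm 8 10 (by simp [commPairs]) u w) (h8 u)
    · exact act_comm (S.comm 10 11 (by simp [commPairs]) w u).symm (h11 u)
    · exact act_comm (S.comm 9 10 (by simp [commPairs]) u w) (h9 u)
  rw [wr_cons hψ (by norm_num) hst10]
  refine Finset.sum_congr rfl fun c3 _ => wr_congr S ρ ψ fun p => ?_
  simp only [List.mem_cons, List.not_mem_nil, or_false]
  tauto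

end Aux

/-- In characteristic three, `x 8`, `x 9`, `x 11` commute pairwise; `wr [(11, 1), (8, e1), (9, e2)]` is `q` times a number `μ e1 e2` (`x 6` permutes the characters of `x 10` on
it) and `μ e1 e2` is the same for all `(e1, e2) ≠ 0`: `t c² c⁻³` scales `(e1, e2)` to `(c e1, c⁻¹ e2)` up to inverses and fixes `x 11`, `x 7 t` moves `e1` to `e1 + 2 t e2`, `x 4 t` moves `e2` to
`e2 + 2 t e1`. -/
theorem e2nums [Fintype F] [FiniteDimensional ℂ V] (hψ : ψ ≠ 1) (h3 : (3 : F) = 0) {m : ℕ} (hd : wr S ρ ψ [(11, 1)] = Fintype.card F * m) :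
    ∃ m0 m1 : ℕ, m = m0 + (Fintype.card F ^ 2 - 1) * m1 ∧
      ∑ e2 : F, (if e2 ≠ 0 then wr S ρ ψ [(11, 1), (9, e2)] else 0) = (Fintype.card F - 1) * Fintype.card F * (Fintype.card F * m1) := by
  have hq0 : 0 < Fintype.card F := Fintype.card_pos
  refine ⟨wr S ρ ψ ((10, (0 : F)) :: LLe2 (0 : F) 0), wr S ρ ψ ((10, (0 : F)) :: LLe2 (1 : F) 0), ?_, ?_⟩
  · have h1 : wr S ρ ψ [(11, (1 : F))] = ∑ e2 : F, ∑ e1 : F, wr S ρ ψ (LLe2 e1 e2) := by
      rw [wr_11_eq_sum hψ]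
      exact Finset.sum_congr rfl fun e2 _ => wr_9_eq_sum hψ h3 e2
    have h2 : ∑ p : F × F, wr S ρ ψ (LLe2 p.2 p.1) =
        wr S ρ ψ (LLe2 (0 : F) 0) + (Fintype.card F ^ 2 - 1) * wr S ρ ψ (LLe2 (1 : F) 0) := by
      rw [← Finset.add_sum_erase Finset.univ _ (Finset.mem_univ ((0 : F), (0 : F)))]
      congr 1
      have h3' : ∀ p ∈ Finset.univ.erase ((0 : F), (0 : F)),
          wr S ρ ψ (LLe2 p.2 p.1) = wr S ρ ψ (LLe2 (1 : F) 0) := by
        intro p hp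
        apply wr_eq_one_zero h3
        intro h
        exact (Finset.mem_erase.1 hp).1 (Prod.ext h.2 h.1)
      rw [Finset.sum_congr rfl h3', Finset.sum_const, Finset.card_erase_of_mem (Finset.mem_univ _),
        Finset.card_univ, Fintype.card_prod, smul_eq_mul, sq]
    rw [Fintype.sum_prod_type'
      (f := fun (e2 e1 : F) => wr S ρ ψ (LLe2 e1 e2))] at h2
    rw [hd, h2, wr_mul_card hψ (0 : F) 0, wr_mul_card hψ (1 : F) 0] at h1
    apply Nat.eq_of_mul_eq_mul_left hq0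
    rw [h1]
    ring
  · have h1 : ∀ e2 : F, (if e2 ≠ 0 then wr S ρ ψ [(11, (1 : F)), (9, e2)] else 0) =
        if e2 ≠ 0 then Fintype.card F * (Fintype.card F * wr S ρ ψ ((10, (0 : F)) :: LLe2 (1 : F) 0)) else 0 := by
      intro e2
      split_ifs with he
      · rw [wr_9_eq_sum hψ h3]
        rw [Finset.sum_congr rfl (fun e1 _ => wr_eq_one_zero (S := S) (ρ := ρ) (ψ := ψ) h3 (e1 := e1) (e2 := e2)
          (fun h => he h.2)), Finset.sum_const, Finset.card_univ, smul_eq_mul, wr_mul_card hψ]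
      · rfl
    simp only [h1]
    rw [sum_ne_zero_const]
    ring

/-- `k = dim V^{x 9} + (q-1) ∑_{e2 ≠ 0} wr [(11, 1), (9, e2)] + ∑_{c2 ≠ 0} nf c`. (The torus permutes the nontrivial characters `l` of `x 11` and the `e2`'s: `t c⁻¹ c²` is trivial on... `∑_{e2≠0} wr [(11,l),(9,e2)]`
does not depend on `l ≠ 0`.) -/
theorem k_x9 [Fintype F] [FiniteDimensional ℂ V] (hψ : ψ ≠ 1) :
    finrank ℂ V = wr S ρ ψ [(9, 0)] + (Fintype.card F - 1) * (∑ e2 : F, (if e2 ≠ 0 then wr S ρ ψ [(11, 1), (9, e2)] else 0)) +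
      ∑ c : F × F × F × F, (if c.2.2.1 ≠ 0 then nf S ρ ψ c else 0) := by
  have h1 := finrank_eq_sum_x (S := S) (ρ := ρ) hψ (r := 9) (by norm_num)
  rw [sum_split] at h1
  have h2 : ∀ e2 : F, (if e2 ≠ 0 then wr S ρ ψ [(9, e2)] else 0) =
      (if e2 ≠ 0 then ∑ c1 : F, ∑ c0 : F, ∑ c3 : F, nf S ρ ψ (c0, c1, e2, c3) else 0) +
        (Fintype.card F - 1) * (if e2 ≠ 0 then wr S ρ ψ [(11, (1 : F)), (9, e2)] else 0) := by
    intro e2
    split_ifs with he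
    · rw [wr_9_split hψ, wr_L0 hψ]
    · simp
  simp only [h2] at h1
  rw [Finset.sum_add_distrib, ← Finset.mul_sum] at h1
  have h3 : ∑ e2 : F, (if e2 ≠ 0 then ∑ c1 : F, ∑ c0 : F, ∑ c3 : F, nf S ρ ψ (c0, c1, e2, c3) else 0) =
      ∑ c : F × F × F × F, (if c.2.2.1 ≠ 0 then nf S ρ ψ c else 0) := by
    simp only [Fintype.sum_prod_type]
    have h4 : ∀ e2 : F, (if e2 ≠ 0 then ∑ c1 : F, ∑ c0 : F, ∑ c3 : F, nf S ρ ψ (c0, c1, e2, c3) else 0) =
        ∑ c1 : F, ∑ c0 : F, ∑ c3 : F, (if e2 ≠ 0 then nf S ρ ψ (c0, c1, e2, c3) else 0) := by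
      intro e2
      split_ifs with he <;> simp
    simp only [h4]
    rw [Finset.sum_comm, Finset.sum_congr rfl (fun c1 _ => Finset.sum_comm)]
    exact Finset.sum_comm
  rw [h3] at h1
  rw [h1]
  ring

/-- The package of numbers. -/
structure Pk (q k m m0 m1 nc D Wa Wb n0 x9 x11 : ℕ) : Prop where
  rel1 : (q + 1) * m = (q + 1) * q * nc + Wa + q * Wb
  wa_lo : (q - 2) * D ≤ Wa
  wa_hi : Wa ≤ (q + 1) * D
  wb_lo : (q - 2) * D ≤ Wb
  wb_hi : Wb ≤ (q + 1) * D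
  rel2 : k = x9 + (q - 1) * q * ((q - 1) * q * m1 + D)
  rel3 : m = m0 + (q ^ 2 - 1) * m1
  rel4 : k = (q - 1) * q * m + n0 + (q ^ 2 - 1) * (nc + D)
  rel4' : k = x11 + (q - 1) * q * m
  dvd3 : 3 ∣ m
  rel6 : D ≤ q + 1 → Wa = (q - 1) * D ∧ Wb = (q - 1) * D ∧ q ∣ D
  pos : 0 < m

/-- The assembly from `inv_nf`, `exists_m`, `d_pos`, `fib3`, `e2nums`, `k_x9`, `k_eq`, `k_eq_z`. -/
theorem exists_pk [Fintype F] [FiniteDimensional ℂ V] (hψ : ψ ≠ 1) (h3 : (3 : F) = 0) (hq : 9 ≤ Fintype.card F) (hfix : NoFix S ρ)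
    (hV : Nontrivial V) :
    ∃ m m0 m1 nc D Wa Wb : ℕ, Pk (Fintype.card F) (finrank ℂ V) m m0 m1 nc D Wa Wb (wr S ρ ψ (Ul F)) (wr S ρ ψ [(9, 0)]) (wr S ρ ψ [(11, 0)]) := by
  obtain ⟨m, hm1, hm2⟩ := exists_m (S := S) (ρ := ρ) hψ
  have hI := inv_nf (S := S) (ρ := ρ) (ψ := ψ)
  obtain ⟨nc, D, Wa, Wb, h1, h2, h3', h4, h5, h6, h7, h8, h9⟩ := fib3 h3 hq hI hm2
  obtain ⟨m0, m1, h10, h11⟩ := e2nums (S := S) (ρ := ρ) hψ h3 hm1
  have hk9 := k_x9 (S := S) (ρ := ρ) hψ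
  have hk := k_eq (S := S) (ρ := ρ) hψ
  have hkz := k_eq_z (S := S) (ρ := ρ) hψ
  have hd := d_pos (S := S) (ρ := ρ) hψ (by omega) hfix hV
  have hn0 : nf S ρ ψ 0 = wr S ρ ψ (Ul F) := rfl
  refine ⟨m, m0, m1, nc, D, Wa, Wb, ⟨h1, h2, h3', h4, h5, ?_, h10, ?_, ?_, h8, h9, ?_⟩⟩
  · rw [hk9, h11, h7]
    ring
  · rw [hk, hm1, h6, hn0]
    ring
  · rw [hkz, hm1]
    ring
  · apply Nat.pos_of_ne_zero
    rintro rfl
    rw [hm1] at hd
    simp at hd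

end Cfsg.Agent.Lib.MinG2
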