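import Mathlib
import Cfsg.Agent.Lib.MinG2.C3b

/-! Characteristic three: arithmetic. -/

set_option autoImplicit false
set_option linter.unusedSectionVars false
set_option linter.unusedVariables false

namespace Cfsg.Agent.Lib.MinG2

namespace ArAux

/-- The package, without subtractions, `q = s + 2`. -/
structure Nm (s k m m0 m1 nc D Wa Wb n0 x9 x11 : ℕ) : Prop where
  rel1 : (s + 3) * m = (s + 3) * (s + 2) * nc + Wa + (s + 2) * Wb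
  wa_lo : s * D ≤ Wa
  wa_hi : Wa ≤ (s + 3) * D
  wb_lo : s * D ≤ Wb
  wb_hi : Wb ≤ (s + 3) * D
  rel2 : k = x9 + (s + 1) * (s + 2) * ((s + 1) * (s + 2) * m1 + D)
  rel3 : m = m0 + (s + 1) * (s + 3) * m1
  rel4 : k = (s + 1) * (s + 2) * m + n0 + (s + 1) * (s + 3) * (nc + D)
  rel4' : k = x11 + (s + 1) * (s + 2) * m
  dvd3 : 3 ∣ m
  rel6 : D ≤ s + 3 → Wa = (s + 1) * D ∧ Wb = (s + 1) * D ∧ (s + 2) ∣ D
  pos : 0 < m

variable {s k m m0 m1 nc D Wa Wb n0 x9 x11 m' m0' m1' nc' D' Wa' Wb' n0' : ℕ}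

lemma nm_of (P : Pk (s + 2) k m m0 m1 nc D Wa Wb n0 x9 x11) : Nm s k m m0 m1 nc D Wa Wb n0 x9 x11 := by
  have e1 : s + 2 - 1 = s + 1 := by omega
  have e2 : s + 2 - 2 = s := by omega
  have e3 : (s + 2) ^ 2 - 1 = (s + 1) * (s + 3) := by
    have : (s + 2) ^ 2 = (s + 1) * (s + 3) + 1 := by ring
    omega
  have e4 : s + 2 + 1 = s + 3 := by omega
  exact
    { rel1 := by simpa only [e4] using P.rel1
      wa_lo := by simpa only [e2] using P.wa_lo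
      wa_hi := by simpa only [e4] using P.wa_hi
      wb_lo := by simpa only [e2] using P.wb_lo
      wb_hi := by simpa only [e4] using P.wb_hi
      rel2 := by simpa only [e1] using P.rel2
      rel3 := by simpa only [e3] using P.rel3
      rel4 := by simpa only [e1, e3] using P.rel4
      rel4' := by simpa only [e1] using P.rel4'
      dvd3 := P.dvd3
      rel6 := by simpa only [e1, e4] using P.rel6
      pos := P.pos }

lemma le1 (P : Nm s k m m0 m1 nc D Wa Wb n0 x9 x11) : m ≤ (s + 2) * nc + (s + 3) * D := by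
  have h1 := P.wa_hi
  have h2 := Nat.mul_le_mul_left (s + 2) P.wb_hi
  have h3 : (s + 3) * m ≤ (s + 3) * ((s + 2) * nc + (s + 3) * D) := by
    rw [P.rel1]
    nlinarith
  exact Nat.le_of_mul_le_mul_left h3 (by omega)

lemma lo (P : Nm s k m m0 m1 nc D Wa Wb n0 x9 x11) : s * D ≤ m := by
  have h1 := P.wa_lo
  have h2 := Nat.mul_le_mul_left (s + 2) P.wb_lo
  have h4 : 0 ≤ (s + 3) * (s + 2) * nc := Nat.zero_le _
  have h3 : (s + 3) * (s * D) ≤ (s + 3) * m := by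
    rw [P.rel1]
    nlinarith
  exact Nat.le_of_mul_le_mul_left h3 (by omega)

lemma hi (P : Nm s k m m0 m1 nc D Wa Wb n0 x9 x11) (hk : k ≤ (s + 2) ^ 4 + (s + 2) ^ 2) : m ≤ (s + 2) ^ 2 + 2 := by
  by_contra hm
  have hm' : (s + 2) ^ 2 + 3 ≤ m := by omega
  have h1 := le1 P
  have h2 : m ≤ (s + 3) * (nc + D) := by nlinarith
  have h3 : (s + 1) * m ≤ (s + 1) * (s + 3) * (nc + D) := by
    calc (s + 1) * m ≤ (s + 1) * ((s + 3) * (nc + D)) := Nat.mul_le_mul_left _ h2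
      _ = (s + 1) * (s + 3) * (nc + D) := by ring
  have h4 : (s + 1) * (s + 3) * m ≤ k := by
    have r := P.rel4
    nlinarith
  have h5 : (s + 1) * (s + 3) * ((s + 2) ^ 2 + 3) ≤ (s + 1) * (s + 3) * m := Nat.mul_le_mul_left _ hm'
  nlinarith [sq_nonneg s]

lemma key (P : Nm s k m m0 m1 nc D Wa Wb n0 x9 x11) (h3 : 3 ∣ s + 2) (hs : 7 ≤ s)
    (hk : k ≤ (s + 2) ^ 4 + (s + 2) ^ 2) (hm1 : 1 ≤ m1) :
    m = (s + 2) ^ 2 ∧ m1 = 1 ∧ ((nc = s + 2 ∧ D = 0) ∨ (nc = 1 ∧ D = s + 2)) := by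
  have hhi := hi P hk
  have hQ : (s + 2) ^ 2 = (s + 1) * (s + 3) + 1 := by ring
  have hlo : (s + 1) * (s + 3) * m1 ≤ m := by
    have r := P.rel3
    omega
  have hlo1 : (s + 1) * (s + 3) ≤ (s + 1) * (s + 3) * m1 := Nat.le_mul_of_pos_right _ hm1
  have h3Q : 3 ∣ (s + 2) ^ 2 := dvd_pow h3 (by norm_num)
  have hd := P.dvd3
  have hm : m = (s + 2) ^ 2 := by omega
  have hm11 : m1 = 1 := by
    by_contra hne
    have h2 : 2 ≤ m1 := by omega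
    have h4 : (s + 1) * (s + 3) * 2 ≤ (s + 1) * (s + 3) * m1 := Nat.mul_le_mul_left _ h2
    have h5 : 2 ≤ (s + 1) * (s + 3) := by nlinarith
    omega
  have hk2 : (s + 1) * (s + 2) * m + n0 + (s + 1) * (s + 3) * (nc + D) ≤ (s + 2) ^ 4 + (s + 2) ^ 2 := by
    rw [← P.rel4]
    exact hk
  rw [hm] at hk2
  have h4 : (s + 1) * (s + 3) * (nc + D) ≤ (s + 2) ^ 2 * (s + 3) := by nlinarith
  have h5 : (s + 1) * (nc + D) ≤ (s + 2) ^ 2 := by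
    have h6 : (s + 3) * ((s + 1) * (nc + D)) ≤ (s + 3) * (s + 2) ^ 2 := by nlinarith
    exact Nat.le_of_mul_le_mul_left h6 (by omega)
  have h6 : nc + D ≤ s + 3 := by
    by_contra hne
    have h7 : s + 4 ≤ nc + D := by omega
    have h8 := Nat.mul_le_mul_left (s + 1) h7
    nlinarith
  obtain ⟨e1, e2, ⟨n, hn⟩⟩ := P.rel6 (by omega)
  have h7 := P.rel1
  rw [hm, e1, e2, hn] at h7
  have h8 : s + 2 = nc + (s + 1) * n := by
    have h9 : (s + 3) * (s + 2) * (s + 2) = (s + 3) * (s + 2) * (nc + (s + 1) * n) := by nlinarith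
    exact Nat.eq_of_mul_eq_mul_left (by positivity) h9
  have hn1 : n ≤ 1 := by
    by_contra hne
    have h9 : 2 ≤ n := by omega
    have h10 := Nat.mul_le_mul_left (s + 1) h9
    omega
  refine ⟨hm, hm11, ?_⟩
  interval_cases n
  · left
    simp at h8 hn
    exact ⟨h8.symm, hn⟩
  · right
    simp at h8 hn
    exact ⟨by omega, hn⟩

theorem half (P : Nm s k m m0 m1 nc D Wa Wb n0 x9 x11) (P' : Nm s k m' m0' m1' nc' D' Wa' Wb' n0' x11 x9)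
    (h3 : 3 ∣ s + 2) (hs : 7 ≤ s) (hk : k ≤ (s + 2) ^ 4 + (s + 2) ^ 2)
    (e : m = (s + 1) * (s + 2) * m1' + D') (e' : m' = (s + 1) * (s + 2) * m1 + D) (hm1 : 1 ≤ m1) :
    k + (s + 2) + 1 = (s + 2) ^ 4 + (s + 2) ^ 2 + n0 ∧ k + (s + 2) + 1 = (s + 2) ^ 4 + (s + 2) ^ 2 + n0' := by
  obtain ⟨hm, hm11, hD⟩ := key P h3 hs hk hm1
  have hQ : (s + 2) ^ 2 = (s + 1) * (s + 2) + (s + 2) := by ring
  have hm1' : 1 ≤ m1' := by
    by_contra hne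
    have h0 : m1' = 0 := by omega
    rw [h0, mul_zero, zero_add] at e
    have hlo := lo P'
    rw [← e, hm] at hlo
    have hm' : m' ≤ (s + 2) ^ 2 := by
      rw [e', hm11, mul_one, hQ]
      rcases hD with ⟨-, h⟩ | ⟨-, h⟩ <;> omega
    have h5 := Nat.mul_le_mul_right ((s + 2) ^ 2) hs
    have h6 : 0 < (s + 2) ^ 2 := by positivity
    omega
  obtain ⟨hm', hm11', hD'⟩ := key P' h3 hs hk hm1'
  have hDq : nc = 1 ∧ D = s + 2 := by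
    rcases hD with ⟨-, h⟩ | h
    · exfalso
      rw [hm', hm11, mul_one, h, add_zero, hQ] at e'
      omega
    · exact h
  have hDq' : nc' = 1 ∧ D' = s + 2 := by
    rcases hD' with ⟨-, h⟩ | h
    · exfalso
      rw [hm, hm11', mul_one, h, add_zero, hQ] at e
      omega
    · exact h
  constructor
  · have r := P.rel4
    rw [hm, hDq.1, hDq.2] at r
    rw [r]
    ring
  · have r := P'.rel4
    rw [hm', hDq'.1, hDq'.2] at r
    rw [r]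
    ring

end ArAux

/-- The arithmetic of two packages. See `PLAN.md`, paragraph `Ar`. -/
theorem arith {q k m m0 m1 nc D Wa Wb n0 x9 x11 m' m0' m1' nc' D' Wa' Wb' n0' : ℕ} (h3 : 3 ∣ q) (hq : 9 ≤ q)
    (P : Pk q k m m0 m1 nc D Wa Wb n0 x9 x11) (P' : Pk q k m' m0' m1' nc' D' Wa' Wb' n0' x11 x9) (hk : k ≤ q ^ 4 + q ^ 2) :
    k + q + 1 = q ^ 4 + q ^ 2 + n0 ∧ k + q + 1 = q ^ 4 + q ^ 2 + n0' := by
  obtain ⟨s, rfl⟩ : ∃ s, q = s + 2 := ⟨q - 2, by omega⟩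
  have hs : 7 ≤ s := by omega
  have N := ArAux.nm_of P
  have N' := ArAux.nm_of P'
  have hpos : 0 < (s + 1) * (s + 2) := by positivity
  have e : m = (s + 1) * (s + 2) * m1' + D' :=
    Nat.eq_of_mul_eq_mul_left hpos (Nat.add_left_cancel (N.rel4'.symm.trans N'.rel2))
  have e' : m' = (s + 1) * (s + 2) * m1 + D :=
    Nat.eq_of_mul_eq_mul_left hpos (Nat.add_left_cancel (N'.rel4'.symm.trans N.rel2))
  rcases Nat.eq_zero_or_pos m1 with h0 | h1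
  · rcases Nat.eq_zero_or_pos m1' with h0' | h1'
    · exfalso
      rw [h0', mul_zero, zero_add] at e
      rw [h0, mul_zero, zero_add] at e'
      have h5 := ArAux.lo N
      have h6 := ArAux.lo N'
      rw [← e'] at h5
      rw [← e] at h6
      have hmpos := N.pos
      have h7 : s * s * m ≤ m := by
        calc s * s * m = s * (s * m) := by ring
          _ ≤ s * m' := Nat.mul_le_mul_left _ h6
          _ ≤ m := h5
      have h8 : 7 * 7 * m ≤ s * s * m := by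
        apply Nat.mul_le_mul_right
        exact Nat.mul_le_mul hs hs
      omega
    · exact (ArAux.half N' N h3 hs hk e' e h1').symm
  · exact ArAux.half N N' h3 hs hk e e' h1

namespace ArAux

lemma case0 (x : ℤ) (hx : 9 ≤ x) (h : (x ^ 4 + x ^ 2 - x - 1) ∣ x ^ 6 * (x ^ 2 - 1) * (x ^ 6 - 1)) : False := by
  have h1 : (x ^ 3 + x ^ 2 + 2 * x + 1) ∣ (x ^ 6 * (x + 1) ^ 2 * (x ^ 2 + x + 1)) * ((x - 1) ^ 2 * (x ^ 2 - x + 1)) := by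
    have e1 : x ^ 4 + x ^ 2 - x - 1 = (x ^ 3 + x ^ 2 + 2 * x + 1) * (x - 1) := by ring
    have e2 : x ^ 6 * (x ^ 2 - 1) * (x ^ 6 - 1) = (x ^ 6 * (x + 1) ^ 2 * (x ^ 2 + x + 1)) * ((x - 1) ^ 2 * (x ^ 2 - x + 1)) := by ring
    rw [e1, e2] at h
    exact (Dvd.intro _ rfl).trans h
  have c1 : IsCoprime (x ^ 3 + x ^ 2 + 2 * x + 1) x := ⟨1, -(x ^ 2 + x + 2), by ring⟩
  have c2 : IsCoprime (x ^ 3 + x ^ 2 + 2 * x + 1) (x + 1) := ⟨-1, x ^ 2 + 2, by ring⟩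
  have c3 : IsCoprime (x ^ 3 + x ^ 2 + 2 * x + 1) (x ^ 2 + x + 1) := ⟨-x, 1 + x ^ 2, by ring⟩
  have c : IsCoprime (x ^ 3 + x ^ 2 + 2 * x + 1) (x ^ 6 * (x + 1) ^ 2 * (x ^ 2 + x + 1)) :=
    (c1.pow_right.mul_right c2.pow_right).mul_right c3
  obtain ⟨k, hk⟩ := c.dvd_of_dvd_mul_left h1
  have h3 : (x ^ 3 + x ^ 2 + 2 * x + 1) ∣ 175 := by
    refine ⟨((x ^ 3 + x ^ 2 + 2 * x + 1) - 2 * (x - 1) * (x ^ 2 + 2 * x + 4)) * (x ^ 2 - x + 1) * (3 * x ^ 2 + 4 * x + 5) +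
      k * (x ^ 2 + 2 * x + 4) ^ 2 * (3 * x ^ 2 + 4 * x + 5) - 25 * (3 * x - 2), ?_⟩
    linear_combination ((x ^ 2 + 2 * x + 4) ^ 2 * (3 * x ^ 2 + 4 * x + 5)) * hk
  have h4 := Int.le_of_dvd (by norm_num) h3
  nlinarith [mul_self_nonneg x, mul_nonneg (sub_nonneg.2 hx) (sub_nonneg.2 hx)]

lemma case1 (x w t : ℤ) (hw : x = 3 * w) (ht : x = 2 * t + 1) (hx : 9 ≤ x)
    (h : (x ^ 4 + x ^ 2 - 2) ∣ x ^ 6 * (x ^ 2 - 1) * (x ^ 6 - 1)) : False := by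
  have h1 : (x ^ 2 + 2) ∣ x ^ 6 * (x ^ 2 - 1) * (x ^ 6 - 1) := by
    have e1 : x ^ 4 + x ^ 2 - 2 = (x ^ 2 + 2) * (x ^ 2 - 1) := by ring
    rw [e1] at h
    exact (Dvd.intro _ rfl).trans h
  have c1 : IsCoprime (x ^ 2 + 2) x := ⟨-t, 1 + t * x, by linear_combination ht⟩
  have c2 : IsCoprime (x ^ 2 + 2) (x ^ 2 - 1) := ⟨3 * w ^ 2, -(1 + 3 * w ^ 2), by linear_combination (-(x + 3 * w)) * hw⟩
  have c3 : IsCoprime (x ^ 2 + 2) (x ^ 6 - 1) :=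
    ⟨5 - (5 * w ^ 2 + 1) * (x ^ 4 - 2 * x ^ 2 + 4), 5 * w ^ 2 + 1, by linear_combination (5 * (x + 3 * w)) * hw⟩
  have c : IsCoprime (x ^ 2 + 2) (x ^ 6 * (x ^ 2 - 1) * (x ^ 6 - 1)) := (c1.pow_right.mul_right c2).mul_right c3
  have hu := c.isUnit_of_dvd' dvd_rfl h1
  rcases Int.isUnit_iff.mp hu with h5 | h5 <;> nlinarith

lemma case2 (x t : ℤ) (ht : x = 2 * t + 1) (hx : 9 ≤ x)
    (h : (x ^ 4 + x ^ 2 - 1) ∣ x ^ 6 * (x ^ 2 - 1) * (x ^ 6 - 1)) : False := by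
  have e2 : x ^ 6 * (x ^ 2 - 1) * (x ^ 6 - 1) = x ^ 6 * (x ^ 2 - 1) * (x ^ 2 - 1) * (x ^ 4 + x ^ 2 + 1) := by ring
  rw [e2] at h
  have c1 : IsCoprime (x ^ 4 + x ^ 2 - 1) x := ⟨-1, x ^ 3 + x, by ring⟩
  have c2 : IsCoprime (x ^ 4 + x ^ 2 - 1) (x ^ 2 - 1) := ⟨1, -(x ^ 2 + 2), by ring⟩
  have c3 : IsCoprime (x ^ 4 + x ^ 2 - 1) (x ^ 4 + x ^ 2 + 1) := by
    refine ⟨1 + (8 * (t ^ 2 + t) ^ 2 + 6 * (t ^ 2 + t)), -(8 * (t ^ 2 + t) ^ 2 + 6 * (t ^ 2 + t)), ?_⟩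
    subst ht
    ring
  have c : IsCoprime (x ^ 4 + x ^ 2 - 1) (x ^ 6 * (x ^ 2 - 1) * (x ^ 2 - 1) * (x ^ 4 + x ^ 2 + 1)) :=
    ((c1.pow_right.mul_right c2).mul_right c2).mul_right c3
  have hu := c.isUnit_of_dvd' dvd_rfl h
  rcases Int.isUnit_iff.mp hu with h5 | h5 <;> nlinarith [mul_self_nonneg (x ^ 2)]

lemma case3 (x t : ℤ) (ht : x = 2 * t + 1) (hx : 9 ≤ x)
    (h : (x ^ 4 + x ^ 2) ∣ x ^ 6 * (x ^ 2 - 1) * (x ^ 6 - 1)) : False := by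
  have e2 : x ^ 6 * (x ^ 2 - 1) * (x ^ 6 - 1) = x ^ 6 * (x ^ 2 - 1) * (x ^ 2 - 1) * (x ^ 4 + x ^ 2 + 1) := by ring
  rw [e2] at h
  have h1 : (2 * t ^ 2 + 2 * t + 1) ∣ x ^ 6 * (x ^ 2 - 1) * (x ^ 2 - 1) * (x ^ 4 + x ^ 2 + 1) := by
    refine (Dvd.intro (2 * x ^ 2) ?_).trans h
    subst ht
    ring
  have c1 : IsCoprime (2 * t ^ 2 + 2 * t + 1) x := by
    refine ⟨2, -x, ?_⟩
    subst ht
    ring
  have c2 : IsCoprime (2 * t ^ 2 + 2 * t + 1) (x ^ 2 - 1) := by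
    refine ⟨1 - 2 * (t ^ 2 + t), t ^ 2 + t, ?_⟩
    subst ht
    ring
  have c3 : IsCoprime (2 * t ^ 2 + 2 * t + 1) (x ^ 4 + x ^ 2 + 1) := by
    refine ⟨-(4 * (2 * t ^ 2 + 2 * t + 1) - 2), 1, ?_⟩
    subst ht
    ring
  have c : IsCoprime (2 * t ^ 2 + 2 * t + 1) (x ^ 6 * (x ^ 2 - 1) * (x ^ 2 - 1) * (x ^ 4 + x ^ 2 + 1)) :=
    ((c1.pow_right.mul_right c2).mul_right c2).mul_right c3
  have hu := c.isUnit_of_dvd' dvd_rfl h1
  have ht4 : 4 ≤ t := by omega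
  rcases Int.isUnit_iff.mp hu with h5 | h5 <;> nlinarith

end ArAux

/-- The four values of the degree do not divide the order. -/
theorem no_dvd {q n0 : ℕ} (h3 : 3 ∣ q) (hq : 9 ≤ q) (hodd : Odd q) (hn : n0 = 0 ∨ n0 = q - 1 ∨ n0 = q ∨ n0 = q + 1) :
    ¬ (q ^ 4 + q ^ 2 + n0 - q - 1) ∣ q ^ 6 * (q ^ 2 - 1) * (q ^ 6 - 1) := by
  intro hd
  obtain ⟨w, hw⟩ := h3
  obtain ⟨t, ht⟩ := hodd
  have hw' : (q : ℤ) = 3 * (w : ℤ) := by exact_mod_cast hw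
  have ht' : (q : ℤ) = 2 * (t : ℤ) + 1 := by exact_mod_cast ht
  have hx : (9 : ℤ) ≤ (q : ℤ) := by exact_mod_cast hq
  have hq2 : 1 ≤ q ^ 2 := Nat.one_le_pow _ _ (by omega)
  have hq6 : 1 ≤ q ^ 6 := Nat.one_le_pow _ _ (by omega)
  have hqq : q + 1 ≤ q ^ 2 := by nlinarith
  have hq4 : 0 < q ^ 4 := by positivity
  have hR : ((q ^ 6 * (q ^ 2 - 1) * (q ^ 6 - 1) : ℕ) : ℤ) = (q : ℤ) ^ 6 * ((q : ℤ) ^ 2 - 1) * ((q : ℤ) ^ 6 - 1) := by
    rw [Nat.cast_mul, Nat.cast_mul, Nat.cast_sub hq2, Nat.cast_sub hq6]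
    push_cast
    ring
  have hZ := Int.natCast_dvd_natCast.mpr hd
  rw [hR] at hZ
  rcases hn with h | h | h | h <;> rw [h] at hZ
  · have e : (q ^ 4 + q ^ 2 + 0 - q - 1) + q + 1 = q ^ 4 + q ^ 2 := by omega
    have e' : (((q ^ 4 + q ^ 2 + 0 - q - 1 : ℕ)) : ℤ) = (q : ℤ) ^ 4 + (q : ℤ) ^ 2 - q - 1 := by
      have := congrArg (Nat.cast : ℕ → ℤ) e
      push_cast at this
      linarith
    rw [e'] at hZ
    exact ArAux.case0 _ hx hZ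
  · have e : (q ^ 4 + q ^ 2 + (q - 1) - q - 1) + 2 = q ^ 4 + q ^ 2 := by omega
    have e' : (((q ^ 4 + q ^ 2 + (q - 1) - q - 1 : ℕ)) : ℤ) = (q : ℤ) ^ 4 + (q : ℤ) ^ 2 - 2 := by
      have := congrArg (Nat.cast : ℕ → ℤ) e
      push_cast at this
      linarith
    rw [e'] at hZ
    exact ArAux.case1 _ _ _ hw' ht' hx hZ
  · have e : (q ^ 4 + q ^ 2 + q - q - 1) + 1 = q ^ 4 + q ^ 2 := by omega
    have e' : (((q ^ 4 + q ^ 2 + q - q - 1 : ℕ)) : ℤ) = (q : ℤ) ^ 4 + (q : ℤ) ^ 2 - 1 := by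
      have := congrArg (Nat.cast : ℕ → ℤ) e
      push_cast at this
      linarith
    rw [e'] at hZ
    exact ArAux.case2 _ _ ht' hx hZ
  · have e : (q ^ 4 + q ^ 2 + (q + 1) - q - 1) = q ^ 4 + q ^ 2 := by omega
    rw [e] at hZ
    push_cast at hZ
    exact ArAux.case3 _ _ ht' hx hZ

end Cfsg.Agent.Lib.MinG2
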