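import Cfsg.Agent.Lib.MinG2.Sys
import Cfsg.Agent.Lib.WtSpace.Basic

/-! Generalities on the weight spaces `Wt`. -/

set_option autoImplicit false
set_option linter.unusedSectionVars false
set_option linter.unusedVariables false

namespace Cfsg.Agent.Lib.MinG2

open Module

variable {F : Type*} [Field F] {Γ : Type*} [Group Γ] {V : Type*} [AddCommGroup V] [Module ℂ V]
variable (S : Sys F Γ) (ρ : Representation ℂ Γ V) (ψ : AddChar F ℂ)

lemma Wt_congr {l l' : List (ℕ × F)} (h : ∀ p, p ∈ l ↔ p ∈ l') : Wt S ρ ψ l = Wt S ρ ψ l' := by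
  ext v
  simp only [mem_Wt, h]

lemma wr_congr {l l' : List (ℕ × F)} (h : ∀ p, p ∈ l ↔ p ∈ l') : wr S ρ ψ l = wr S ρ ψ l' := by
  unfold wr
  rw [Wt_congr S ρ ψ h]

lemma Wt_nil : Wt S ρ ψ [] = ⊤ := by
  ext v
  simp [mem_Wt]

/-- `x_r(0) = 1`. -/
lemma x_zero (r : ℕ) (hr : r < 12) : S.x r 0 = 1 := by
  have := S.x_add r hr 0 0
  rw [add_zero] at this
  exact (left_eq_mul.mp this)

lemma x_inv (r : ℕ) (hr : r < 12) (u : F) : (S.x r u)⁻¹ = S.x r (-u) := by
  rw [inv_eq_iff_mul_eq_one, ← S.x_add r hr, add_neg_cancel, x_zero S r hr]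

variable {S ρ ψ}

/-- The sum of a nontrivial additive character. -/
theorem sum_psi_mul [Fintype F] (hψ : ψ ≠ 1) {a : F} (ha : a ≠ 0) : ∑ u : F, ψ (a * u) = 0 := by
  have h := Equiv.sum_comp (Equiv.mulLeft₀ a ha) (fun u : F => ψ u)
  simp only [Equiv.mulLeft₀_apply] at h
  rw [h]
  exact AddChar.sum_eq_zero_of_ne_one hψ

/-- If `x_r` stabilises `Wt l`, then `Wt l` is the sum of the weight spaces of `x_r` in it. -/
theorem wr_cons [Fintype F] [FiniteDimensional ℂ V] (hψ : ψ ≠ 1) {r : ℕ} (hr : r < 12) {l : List (ℕ × F)}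
    (hst : ∀ v ∈ Wt S ρ ψ l, ∀ u, ρ (S.x r u) v ∈ Wt S ρ ψ l) :
    wr S ρ ψ l = ∑ a : F, wr S ρ ψ ((r, a) :: l) := by
  classical
  set W := Wt S ρ ψ l with hW
  let p : F → F → ℂ := fun a u => ψ (a * u)
  have hp : Cfsg.Agent.Lib.WtSpace.Basic.Pairing p := by
    refine ⟨?_, ?_, ?_, rfl⟩
    · intro x a b
      simp only [p, mul_add, AddChar.map_add_eq_mul]
    · intro x
      simp [p]
    · intro a ha
      have := sum_psi_mul (ψ := ψ) hψ ha
      simpa only [p, mul_comm] using this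
  let τ : F → Module.End ℂ W := fun u =>
    LinearMap.restrict (ρ (S.x r u) : V →ₗ[ℂ] V) (fun v hv => hst v hv u)
  have hτ : ∀ a b, τ (a + b) = τ a * τ b := by
    intro a b
    ext v
    simp [τ, S.x_add r hr a b]
  have hτ0 : τ 0 = 1 := by
    ext v
    simp [τ, x_zero S r hr]
  have h1 := Cfsg.Agent.Lib.WtSpace.Basic.finrank_eq_sum hp hτ hτ0
  unfold wr
  rw [h1]
  refine Finset.sum_congr rfl fun a _ => ?_
  have hmap : (LinearMap.range (Cfsg.Agent.Lib.WtSpace.Basic.ee p τ a)).map W.subtype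
      = Wt S ρ ψ ((r, a) :: l) := by
    ext v
    constructor
    · rintro ⟨w, hw, rfl⟩
      have hw' := (Cfsg.Agent.Lib.WtSpace.Basic.mem_range_ee hp hτ hτ0).1 hw
      intro q hq u
      rcases List.mem_cons.1 hq with rfl | hq
      · have := congrArg Subtype.val (hw' u)
        simpa [τ, p] using this
      · exact w.2 q hq u
    · intro hv
      have hvW : v ∈ W := fun q hq u => hv q (List.mem_cons_of_mem _ hq) u
      refine ⟨⟨v, hvW⟩, ?_, rfl⟩
      refine (Cfsg.Agent.Lib.WtSpace.Basic.mem_range_ee hp hτ hτ0).2 fun c => ?_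
      apply Subtype.ext
      have := hv (r, a) (List.mem_cons_self) c
      simpa [τ, p] using this
  rw [← hmap]
  exact (Submodule.equivMapOfInjective W.subtype W.injective_subtype _).finrank_eq

/-- A group element and its inverse exchanging two weight spaces. -/
theorem wr_eq_of_maps [FiniteDimensional ℂ V] (g : Γ) {l l' : List (ℕ × F)} (h1 : ∀ v ∈ Wt S ρ ψ l, ρ g v ∈ Wt S ρ ψ l')
    (h2 : ∀ v ∈ Wt S ρ ψ l', ρ g⁻¹ v ∈ Wt S ρ ψ l) : wr S ρ ψ l = wr S ρ ψ l' := by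
  have hinj : ∀ h : Γ, Function.Injective (ρ h : V →ₗ[ℂ] V) := by
    intro h a b hab
    have h3 := congrArg (ρ h⁻¹ : V →ₗ[ℂ] V) hab
    rw [← Module.End.mul_apply, ← Module.End.mul_apply, ← map_mul] at h3
    simpa using h3
  exact le_antisymm (Cfsg.Agent.Lib.WtSpace.Basic.finrank_le_of_map (hinj g) h1)
    (Cfsg.Agent.Lib.WtSpace.Basic.finrank_le_of_map (hinj g⁻¹) h2)

/-- The finrank of `V`. -/
theorem finrank_eq_sum_x [Fintype F] [FiniteDimensional ℂ V] (hψ : ψ ≠ 1) {r : ℕ} (hr : r < 12) :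
    finrank ℂ V = ∑ a : F, wr S ρ ψ [(r, a)] := by
  have h := wr_cons (S := S) (ρ := ρ) hψ hr (l := []) (by
    intro v _ u
    rw [Wt_nil]
    trivial)
  rw [← h, wr, Wt_nil, finrank_top]

/-- If `g⁻¹ x_r(u) g` acts on `v` by `ψ (a * u)`, then `x_r(u)` acts on `g v` by `ψ (a * u)`. -/
lemma act_of_conj {g : Γ} {r : ℕ} {a : F} {v : V} {u : F}
    (h : ρ (g⁻¹ * S.x r u * g) v = ψ (a * u) • v) : ρ (S.x r u) (ρ g v) = ψ (a * u) • ρ g v := by
  have e : S.x r u * g = g * (g⁻¹ * S.x r u * g) := by group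
  rw [← Module.End.mul_apply, ← map_mul, e, map_mul, Module.End.mul_apply, h, map_smul]

end Cfsg.Agent.Lib.MinG2
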