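import Cfsg.Agent.Lib.MinG2.Orb

/-! Characteristic three: combinatorics of the weights. -/

set_option autoImplicit false
set_option linter.unusedSectionVars false
set_option linter.unusedVariables false

namespace Cfsg.Agent.Lib.MinG2

open Module
open scoped Classical

variable {F : Type*} [Field F] [Fintype F] {n : F × F × F × F → ℕ}

/-- The zeros of the binary cubic of `c` on the projective line. -/
noncomputable def zc (c : F × F × F × F) : ℕ :=
  (Finset.univ.filter fun p : F => c.1 + c.2.1 * p + c.2.2.1 * p ^ 2 - c.2.2.2 * p ^ 3 = 0).card + if c.2.2.2 = 0 then 1 else 0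

namespace C3Aux

/-- The cubic of `c`. -/
def ff (c : F × F × F × F) (p : F) : F := c.1 + c.2.1 * p + c.2.2.1 * p ^ 2 - c.2.2.2 * p ^ 3

/-- The shift of the weights. -/
def sft (t : F) (c : F × F × F × F) : F × F × F × F :=
  (c.1 + c.2.1 * t + c.2.2.1 * t ^ 2 - c.2.2.2 * t ^ 3, c.2.1 + 2 * c.2.2.1 * t - 3 * c.2.2.2 * t ^ 2,
    c.2.2.1 - 3 * c.2.2.2 * t, c.2.2.2)

lemma sft_sft (s t : F) (c : F × F × F × F) : sft s (sft t c) = sft (s + t) c := by
  obtain ⟨c0, c1, c2, c3⟩ := c
  simp only [sft, Prod.mk.injEq]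
  exact ⟨by ring, by ring, by ring, trivial⟩

lemma sft_zero (c : F × F × F × F) : sft 0 c = c := by
  obtain ⟨c0, c1, c2, c3⟩ := c
  simp [sft]

/-- The shift as a bijection. -/
def sftE (t : F) : (F × F × F × F) ≃ (F × F × F × F) where
  toFun := sft t
  invFun := sft (-t)
  left_inv c := by simp [sft_sft, sft_zero]
  right_inv c := by simp [sft_sft, sft_zero]

lemma n_sft (hI : Inv n) (t : F) (c : F × F × F × F) : n (sft t c) = n c :=
  (hI.shift t c.1 c.2.1 c.2.2.1 c.2.2.2).symm

lemma ff_sft (t p : F) (c : F × F × F × F) : ff (sft t c) p = ff c (p + t) := by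
  obtain ⟨c0, c1, c2, c3⟩ := c
  simp only [ff, sft]
  ring

lemma ff_sft_zero (t : F) (c : F × F × F × F) : (sft t c).1 = ff c t := rfl

lemma zc_eq (c : F × F × F × F) :
    zc c = (Finset.univ.filter fun p : F => ff c p = 0).card + if c.2.2.2 = 0 then 1 else 0 := rfl

lemma zc_sft (t : F) (c : F × F × F × F) : zc (sft t c) = zc c := by
  rw [zc_eq, zc_eq]
  congr 1
  apply Finset.card_bij (fun p _ => p + t)
  · intro p hp
    simp only [Finset.mem_filter, Finset.mem_univ, true_and] at hp ⊢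
    rwa [ff_sft] at hp
  · intro a _ b _ h
    exact add_right_cancel h
  · intro b hb
    refine ⟨b - t, ?_, by ring⟩
    simp only [Finset.mem_filter, Finset.mem_univ, true_and] at hb ⊢
    rw [ff_sft, sub_add_cancel]
    exact hb

/-- Scaling of the weights. -/
def scl (a : F) (c : F × F × F × F) : F × F × F × F := (c.1 * a, c.2.1 * a, c.2.2.1 * a, c.2.2.2 * a)

lemma n_scl (hI : Inv n) {a : F} (ha : a ≠ 0) (c : F × F × F × F) : n (scl a c) = n c := by
  have h := hI.torus 1 (Units.mk0 a ha)⁻¹ c.1 c.2.1 c.2.2.1 c.2.2.2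
  simp only [one_pow, one_mul, inv_inv, Units.val_mk0] at h
  exact h.symm

lemma ff_scl (a p : F) (c : F × F × F × F) : ff (scl a c) p = a * ff c p := by
  obtain ⟨c0, c1, c2, c3⟩ := c
  simp only [ff, scl]
  ring

lemma zc_scl {a : F} (ha : a ≠ 0) (c : F × F × F × F) : zc (scl a c) = zc c := by
  rw [zc_eq, zc_eq]
  congr 1
  · congr 1
    ext p
    simp [ff_scl, ha]
  · simp [scl, ha]

/-- Number of zeros of a polynomial. -/
lemma card_zeros_le (P : Polynomial F) (hP : P ≠ 0) :
    (Finset.univ.filter fun p : F => P.eval p = 0).card ≤ P.natDegree := by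
  have hsub : (Finset.univ.filter fun p : F => P.eval p = 0) ⊆ P.roots.toFinset := by
    intro p hp
    simp only [Finset.mem_filter, Finset.mem_univ, true_and] at hp
    simp only [Multiset.mem_toFinset, Polynomial.mem_roots hP, Polynomial.IsRoot.def]
    exact hp
  calc _ ≤ P.roots.toFinset.card := Finset.card_le_card hsub
    _ ≤ Multiset.card P.roots := Multiset.toFinset_card_le _
    _ ≤ _ := Polynomial.card_roots' P

/-- The polynomial of `ff`. -/
noncomputable def pf (c : F × F × F × F) : Polynomial F :=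
  Polynomial.C c.1 + Polynomial.C c.2.1 * Polynomial.X + Polynomial.C c.2.2.1 * Polynomial.X ^ 2 -
    Polynomial.C c.2.2.2 * Polynomial.X ^ 3

lemma pf_eval (c : F × F × F × F) (p : F) : (pf c).eval p = ff c p := by
  simp [pf, ff]

lemma pf_coeff (c : F × F × F × F) :
    (pf c).coeff 0 = c.1 ∧ (pf c).coeff 1 = c.2.1 ∧ (pf c).coeff 2 = c.2.2.1 ∧ (pf c).coeff 3 = -c.2.2.2 := by
  simp [pf, Polynomial.coeff_X, Polynomial.coeff_C]

lemma pf_ne_zero {c : F × F × F × F} (hc : c ≠ 0) : pf c ≠ 0 := by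
  intro h
  apply hc
  obtain ⟨h0, h1, h2, h3⟩ := pf_coeff c
  rw [h] at h0 h1 h2 h3
  simp only [Polynomial.coeff_zero] at h0 h1 h2 h3
  obtain ⟨c0, c1, c2, c3⟩ := c
  simp only at h0 h1 h2 h3
  have h3' : c3 = 0 := by simpa using h3.symm
  subst h0 h1 h2 h3'
  rfl

lemma pf_natDegree_le (c : F × F × F × F) : (pf c).natDegree ≤ 3 := by
  unfold pf
  compute_degree

lemma pf_natDegree_le' {c : F × F × F × F} (h : c.2.2.2 = 0) : (pf c).natDegree ≤ 2 := by
  unfold pf
  rw [h]
  simp only [map_zero, zero_mul, sub_zero]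
  compute_degree

/-- A nonzero cubic has at most three zeros on the projective line. -/
lemma zc_le {c : F × F × F × F} (hc : c ≠ 0) : zc c ≤ 3 := by
  rw [zc_eq]
  have h := card_zeros_le (pf c) (pf_ne_zero hc)
  simp only [pf_eval] at h
  by_cases h3 : c.2.2.2 = 0
  · simp only [h3, if_true]
    have := pf_natDegree_le' h3
    omega
  · simp only [h3, if_false]
    have := pf_natDegree_le c
    omega

lemma card_zeros_le_three {c : F × F × F × F} (hc : c ≠ 0) :
    (Finset.univ.filter fun p : F => ff c p = 0).card ≤ 3 := by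
  have h := card_zeros_le (pf c) (pf_ne_zero hc)
  simp only [pf_eval] at h
  have := pf_natDegree_le c
  omega

/-- The sum over the shifted condition. -/
lemma sum_shift (hI : Inv n) (t : F) :
    ∑ c : F × F × F × F, (if ff c t ≠ 0 then n c else 0) =
      ∑ c : F × F × F × F, (if c.1 ≠ 0 then n c else 0) := by
  rw [← (sftE t).sum_comp (fun c : F × F × F × F => if c.1 ≠ 0 then n c else 0)]
  apply Finset.sum_congr rfl
  intro c _
  change _ = if (sft t c).1 ≠ 0 then n (sft t c) else 0
  rw [n_sft hI, ff_sft_zero]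

/-- The sum over `c3 ≠ 0`, by the swap. -/
lemma sum_swap (hI : Inv n) :
    ∑ c : F × F × F × F, (if c.2.2.2 ≠ 0 then n c else 0) =
      ∑ c : F × F × F × F, (if c.1 ≠ 0 then n c else 0) := by
  obtain ⟨e0, e1, e2, e3, h0, h1, h2, h3, hs⟩ := hI.swap
  have hsq : ∀ e : F, (e = 1 ∨ e = -1) → e * e = 1 := by
    rintro e (rfl | rfl) <;> simp
  have hne : ∀ e : F, (e = 1 ∨ e = -1) → e ≠ 0 := by
    intro e he h
    have := hsq e he
    rw [h] at this
    simp at this
  let E : (F × F × F × F) ≃ (F × F × F × F) :=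
    { toFun := fun c => (e0 * c.2.2.2, e1 * c.2.2.1, e2 * c.2.1, e3 * c.1)
      invFun := fun c => (e3 * c.2.2.2, e2 * c.2.2.1, e1 * c.2.1, e0 * c.1)
      left_inv := by
        rintro ⟨c0, c1, c2, c3⟩
        simp only [← mul_assoc, hsq e0 h0, hsq e1 h1, hsq e2 h2, hsq e3 h3, one_mul]
      right_inv := by
        rintro ⟨c0, c1, c2, c3⟩
        simp only [← mul_assoc, hsq e0 h0, hsq e1 h1, hsq e2 h2, hsq e3 h3, one_mul] }
  rw [← E.sum_comp (fun c : F × F × F × F => if c.1 ≠ 0 then n c else 0)]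
  apply Finset.sum_congr rfl
  rintro ⟨c0, c1, c2, c3⟩ _
  change (if c3 ≠ 0 then n (c0, c1, c2, c3) else 0) = if e0 * c3 ≠ 0 then n (e0 * c3, e1 * c2, e2 * c1, e3 * c0) else 0
  rw [← hs c0 c1 c2 c3]
  simp [hne e0 h0]

lemma zc_le_q (c : F × F × F × F) : zc c ≤ Fintype.card F + 1 := by
  rw [zc_eq]
  have h1 : (Finset.univ.filter fun p : F => ff c p = 0).card ≤ Fintype.card F := by
    simpa using Finset.card_filter_le (Finset.univ : Finset F) (fun p : F => ff c p = 0)
  split_ifs <;> omega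

lemma q_sub_zc (c : F × F × F × F) :
    Fintype.card F + 1 - zc c =
      ∑ p : F, (if ff c p ≠ 0 then 1 else 0) + if c.2.2.2 ≠ 0 then 1 else 0 := by
  rw [zc_eq]
  have h1 : (Finset.univ.filter fun p : F => ff c p = 0).card +
      (Finset.univ.filter fun p : F => ¬ ff c p = 0).card = Fintype.card F := by
    rw [Finset.card_filter_add_card_filter_not]
    simp
  have h2 : ∑ p : F, (if ff c p ≠ 0 then 1 else 0) = (Finset.univ.filter fun p : F => ¬ ff c p = 0).card := by
    rw [Finset.card_filter]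
  rw [h2]
  by_cases h3 : c.2.2.2 = 0
  · simp only [h3, if_true, ne_eq, not_true_eq_false, if_false]
    omega
  · simp only [h3, if_false, ne_eq, not_false_eq_true, if_true]
    omega

end C3Aux

open C3Aux in
/-- For each `p` on the projective line, `∑_{f_c(p) ≠ 0} n c = (q-1) m` (shift, and swap for `∞`); summing over `p`, `∑ n c (q + 1 - zc c) = (q² - 1) m`. -/
theorem sum_zc (hI : Inv n) {m : ℕ} (hE : ∑ c : F × F × F × F, (if c.1 ≠ 0 then n c else 0) = (Fintype.card F - 1) * m) :
    ∑ c : F × F × F × F, n c * (Fintype.card F + 1 - zc c) = (Fintype.card F ^ 2 - 1) * m := by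
  have hq : 1 ≤ Fintype.card F := Fintype.card_pos
  have e1 : ∀ c : F × F × F × F, n c * (Fintype.card F + 1 - zc c) =
      ∑ p : F, (if ff c p ≠ 0 then n c else 0) + if c.2.2.2 ≠ 0 then n c else 0 := by
    intro c
    rw [q_sub_zc, mul_add, Finset.mul_sum]
    congr 1
    · apply Finset.sum_congr rfl
      intro p _
      split_ifs <;> simp
    · split_ifs <;> simp
  simp only [e1]
  rw [Finset.sum_add_distrib, Finset.sum_comm]
  simp only [sum_shift hI, sum_swap hI, hE]
  simp only [Finset.sum_const, Finset.card_univ, smul_eq_mul]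
  obtain ⟨r, hr⟩ : ∃ r, Fintype.card F = r + 1 := ⟨Fintype.card F - 1, by omega⟩
  rw [hr]
  have : (r + 1) ^ 2 - 1 = r * (r + 2) := by
    apply Nat.sub_eq_of_eq_add
    ring
  rw [this]
  simp only [Nat.add_sub_cancel]
  ring


namespace C3Aux

/-- Translation-invariant functions in characteristic three have sums divisible by three. -/
lemma three_dvd_sum (h3 : (3 : F) = 0) (h : F → ℕ) {a : F} (ha : a ≠ 0) (hi : ∀ x, h (x + a) = h x) :
    3 ∣ ∑ x, h x := by
  have hcube : ∀ x y : F, (x - y) ^ 3 = x ^ 3 - y ^ 3 := fun x y => by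
    have : (x - y) ^ 3 = x ^ 3 - y ^ 3 - 3 * (x ^ 2 * y - x * y ^ 2) := by ring
    rw [this, h3]
    ring
  have h2a : a + a ≠ 0 := by
    intro h0
    apply ha
    linear_combination a * h3 - h0
  rw [← Finset.sum_fiberwise Finset.univ (fun x => x ^ 3 - a ^ 2 * x) h]
  apply Finset.dvd_sum
  intro y _
  by_cases hne : ∃ x0, x0 ^ 3 - a ^ 2 * x0 = y
  · obtain ⟨x0, rfl⟩ := hne
    have hfib : (Finset.univ.filter fun x => x ^ 3 - a ^ 2 * x = x0 ^ 3 - a ^ 2 * x0) = {x0, x0 + a, x0 + a + a} := by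
      ext x
      simp only [Finset.mem_filter, Finset.mem_univ, true_and, Finset.mem_insert, Finset.mem_singleton]
      constructor
      · intro hx
        have : (x - x0) * ((x - x0 - a) * (x - x0 + a)) = 0 := by
          have e : (x - x0) * ((x - x0 - a) * (x - x0 + a)) = (x - x0) ^ 3 - a ^ 2 * (x - x0) := by ring
          rw [e, hcube]
          linear_combination hx
        rcases mul_eq_zero.mp this with h | h
        · left
          exact sub_eq_zero.mp h
        rcases mul_eq_zero.mp h with h | h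
        · right; left
          linear_combination h
        · right; right
          linear_combination h - a * h3
      · rintro (rfl | rfl | rfl)
        · rfl
        · linear_combination (x0 ^ 2 * a + x0 * a ^ 2) * h3
        · linear_combination (x0 ^ 2 * 2 * a + x0 * (a ^ 2 * 4) + 2 * a ^ 3) * h3
    have hn1 : x0 ≠ x0 + a := fun h0 => ha (by linear_combination -h0)
    have hn2 : x0 ≠ x0 + a + a := by
      intro h0
      apply h2a
      linear_combination -h0
    have hn3 : x0 + a ≠ x0 + a + a := fun h0 => ha (by linear_combination -h0)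
    rw [hfib, Finset.sum_insert (by simp [hn1, hn2]), Finset.sum_insert (by simp [hn3]), Finset.sum_singleton, hi,
      hi, hi]
    exact ⟨h x0, by ring⟩
  · have : (Finset.univ.filter fun x => x ^ 3 - a ^ 2 * x = y) = ∅ := by
      ext x
      simp only [Finset.mem_filter, Finset.mem_univ, true_and, Finset.notMem_empty, iff_false]
      exact fun hx => hne ⟨x, hx⟩
    rw [this]
    simp

/-- The fibre sums over `(c1, c2)`. -/
def AA (w : F × F × F × F → ℕ) (c1 c2 : F) : ℕ := ∑ c3 : F, ∑ c0 : F, w (c0, c1, c2, c3)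

lemma sum_eq_AA (w : F × F × F × F → ℕ) : ∑ c, w c = ∑ c1, ∑ c2, AA w c1 c2 := by
  simp only [AA, Fintype.sum_prod_type]
  rw [Finset.sum_comm]
  apply Finset.sum_congr rfl
  intro c1 _
  rw [Finset.sum_comm]
  apply Finset.sum_congr rfl
  intro c2 _
  rw [Finset.sum_comm]

lemma AA_scl (w : F × F × F × F → ℕ) (hw : ∀ a : F, a ≠ 0 → ∀ c, w (scl a c) = w c) {a : F} (ha : a ≠ 0)
    (c1 c2 : F) : AA w (c1 * a) (c2 * a) = AA w c1 c2 := by
  unfold AA
  rw [← Equiv.sum_comp (Equiv.mulRight₀ a ha)]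
  apply Finset.sum_congr rfl
  intro c3 _
  rw [← Equiv.sum_comp (Equiv.mulRight₀ a ha)]
  apply Finset.sum_congr rfl
  intro c0 _
  exact hw a ha (c0, c1, c2, c3)

lemma sft_char3 (h3 : (3 : F) = 0) (t c0 c1 c2 c3 : F) :
    sft t (c0, c1, c2, c3) = (c0 + (c1 * t + c2 * t ^ 2 - c3 * t ^ 3), c1 + 2 * c2 * t, c2, c3) := by
  simp only [sft, h3, Prod.mk.injEq]
  exact ⟨by ring, by ring, by ring, trivial⟩

lemma AA_sft (h3 : (3 : F) = 0) (w : F × F × F × F → ℕ) (hw : ∀ t c, w (sft t c) = w c) (c1 c2 t : F) :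
    AA w (c1 + 2 * c2 * t) c2 = AA w c1 c2 := by
  unfold AA
  apply Finset.sum_congr rfl
  intro c3 _
  rw [← Equiv.sum_comp (Equiv.addRight (c1 * t + c2 * t ^ 2 - c3 * t ^ 3)) (fun c0 => w (c0, c1 + 2 * c2 * t, c2, c3))]
  apply Finset.sum_congr rfl
  intro c0 _
  have := hw t (c0, c1, c2, c3)
  rw [sft_char3 h3] at this
  exact this

lemma two_ne (h3 : (3 : F) = 0) : (2 : F) ≠ 0 := by
  intro h
  have : (1 : F) = 0 := by linear_combination h3 - h
  exact one_ne_zero this

lemma AA_c2 (h3 : (3 : F) = 0) (w : F × F × F × F → ℕ) (hs : ∀ t c, w (sft t c) = w c)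
    (hw : ∀ a : F, a ≠ 0 → ∀ c, w (scl a c) = w c) {c2 : F} (h2 : c2 ≠ 0) (c1 : F) : AA w c1 c2 = AA w 0 1 := by
  have h := AA_sft h3 w hs c1 c2 (-c1 / (2 * c2))
  have e : c1 + 2 * c2 * (-c1 / (2 * c2)) = 0 := by
    field_simp [two_ne h3]
    ring
  rw [e] at h
  rw [← h]
  have := AA_scl w hw h2 0 1
  simpa using this

lemma AA_c1 (w : F × F × F × F → ℕ) (hw : ∀ a : F, a ≠ 0 → ∀ c, w (scl a c) = w c) {c1 : F} (h1 : c1 ≠ 0) :
    AA w c1 0 = AA w 1 0 := by
  have := AA_scl w hw h1 1 0
  simpa using this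

/-- Sum of a function constant off zero. -/
lemma sum_off_zero (g : F → ℕ) {K : ℕ} (hg : ∀ x, x ≠ 0 → g x = K) :
    ∑ x, g x = g 0 + (Fintype.card F - 1) * K := by
  rw [← Finset.add_sum_erase Finset.univ g (Finset.mem_univ (0 : F))]
  congr 1
  rw [Finset.sum_congr rfl (fun x hx => hg x (Finset.ne_of_mem_erase hx))]
  simp [Finset.card_erase_of_mem, Finset.card_univ]

lemma sum_decomp (h3 : (3 : F) = 0) (w : F × F × F × F → ℕ) (hs : ∀ t c, w (sft t c) = w c)
    (hw : ∀ a : F, a ≠ 0 → ∀ c, w (scl a c) = w c) :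
    ∑ c, w c = AA w 0 0 + (Fintype.card F - 1) * AA w 1 0 + Fintype.card F * (Fintype.card F - 1) * AA w 0 1 := by
  rw [sum_eq_AA]
  have h1 : ∀ c1 : F, ∑ c2, AA w c1 c2 = AA w c1 0 + (Fintype.card F - 1) * AA w 0 1 := fun c1 =>
    sum_off_zero (fun c2 => AA w c1 c2) (fun c2 hc2 => AA_c2 h3 w hs hw hc2 c1)
  simp only [h1, Finset.sum_add_distrib]
  rw [sum_off_zero (fun c1 => AA w c1 0) (fun c1 hc1 => AA_c1 w hw hc1)]
  simp only [Finset.sum_const, Finset.card_univ, smul_eq_mul]
  ring

lemma cube_root (h3 : (3 : F) = 0) (a : F) : ∃ b : F, b ^ 3 = a := by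
  have hinj : Function.Injective (fun x : F => x ^ 3) := by
    intro x y hxy
    simp only at hxy
    have : (x - y) ^ 3 = 0 := by
      have e : (x - y) ^ 3 = x ^ 3 - y ^ 3 - 3 * (x ^ 2 * y - x * y ^ 2) := by ring
      rw [e, hxy, h3]
      ring
    exact sub_eq_zero.mp (pow_eq_zero_iff (by norm_num) |>.mp this)
  exact (Finite.injective_iff_surjective.mp hinj) a

/-- The weight `(c0, 0, 0, c3) ≠ 0` are all in one orbit. -/
lemma n_00 (h3 : (3 : F) = 0) (hI : Inv n) {c0 c3 : F} (hc : c0 ≠ 0 ∨ c3 ≠ 0) :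
    n (c0, 0, 0, c3) = n (1, 0, 0, 0) := by
  have key : ∀ x : F, x ≠ 0 → n (x, 0, 0, 0) = n (1, 0, 0, 0) := by
    intro x hx
    have := n_scl hI (inv_ne_zero hx) (x, 0, 0, 0)
    simp only [scl, zero_mul, mul_inv_cancel₀ hx] at this
    exact this.symm
  by_cases h : c3 = 0
  · subst h
    have hx : c0 ≠ 0 := by simpa using hc
    exact key c0 hx
  · obtain ⟨e0, e1, e2, e3, h0, h1, h2, h3', hs⟩ := hI.swap
    obtain ⟨b, hb⟩ := cube_root h3 (c0 / c3)
    have h4 := n_sft hI b (c0, 0, 0, c3)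
    rw [sft_char3 h3] at h4
    have e : c0 + (0 * b + 0 * b ^ 2 - c3 * b ^ 3) = 0 := by
      rw [hb]
      field_simp
      ring
    rw [e] at h4
    simp only [mul_zero, zero_mul, add_zero] at h4
    rw [← h4, hs 0 0 0 c3]
    simp only [mul_zero]
    apply key
    apply mul_ne_zero _ h
    rcases h0 with rfl | rfl <;> simp

lemma zc_00 (h3 : (3 : F) = 0) {c0 c3 : F} (hc : c0 ≠ 0 ∨ c3 ≠ 0) : zc (c0, (0 : F), (0 : F), c3) = 1 := by
  rw [zc_eq]
  by_cases h : c3 = 0
  · subst h
    have hx : c0 ≠ 0 := by simpa using hc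
    have : (Finset.univ.filter fun p : F => ff (c0, (0 : F), (0 : F), (0 : F)) p = 0) = ∅ := by
      ext p
      simp [ff, hx]
    simp [this]
  · obtain ⟨b, hb⟩ := cube_root h3 (c0 / c3)
    have : (Finset.univ.filter fun p : F => ff (c0, (0 : F), (0 : F), c3) p = 0) = {b} := by
      ext p
      simp only [Finset.mem_filter, Finset.mem_univ, true_and, Finset.mem_singleton]
      simp only [ff]
      constructor
      · intro hp
        have h5 : p ^ 3 = b ^ 3 := by
          rw [hb]
          field_simp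
          linear_combination -hp
        have : (p - b) ^ 3 = 0 := by
          have e : (p - b) ^ 3 = p ^ 3 - b ^ 3 - 3 * (p ^ 2 * b - p * b ^ 2) := by ring
          rw [e, h5, h3]
          ring
        exact sub_eq_zero.mp (pow_eq_zero_iff (by norm_num) |>.mp this)
      · rintro rfl
        rw [hb]
        field_simp
        ring
    simp [this, h]

lemma zc_zero : zc (0 : F × F × F × F) = Fintype.card F + 1 := by
  rw [zc_eq]
  have : (Finset.univ.filter fun p : F => ff (0 : F × F × F × F) p = 0) = Finset.univ := by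
    ext p
    simp [ff]
  rw [this]
  simp

/-- A weight with value `n c * (q + 1 - zc c)`. -/
noncomputable def wW (n : F × F × F × F → ℕ) (c : F × F × F × F) : ℕ := n c * (Fintype.card F + 1 - zc c)

lemma wW_sft (hI : Inv n) (t : F) (c : F × F × F × F) : wW n (sft t c) = wW n c := by
  simp only [wW, n_sft hI, zc_sft]

lemma wW_scl (hI : Inv n) (a : F) (ha : a ≠ 0) (c : F × F × F × F) : wW n (scl a c) = wW n c := by
  simp only [wW, n_scl hI ha, zc_scl ha]

lemma AA_n00 (h3 : (3 : F) = 0) (hI : Inv n) :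
    AA n 0 0 = n 0 + (Fintype.card F ^ 2 - 1) * n (1, 0, 0, 0) := by
  have hq : 1 ≤ Fintype.card F := Fintype.card_pos
  unfold AA
  have h1 : ∀ c3 : F, c3 ≠ 0 → ∑ c0 : F, n (c0, 0, 0, c3) = Fintype.card F * n (1, 0, 0, 0) := by
    intro c3 hc3
    rw [Finset.sum_congr rfl (fun c0 _ => n_00 h3 hI (Or.inr hc3))]
    simp [Finset.card_univ]
  rw [sum_off_zero (fun c3 => ∑ c0 : F, n (c0, 0, 0, c3)) h1]
  have h2 : ∑ c0 : F, n (c0, 0, 0, 0) = n 0 + (Fintype.card F - 1) * n (1, 0, 0, 0) :=
    sum_off_zero (fun c0 => n (c0, 0, 0, 0)) (fun c0 hc0 => n_00 h3 hI (Or.inl hc0))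
  simp only [h2]
  obtain ⟨r, hr⟩ : ∃ r, Fintype.card F = r + 1 := ⟨Fintype.card F - 1, by omega⟩
  rw [hr]
  have : (r + 1) ^ 2 - 1 = r * (r + 2) := by
    apply Nat.sub_eq_of_eq_add
    ring
  rw [this]
  simp only [Nat.add_sub_cancel]
  ring

lemma AA_w00 (h3 : (3 : F) = 0) (hI : Inv n) :
    AA (wW n) 0 0 = (Fintype.card F ^ 2 - 1) * Fintype.card F * n (1, 0, 0, 0) := by
  have hq : 1 ≤ Fintype.card F := Fintype.card_pos
  unfold AA
  have hv : ∀ c0 c3 : F, (c0 ≠ 0 ∨ c3 ≠ 0) → wW n (c0, 0, 0, c3) = n (1, 0, 0, 0) * Fintype.card F := by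
    intro c0 c3 hc
    simp only [wW, n_00 h3 hI hc, zc_00 h3 hc, Nat.add_sub_cancel]
  have h1 : ∀ c3 : F, c3 ≠ 0 → ∑ c0 : F, wW n (c0, 0, 0, c3) = Fintype.card F * (n (1, 0, 0, 0) * Fintype.card F) := by
    intro c3 hc3
    rw [Finset.sum_congr rfl (fun c0 _ => hv c0 c3 (Or.inr hc3))]
    simp [Finset.card_univ]
  rw [sum_off_zero (fun c3 => ∑ c0 : F, wW n (c0, 0, 0, c3)) h1]
  have h2 : ∑ c0 : F, wW n (c0, 0, 0, 0) = wW n (0, 0, 0, 0) + (Fintype.card F - 1) * (n (1, 0, 0, 0) * Fintype.card F) :=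
    sum_off_zero (fun c0 => wW n (c0, 0, 0, 0)) (fun c0 hc0 => hv c0 0 (Or.inl hc0))
  have h0 : wW n ((0 : F), (0 : F), (0 : F), (0 : F)) = 0 := by
    have := zc_zero (F := F)
    have e : ((0 : F), (0 : F), (0 : F), (0 : F)) = (0 : F × F × F × F) := rfl
    rw [e]
    simp only [wW, this, Nat.sub_self, mul_zero]
  simp only [h2, h0]
  obtain ⟨r, hr⟩ : ∃ r, Fintype.card F = r + 1 := ⟨Fintype.card F - 1, by omega⟩
  rw [hr]
  have : (r + 1) ^ 2 - 1 = r * (r + 2) := by
    apply Nat.sub_eq_of_eq_add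
    ring
  rw [this]
  simp only [Nat.add_sub_cancel]
  ring

/-- The swap exchanges the two fibres. -/
lemma AA_swap (h3 : (3 : F) = 0) (hI : Inv n) : AA n 0 1 = AA n 1 0 := by
  obtain ⟨e0, e1, e2, e3, h0, h1, h2, h3', hs⟩ := hI.swap
  have hne : ∀ e : F, (e = 1 ∨ e = -1) → e ≠ 0 := by
    rintro e (rfl | rfl) <;> simp
  rw [← AA_c1 n (fun a ha c => n_scl hI ha c) (hne e1 h1)]
  unfold AA
  have e : ∀ c3 c0 : F, n (c0, 0, 1, c3) = n (e0 * c3, e1, 0, e3 * c0) := by
    intro c3 c0
    rw [hs c0 0 1 c3]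
    simp
  simp only [e]
  rw [Finset.sum_comm]
  rw [← Equiv.sum_comp (Equiv.mulLeft₀ e3 (hne e3 h3')) (fun c3 => ∑ c0 : F, n (c0, e1, 0, c3))]
  apply Finset.sum_congr rfl
  intro x _
  exact Equiv.sum_comp (Equiv.mulLeft₀ e0 (hne e0 h0)) (fun c0 => n (c0, e1, 0, e3 * x))

/-- Bounds for the weights. -/
lemma AA_bounds (hq : 2 ≤ Fintype.card F) {c1 c2 : F} (hc : c1 ≠ 0 ∨ c2 ≠ 0) :
    (Fintype.card F - 2) * AA n c1 c2 ≤ AA (wW n) c1 c2 ∧ AA (wW n) c1 c2 ≤ (Fintype.card F + 1) * AA n c1 c2 := by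
  unfold AA
  simp only [Finset.mul_sum]
  constructor
  · apply Finset.sum_le_sum
    intro c3 _
    apply Finset.sum_le_sum
    intro c0 _
    have hne : (c0, c1, c2, c3) ≠ 0 := by
      intro h
      have h1 : c1 = 0 := congrArg (fun c : F × F × F × F => c.2.1) h
      have h2 : c2 = 0 := congrArg (fun c : F × F × F × F => c.2.2.1) h
      rcases hc with hc | hc
      · exact hc h1
      · exact hc h2
    have := zc_le hne
    rw [wW, mul_comm]
    exact Nat.mul_le_mul_left _ (by omega)
  · apply Finset.sum_le_sum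
    intro c3 _
    apply Finset.sum_le_sum
    intro c0 _
    rw [wW, mul_comm (Fintype.card F + 1)]
    exact Nat.mul_le_mul_left _ (by omega)

/-- When the support has two zeros. -/
lemma AA_two {c1 c2 : F} (h : ∀ c0 c3 : F, n (c0, c1, c2, c3) = 0 ∨ zc (c0, c1, c2, c3) = 2) :
    AA (wW n) c1 c2 = (Fintype.card F - 1) * AA n c1 c2 := by
  unfold AA
  simp only [Finset.mul_sum]
  apply Finset.sum_congr rfl
  intro c3 _
  apply Finset.sum_congr rfl
  intro c0 _
  rcases h c0 c3 with h0 | h0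
  · simp [wW, h0]
  · rw [wW, h0, mul_comm]
    congr 1

/-- Lower bound for one column. -/
lemma base (h3 : (3 : F) = 0) (hI : Inv n) {x0 y : F} (hpos : 0 < n (x0, 1, 0, y)) :
    Fintype.card F ≤ 3 * ∑ x : F, n (x, 1, 0, y) := by
  let f : F → F := fun t => x0 + (1 * t + 0 * t ^ 2 - y * t ^ 3)
  have hfib : ∀ a ∈ (Finset.univ : Finset F).image f, ((Finset.univ : Finset F).filter fun t => f t = a).card ≤ 3 := by
    intro a _
    have hne : (x0 - a, (1 : F), (0 : F), y) ≠ 0 := by
      intro h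
      have h1 : (1 : F) = 0 := congrArg (fun c : F × F × F × F => c.2.1) h
      exact one_ne_zero h1
    have := card_zeros_le_three hne
    have hEq : ((Finset.univ : Finset F).filter fun t => f t = a) = (Finset.univ.filter fun p : F => ff (x0 - a, (1 : F), (0 : F), y) p = 0) := by
      ext t
      simp only [Finset.mem_filter, Finset.mem_univ, true_and]
      simp only [f, ff]
      constructor
      · intro h
        linear_combination h
      · intro h
        linear_combination h
    rw [hEq]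
    exact this
  have h1 := Finset.card_le_mul_card_image (Finset.univ : Finset F) 3 hfib
  rw [Finset.card_univ] at h1
  refine h1.trans (Nat.mul_le_mul_left _ ?_)
  have hS : ∀ x ∈ (Finset.univ : Finset F).image f, 1 ≤ n (x, 1, 0, y) := by
    intro x hx
    obtain ⟨t, _, rfl⟩ := Finset.mem_image.mp hx
    have h2 := n_sft hI t (x0, 1, 0, y)
    rw [sft_char3 h3] at h2
    simp only [mul_zero, zero_mul, add_zero] at h2
    simp only [f]
    have : (x0 + (1 * t + 0 * t ^ 2 - y * t ^ 3), (1 : F), (0 : F), y) = (x0 + (1 * t + 0 * t ^ 2 - y * t ^ 3), 1, 0, y) := rfl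
    simp only [zero_mul, add_zero] at *
    omega
  calc ((Finset.univ : Finset F).image f).card = ∑ x ∈ (Finset.univ : Finset F).image f, 1 := by simp
    _ ≤ ∑ x ∈ (Finset.univ : Finset F).image f, n (x, 1, 0, y) := Finset.sum_le_sum hS
    _ ≤ ∑ x : F, n (x, 1, 0, y) := Finset.sum_le_sum_of_subset (Finset.subset_univ _)

/-- The orbit is large if the support leaves the line. -/
lemma count (h3 : (3 : F) = 0) (hq : 9 ≤ Fintype.card F) (hI : Inv n) {c0 c3 : F} (hc3 : c3 ≠ 0)
    (hpos : 0 < n (c0, 1, 0, c3)) : Fintype.card F + 1 < AA n 1 0 := by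
  by_contra hcon
  push Not at hcon
  let y : Fˣ → F := fun s => c3 * ((s : F)⁻¹) ^ 2
  have hb : ∀ s : Fˣ, Fintype.card F ≤ 3 * ∑ x : F, n (x, 1, 0, y s) := by
    intro s
    apply base h3 hI (x0 := c0 * s)
    have h5 := hI.torus s s⁻¹ c0 1 0 c3
    have e1 : ((s⁻¹⁻¹ : Fˣ) : F) = s := by simp
    have e2 : (((s * s⁻¹)⁻¹ : Fˣ) : F) = 1 := by simp
    have e3 : (((s ^ 3 * s⁻¹)⁻¹ : Fˣ) : F) = ((s : F)⁻¹) ^ 2 := by
      have : s ^ 3 * s⁻¹ = s ^ 2 := by group
      rw [this]
      simp
    rw [e1, e2, e3] at h5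
    simp only [mul_one, zero_mul] at h5
    rw [← h5]
    exact hpos
  let T : Finset F := (Finset.univ : Finset Fˣ).image y
  have hT : (Finset.univ : Finset Fˣ).card ≤ 2 * T.card := by
    apply Finset.card_le_mul_card_image
    intro a ha
    obtain ⟨s0, _, rfl⟩ := Finset.mem_image.mp ha
    have hsub : ((Finset.univ : Finset Fˣ).filter fun s => y s = y s0) ⊆ {s0, -s0} := by
      intro s hs
      simp only [Finset.mem_filter, Finset.mem_univ, true_and, y] at hs
      have h6 := mul_left_cancel₀ hc3 hs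
      have h7 : (s : F) ^ 2 = (s0 : F) ^ 2 := by
        have h8 : ((s : F) ^ 2)⁻¹ = ((s0 : F) ^ 2)⁻¹ := by
          simpa [inv_pow] using h6
        exact inv_injective h8
      simp only [Finset.mem_insert, Finset.mem_singleton]
      rcases sq_eq_sq_iff_eq_or_eq_neg.mp h7 with h8 | h8
      · left
        exact Units.ext h8
      · right
        apply Units.ext
        simpa using h8
    calc _ ≤ ({s0, -s0} : Finset Fˣ).card := Finset.card_le_card hsub
      _ ≤ 2 := Finset.card_le_two
  have hsum : T.card * Fintype.card F ≤ 3 * AA n 1 0 := by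
    have h9 : AA n 1 0 = ∑ c3 : F, ∑ c0 : F, n (c0, 1, 0, c3) := rfl
    calc T.card * Fintype.card F = ∑ z ∈ T, Fintype.card F := by simp
      _ ≤ ∑ z ∈ T, 3 * ∑ x : F, n (x, 1, 0, z) := by
          apply Finset.sum_le_sum
          intro z hz
          obtain ⟨s, _, rfl⟩ := Finset.mem_image.mp hz
          exact hb s
      _ ≤ ∑ z : F, 3 * ∑ x : F, n (x, 1, 0, z) := Finset.sum_le_sum_of_subset (Finset.subset_univ _)
      _ = 3 * AA n 1 0 := by rw [h9, Finset.mul_sum]
  have hU : (Finset.univ : Finset Fˣ).card = Fintype.card F - 1 := by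
    rw [Finset.card_univ, Fintype.card_units]
  rw [hU] at hT
  obtain ⟨r, hr⟩ : ∃ r, Fintype.card F = r + 9 := ⟨Fintype.card F - 9, by omega⟩
  rw [hr] at hT hsum hcon
  have h10 : r + 8 ≤ 2 * T.card := by simpa using hT
  nlinarith [Nat.mul_le_mul_right (r + 9) h10]

end C3Aux

open C3Aux in
/-- The combinatorics in characteristic three. Put `nc = n (1, 0, 0, 0)`, `D = ∑ n (c0, 1, 0, c3)`, `Wa = ∑ n (c0, 1, 0, c3) (q + 1 - zc)`,
`Wb = ∑ n (c0, 0, 1, c3) (q + 1 - zc)`. The shift is `(c0 + c1 t + c2 t² - c3 t³, c1 + 2 c2 t, c2, c3)`. The `(c0, 0, 0, c3) ≠ 0` form a single orbit with `zc = 1`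
(cube roots exist); the fibres over `(c1, c2) ≠ 0` are transported to the fibre over `(1, 0)` (if `c2 = 0`) or `(0, 1)` (if `c2 ≠ 0`) preserving `n` and `zc`
(shift, torus); the swap transports `(0, 1)` to `(±1, 0)` preserving `n` so `∑ n (c0, 0, 1, c3) = D`. Nonzero cubic: `zc ≤ 3`. On the fibre `(1, 0)`,
`x ↦ x - c3 x³` has a kernel of order `1` or `3`, so `q/3` divides each `∑_{c0}`: `(q/3) ∣ Wa`, whence `3 ∣ m` from `(q+1) m = (q+1) q nc + Wa + q Wb`.
If `D ≤ q + 1` then `n (c0, 1, 0, c3) = 0` for `c3 ≠ 0` (else the orbit under shift and `t s s⁻¹` has at least `q (q-1)/6 > q + 1` elements),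
so `D = q n (0, 1, 0, 0)`, `zc (c0, 1, 0, 0) = 2`, similarly (through the swap) `n (c0, 0, 1, c3) = 0` for `c0 ≠ 0`, `zc (0, 0, 1, c3) = 2`. -/
theorem fib3 (h3 : (3 : F) = 0) (hq : 9 ≤ Fintype.card F) (hI : Inv n) {m : ℕ}
    (hE : ∑ c : F × F × F × F, (if c.1 ≠ 0 then n c else 0) = (Fintype.card F - 1) * m) :
    ∃ nc D Wa Wb : ℕ,
      (Fintype.card F + 1) * m = (Fintype.card F + 1) * Fintype.card F * nc + Wa + Fintype.card F * Wb ∧
      (Fintype.card F - 2) * D ≤ Wa ∧ Wa ≤ (Fintype.card F + 1) * D ∧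
      (Fintype.card F - 2) * D ≤ Wb ∧ Wb ≤ (Fintype.card F + 1) * D ∧
      (∑ c : F × F × F × F, n c = n 0 + (Fintype.card F ^ 2 - 1) * (nc + D)) ∧
      (∑ c : F × F × F × F, (if c.2.2.1 ≠ 0 then n c else 0) = Fintype.card F * (Fintype.card F - 1) * D) ∧
      3 ∣ m ∧
      (D ≤ Fintype.card F + 1 → Wa = (Fintype.card F - 1) * D ∧ Wb = (Fintype.card F - 1) * D ∧ Fintype.card F ∣ D) := by
  have hsn : ∀ t c, n (sft t c) = n c := n_sft hI
  have hcn : ∀ a : F, a ≠ 0 → ∀ c, n (scl a c) = n c := fun a ha c => n_scl hI ha c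
  have hsw : ∀ t c, wW n (sft t c) = wW n c := wW_sft hI
  have hcw : ∀ a : F, a ≠ 0 → ∀ c, wW n (scl a c) = wW n c := fun a ha c => wW_scl hI a ha c
  have hswap := AA_swap h3 hI
  have hb1 := AA_bounds (n := n) (by omega : 2 ≤ Fintype.card F) (c1 := 1) (c2 := 0) (Or.inl one_ne_zero)
  have hb2 := AA_bounds (n := n) (by omega : 2 ≤ Fintype.card F) (c1 := 0) (c2 := 1) (Or.inr one_ne_zero)
  rw [hswap] at hb2
  -- the first relation
  have hrel1 : (Fintype.card F + 1) * m = (Fintype.card F + 1) * Fintype.card F * n (1, 0, 0, 0) + AA (wW n) 1 0 +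
      Fintype.card F * AA (wW n) 0 1 := by
    have h1 := sum_zc hI hE
    have h2 := sum_decomp h3 (wW n) hsw hcw
    have h4 : ∑ c, wW n c = (Fintype.card F ^ 2 - 1) * m := h1
    rw [h4, AA_w00 h3 hI] at h2
    obtain ⟨r, hr⟩ : ∃ r, Fintype.card F = r + 9 := ⟨Fintype.card F - 9, by omega⟩
    rw [hr] at h2 ⊢
    have e : (r + 9) ^ 2 - 1 = (r + 8) * (r + 10) := by
      apply Nat.sub_eq_of_eq_add
      ring
    rw [e] at h2
    have e' : r + 9 - 1 = r + 8 := rfl
    rw [e'] at h2
    apply Nat.eq_of_mul_eq_mul_left (by omega : 0 < r + 8)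
    linear_combination h2
  have h3q : 3 ∣ Fintype.card F := by
    have := three_dvd_sum h3 (fun _ : F => 1) (a := 1) one_ne_zero (fun _ => rfl)
    simpa [Finset.card_univ] using this
  have h3Wa : 3 ∣ AA (wW n) 1 0 := by
    unfold AA
    apply Finset.dvd_sum
    intro c3 _
    have hne : ((0 : F), (1 : F), (0 : F), c3) ≠ 0 := by
      intro h
      have h1 : (1 : F) = 0 := congrArg (fun c : F × F × F × F => c.2.1) h
      exact one_ne_zero h1
    have hcard := card_zeros_le_three hne
    have : ∃ t0 : F, ff (0, 1, 0, c3) t0 ≠ 0 := by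
      by_contra hall
      push Not at hall
      have : (Finset.univ.filter fun p : F => ff (0, 1, 0, c3) p = 0) = Finset.univ := by
        ext p
        simp [hall p]
      rw [this, Finset.card_univ] at hcard
      omega
    obtain ⟨t0, ht0⟩ := this
    apply three_dvd_sum h3 _ ht0
    intro x
    have := hsw t0 (x, 1, 0, c3)
    rw [sft_char3 h3] at this
    simp only [mul_zero, zero_mul, add_zero] at this
    rw [← this]
    simp only [ff, zero_add, zero_mul, add_zero]
  have h3m : 3 ∣ m := by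
    have h1 : 3 ∣ (Fintype.card F + 1) * m := by
      rw [hrel1]
      apply Nat.dvd_add
      · apply Nat.dvd_add
        · exact Dvd.dvd.mul_right (Dvd.dvd.mul_left h3q _) _
        · exact h3Wa
      · exact Dvd.dvd.mul_right h3q _
    rcases (Nat.Prime.dvd_mul Nat.prime_three).1 h1 with h | h
    · omega
    · exact h
  refine ⟨n (1, 0, 0, 0), AA n 1 0, AA (wW n) 1 0, AA (wW n) 0 1, hrel1, hb1.1, hb1.2, hb2.1, hb2.2, ?_, ?_, h3m, ?_⟩
  · have h2 := sum_decomp h3 n hsn hcn
    rw [h2, AA_n00 h3 hI, hswap]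
    obtain ⟨r, hr⟩ : ∃ r, Fintype.card F = r + 9 := ⟨Fintype.card F - 9, by omega⟩
    rw [hr]
    have e : (r + 9) ^ 2 - 1 = (r + 8) * (r + 10) := by
      apply Nat.sub_eq_of_eq_add
      ring
    rw [e]
    have e' : r + 9 - 1 = r + 8 := rfl
    rw [e']
    ring
  · have h2 := sum_decomp h3 (fun c : F × F × F × F => if c.2.2.1 ≠ 0 then n c else 0)
      (by
        rintro t ⟨c0, c1, c2, c3⟩
        simp only [sft_char3 h3, n_sft hI]
        have := hsn t (c0, c1, c2, c3)
        rw [sft_char3 h3] at this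
        rw [this])
      (by
        rintro a ha ⟨c0, c1, c2, c3⟩
        have := hcn a ha (c0, c1, c2, c3)
        simp only [scl, mul_ne_zero_iff, ne_eq, ha, not_false_eq_true, and_true] at this ⊢
        rw [this])
    rw [h2]
    have e0 : AA (fun c : F × F × F × F => if c.2.2.1 ≠ 0 then n c else 0) 0 0 = 0 := by
      simp [AA]
    have e1 : AA (fun c : F × F × F × F => if c.2.2.1 ≠ 0 then n c else 0) 1 0 = 0 := by
      simp [AA]
    have e2 : AA (fun c : F × F × F × F => if c.2.2.1 ≠ 0 then n c else 0) 0 1 = AA n 0 1 := by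
      simp [AA]
    rw [e0, e1, e2, hswap]
    simp
  · intro hD
    have hz : ∀ c0 c3 : F, c3 ≠ 0 → n (c0, 1, 0, c3) = 0 := by
      intro c0 c3 hc3
      by_contra hn
      have := count h3 hq hI hc3 (Nat.pos_of_ne_zero hn)
      omega
    have hWa : AA (wW n) 1 0 = (Fintype.card F - 1) * AA n 1 0 := by
      apply AA_two
      intro c0 c3
      by_cases hc3 : c3 = 0
      · subst hc3
        right
        rw [zc_eq]
        have : (Finset.univ.filter fun p : F => ff (c0, (1 : F), (0 : F), (0 : F)) p = 0) = {-c0} := by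
          ext p
          simp only [Finset.mem_filter, Finset.mem_univ, true_and, Finset.mem_singleton]
          simp only [ff]
          constructor
          · intro h
            linear_combination h
          · rintro rfl
            ring
        simp [this]
      · left
        exact hz c0 c3 hc3
    have hWb : AA (wW n) 0 1 = (Fintype.card F - 1) * AA n 1 0 := by
      rw [← hswap]
      apply AA_two
      intro c0 c3
      by_cases hc0 : c0 = 0
      · subst hc0
        right
        rw [zc_eq]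
        by_cases hc3 : c3 = 0
        · subst hc3
          have : (Finset.univ.filter fun p : F => ff ((0 : F), (0 : F), (1 : F), (0 : F)) p = 0) = {0} := by
            ext p
            simp only [Finset.mem_filter, Finset.mem_univ, true_and, Finset.mem_singleton]
            simp only [ff]
            constructor
            · intro h
              have : p ^ 2 = 0 := by linear_combination h
              exact pow_eq_zero_iff (by norm_num) |>.mp this
            · rintro rfl
              ring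
          simp [this]
        · have : (Finset.univ.filter fun p : F => ff ((0 : F), (0 : F), (1 : F), c3) p = 0) = {0, c3⁻¹} := by
            ext p
            simp only [Finset.mem_filter, Finset.mem_univ, true_and, Finset.mem_insert, Finset.mem_singleton]
            simp only [ff]
            constructor
            · intro h
              have h1 : p ^ 2 * (1 - c3 * p) = 0 := by linear_combination h
              rcases mul_eq_zero.mp h1 with h2 | h2
              · left
                exact pow_eq_zero_iff (by norm_num) |>.mp h2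
              · right
                field_simp
                linear_combination -h2
            · rintro (rfl | rfl)
              · ring
              · field_simp
                ring
          have hne : (0 : F) ≠ c3⁻¹ := (inv_ne_zero hc3).symm
          simp [this, hc3, Finset.card_pair hne]
      · left
        obtain ⟨e0, e1, e2, e3, h0, h1, h2, h3', hs⟩ := hI.swap
        have hne : ∀ e : F, (e = 1 ∨ e = -1) → e ≠ 0 := by
          rintro e (rfl | rfl) <;> simp
        rw [hs c0 0 1 c3]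
        simp only [mul_one, mul_zero]
        have h5 := n_scl hI (inv_ne_zero (hne e1 h1)) (e0 * c3, e1, 0, e3 * c0)
        simp only [scl, zero_mul, mul_inv_cancel₀ (hne e1 h1)] at h5
        rw [← h5]
        apply hz
        exact mul_ne_zero (mul_ne_zero (hne e3 h3') hc0) (inv_ne_zero (hne e1 h1))
    refine ⟨hWa, hWb, ?_⟩
    -- `D = q * n (0, 1, 0, 0)`
    have hD2 : AA n 1 0 = Fintype.card F * n (0, 1, 0, 0) := by
      unfold AA
      rw [Finset.sum_eq_single (0 : F)]
      · have : ∀ c0 : F, n (c0, 1, 0, 0) = n (0, 1, 0, 0) := by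
          intro c0
          have := hsn c0 (0, 1, 0, 0)
          rw [sft_char3 h3] at this
          simpa using this
        simp [this, Finset.card_univ]
      · intro c3 _ hc3
        simp [hz _ c3 hc3]
      · simp
    rw [hD2]
    exact dvd_mul_right _ _

end Cfsg.Agent.Lib.MinG2
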