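import Cfsg.Agent.Lib.MinG2.Sys
import Cfsg.Agent.Lib.ReeG2.Tw
import Cfsg.Agent.Lib.Chev.Mono1
import Cfsg.Agent.S1059

/-! The system of relations in `chevG2.group F`. -/

set_option autoImplicit false
set_option linter.unusedSectionVars false
set_option linter.unusedVariables false
set_option linter.ambiguousOpen false
set_option linter.unusedSimpArgs false
set_option linter.unreachableTactic false
set_option linter.style.haveILetI false

namespace Cfsg.Agent.Lib.MinG2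

open Cfsg Lie
open scoped Matrix MatrixGroups
open Cfsg.Agent.Lib.Chev
open Tables Tables2 AxBasic Torus Mono1

namespace InstAux

variable {F : Type*} [Field F]

theorem hmemG2 : chevG2 ∈ [chevG2, chevB2, chevD4, chevF4, chevE6, chevE7, chevE8] := by simp

lemma x_eq_xMat2 (r : ℕ) (hr : r < chevG2.nroots) (t : F) : chevG2.x F r t = chevG2.xMat F ⟨r, hr⟩ t := by
  simp [ChevalleyDatum.x, hr]

variable (ax : Ax chevG2 F)

lemma xG_mem' (r : ℕ) (t : F) : xG ax r t ∈ chevG2.group F := by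
  by_cases hr : r < chevG2.nroots
  · exact Subgroup.subset_closure ⟨⟨r, hr⟩, t, by rw [xG_val]; exact x_eq_xMat2 r hr t⟩
  · have : xG ax r t = 1 := Units.ext (by simp [ChevalleyDatum.x, hr])
    rw [this]
    exact one_mem _

/-- The root elements in the group. -/
noncomputable def xE (r : ℕ) (t : F) : ↥(chevG2.group F) := ⟨xG ax r t, xG_mem' ax r t⟩

lemma nG_mem' (r : ℕ) (t : F) : nG ax r t ∈ chevG2.group F :=
  mul_mem (mul_mem (xG_mem' ax _ _) (xG_mem' ax _ _)) (xG_mem' ax _ _)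

lemma hG_mem' (r : ℕ) (t : F) : hG ax r t ∈ chevG2.group F :=
  mul_mem (nG_mem' ax _ _) (nG_mem' ax _ _)

/-! ### The torus -/

/-- The weights. -/
def yy (s τ : Fˣ) : ℕ → Fˣ := fun j => if j = 0 then s else τ

lemma tor_congr {y y' : ℕ → Fˣ} (h : ∀ i, i < 2 → y i = y' i) : (tor chevG2 y : GL chevG2.Idx F) = tor chevG2 y' := by
  unfold tor
  congr 1
  funext v
  cases v with
  | inl i => rfl
  | inr s =>
    simp only [torD, Sum.elim_inr, chi]
    apply Finset.prod_congr rfl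
    intro i hi
    rw [h i (Finset.mem_range.mp hi)]

lemma chi_yy_aux (s τ : Fˣ) (r : ℕ) : chi chevG2 (yy s τ) r = s ^ coef chevG2 r 0 * τ ^ coef chevG2 r 1 := by
  unfold chi
  rw [show chevG2.rank = 2 from rfl]
  simp [Finset.prod_range_succ, yy]

lemma chi_yy (s τ : Fˣ) {r : ℕ} (hr : r < 12) : (chi chevG2 (yy s τ) r : Fˣ) = chiV r s τ := by
  rw [chi_yy_aux]
  interval_cases r
  · rw [show coef chevG2 0 0 = -3 by decide +kernel, show coef chevG2 0 1 = -2 by decide +kernel]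
    simp only [chiV, zpow_neg, mul_inv]
    norm_cast
  · rw [show coef chevG2 1 0 = -3 by decide +kernel, show coef chevG2 1 1 = -1 by decide +kernel]
    simp only [chiV, zpow_neg, mul_inv]
    norm_cast
    simp
  · rw [show coef chevG2 2 0 = -2 by decide +kernel, show coef chevG2 2 1 = -1 by decide +kernel]
    simp only [chiV, zpow_neg, mul_inv]
    norm_cast
    simp
  · rw [show coef chevG2 3 0 = -1 by decide +kernel, show coef chevG2 3 1 = -1 by decide +kernel]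
    simp only [chiV, zpow_neg, mul_inv]
    simp
  · rw [show coef chevG2 4 0 = -1 by decide +kernel, show coef chevG2 4 1 = 0 by decide +kernel]
    simp [chiV]
  · rw [show coef chevG2 5 0 = 0 by decide +kernel, show coef chevG2 5 1 = -1 by decide +kernel]
    simp [chiV]
  · rw [show coef chevG2 6 0 = 0 by decide +kernel, show coef chevG2 6 1 = 1 by decide +kernel]
    simp [chiV]
  · rw [show coef chevG2 7 0 = 1 by decide +kernel, show coef chevG2 7 1 = 0 by decide +kernel]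
    simp [chiV]
  · rw [show coef chevG2 8 0 = 1 by decide +kernel, show coef chevG2 8 1 = 1 by decide +kernel]
    simp [chiV]
  · rw [show coef chevG2 9 0 = 2 by decide +kernel, show coef chevG2 9 1 = 1 by decide +kernel]
    simp only [chiV]
    norm_cast
    simp
  · rw [show coef chevG2 10 0 = 3 by decide +kernel, show coef chevG2 10 1 = 1 by decide +kernel]
    simp only [chiV]
    norm_cast
    simp
  · rw [show coef chevG2 11 0 = 3 by decide +kernel, show coef chevG2 11 1 = 2 by decide +kernel]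
    simp only [chiV]
    norm_cast

theorem tabG2 : Tab chevG2 := tab_of_mem hmemG2
theorem tab2G2 : Tab2 chevG2 := tab2_of_mem hmemG2

lemma pair_7_7 : AxBasic.pair chevG2 7 7 = 2 := by decide +kernel
lemma pair_7_6 : AxBasic.pair chevG2 7 6 = -3 := by decide +kernel
lemma pair_6_7 : AxBasic.pair chevG2 6 7 = -1 := by decide +kernel
lemma pair_6_6 : AxBasic.pair chevG2 6 6 = 2 := by decide +kernel
lemma pair_4_7 : AxBasic.pair chevG2 4 7 = -2 := by decide +kernel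
lemma pair_4_6 : AxBasic.pair chevG2 4 6 = 3 := by decide +kernel
lemma pair_10_7 : AxBasic.pair chevG2 10 7 = 1 := by decide +kernel
lemma pair_10_6 : AxBasic.pair chevG2 10 6 = -1 := by decide +kernel
lemma pair_8_7 : AxBasic.pair chevG2 8 7 = -1 := by decide +kernel
lemma pair_8_6 : AxBasic.pair chevG2 8 6 = 3 := by decide +kernel
lemma pair_5_7 : AxBasic.pair chevG2 5 7 = 1 := by decide +kernel
lemma pair_5_6 : AxBasic.pair chevG2 5 6 = -2 := by decide +kernel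

lemma hW_0 (r : ℕ) (c : Fˣ) : hW chevG2 r c 0 = c ^ AxBasic.pair chevG2 r 7 := rfl
lemma hW_1 (r : ℕ) (c : Fˣ) : hW chevG2 r c 1 = c ^ AxBasic.pair chevG2 r 6 := rfl

/-- `t(s, τ) = h_a(s²τ) h_b(s³τ²)`. -/
lemma tor_yy (s τ : Fˣ) : (tor chevG2 (yy s τ) : GL chevG2.Idx F) =
    hG ax 7 ((s ^ 2 * τ : Fˣ) : F) * hG ax 6 ((s ^ 3 * τ ^ 2 : Fˣ) : F) := by
  rw [hG_eq_tor ax tabG2 (by decide), hG_eq_tor ax tabG2 (by decide), ← tor_mul]
  apply tor_congr
  intro i hi
  interval_cases i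
  · simp only [Pi.mul_apply, hW_0, pair_7_7, pair_6_7, yy, if_true]
    have hs := s.ne_zero
    have hτ := τ.ne_zero
    apply Units.ext
    simp only [zpow_neg, zpow_one, zpow_ofNat, Units.val_mul, Units.val_inv_eq_inv_val, Units.val_pow_eq_pow_val]
    field_simp
  · simp only [Pi.mul_apply, hW_1, pair_7_6, pair_6_6, yy, one_ne_zero, if_false]
    have hs := s.ne_zero
    have hτ := τ.ne_zero
    apply Units.ext
    simp only [zpow_neg, zpow_one, zpow_ofNat, Units.val_mul, Units.val_inv_eq_inv_val, Units.val_pow_eq_pow_val]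
    field_simp


/-! ### The relations -/

theorem comm_data : ∀ p ∈ commPairs, p.1 < 12 ∧ p.2 < 12 ∧ p.1 ≠ p.2 ∧ p.1 ≠ chevG2.neg p.2 ∧ chevG2.commTerms p.2 p.1 = [] := by
  decide +kernel

lemma comm_pairs (r s : ℕ) (h : (r, s) ∈ commPairs) (u w : F) : xE ax r u * xE ax s w = xE ax s w * xE ax r u := by
  obtain ⟨h1, h2, h3, h4, h5⟩ := comm_data (r, s) h
  apply Subtype.ext
  show xG ax r u * xG ax s w = xG ax s w * xG ax r u
  rw [xG_comm ax (r := s) (s := r) h2 h1 h3 h4 w u]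
  simp [ChevalleyDatum.commWord, h5, wordG]

lemma e_r10_6 (u t : F) : xE ax 10 u * xE ax 6 t = xE ax 6 t * xE ax 10 u * (xE ax 11 (-(t * u))) := by
  apply Subtype.ext
  show xG ax 10 u * xG ax 6 t = xG ax 6 t * xG ax 10 u * (xG ax 11 (-(t * u)))
  rw [xG_comm ax (r := 6) (s := 10) (by decide) (by decide) (by decide) (by decide) t u]
  have e : chevG2.commTerms 6 10 = [(11, 1, 1, 1)] := by decide +kernel
  simp only [ChevalleyDatum.commWord, e, wordG, List.map_cons, List.map_nil, List.prod_cons, List.prod_nil, mul_one]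
  have e0 : ((1 : ℤ) : F) * (-t) ^ 1 * u ^ 1 = -(t * u) := by push_cast; ring
  rw [e0]
  all_goals simp only [mul_assoc]

lemma e_r9_8 (u t : F) : xE ax 9 u * xE ax 8 t = xE ax 8 t * xE ax 9 u * (xE ax 11 (-(3 * t * u))) := by
  apply Subtype.ext
  show xG ax 9 u * xG ax 8 t = xG ax 8 t * xG ax 9 u * (xG ax 11 (-(3 * t * u)))
  rw [xG_comm ax (r := 8) (s := 9) (by decide) (by decide) (by decide) (by decide) t u]
  have e : chevG2.commTerms 8 9 = [(11, 3, 1, 1)] := by decide +kernel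
  simp only [ChevalleyDatum.commWord, e, wordG, List.map_cons, List.map_nil, List.prod_cons, List.prod_nil, mul_one]
  have e0 : ((3 : ℤ) : F) * (-t) ^ 1 * u ^ 1 = -(3 * t * u) := by push_cast; ring
  rw [e0]
  all_goals simp only [mul_assoc]

lemma e_r6_7 (u t : F) : xE ax 6 u * xE ax 7 t = xE ax 7 t * xE ax 6 u * (xE ax 8 (t * u) * xE ax 9 (t ^ 2 * u) * xE ax 10 (-(t ^ 3 * u)) * xE ax 11 (-(t ^ 3 * u ^ 2))) := by
  apply Subtype.ext
  show xG ax 6 u * xG ax 7 t = xG ax 7 t * xG ax 6 u * (xG ax 8 (t * u) * xG ax 9 (t ^ 2 * u) * xG ax 10 (-(t ^ 3 * u)) * xG ax 11 (-(t ^ 3 * u ^ 2)))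
  rw [xG_comm ax (r := 7) (s := 6) (by decide) (by decide) (by decide) (by decide) t u]
  have e : chevG2.commTerms 7 6 = [(8, -1, 1, 1), (9, 1, 2, 1), (10, 1, 3, 1), (11, 1, 3, 2)] := by decide +kernel
  simp only [ChevalleyDatum.commWord, e, wordG, List.map_cons, List.map_nil, List.prod_cons, List.prod_nil, mul_one]
  have e0 : ((-1 : ℤ) : F) * (-t) ^ 1 * u ^ 1 = t * u := by push_cast; ring
  have e1 : ((1 : ℤ) : F) * (-t) ^ 2 * u ^ 1 = t ^ 2 * u := by push_cast; ring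
  have e2 : ((1 : ℤ) : F) * (-t) ^ 3 * u ^ 1 = -(t ^ 3 * u) := by push_cast; ring
  have e3 : ((1 : ℤ) : F) * (-t) ^ 3 * u ^ 2 = -(t ^ 3 * u ^ 2) := by push_cast; ring
  rw [e0, e1, e2, e3]
  all_goals simp only [mul_assoc]

lemma e_r8_7 (u t : F) : xE ax 8 u * xE ax 7 t = xE ax 7 t * xE ax 8 u * (xE ax 9 (2 * t * u) * xE ax 10 (-(3 * t ^ 2 * u)) * xE ax 11 (-(3 * t * u ^ 2))) := by
  apply Subtype.ext
  show xG ax 8 u * xG ax 7 t = xG ax 7 t * xG ax 8 u * (xG ax 9 (2 * t * u) * xG ax 10 (-(3 * t ^ 2 * u)) * xG ax 11 (-(3 * t * u ^ 2)))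
  rw [xG_comm ax (r := 7) (s := 8) (by decide) (by decide) (by decide) (by decide) t u]
  have e : chevG2.commTerms 7 8 = [(9, -2, 1, 1), (10, -3, 2, 1), (11, 3, 1, 2)] := by decide +kernel
  simp only [ChevalleyDatum.commWord, e, wordG, List.map_cons, List.map_nil, List.prod_cons, List.prod_nil, mul_one]
  have e0 : ((-2 : ℤ) : F) * (-t) ^ 1 * u ^ 1 = 2 * t * u := by push_cast; ring
  have e1 : ((-3 : ℤ) : F) * (-t) ^ 2 * u ^ 1 = -(3 * t ^ 2 * u) := by push_cast; ring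
  have e2 : ((3 : ℤ) : F) * (-t) ^ 1 * u ^ 2 = -(3 * t * u ^ 2) := by push_cast; ring
  rw [e0, e1, e2]
  all_goals simp only [mul_assoc]

lemma e_r9_7 (u t : F) : xE ax 9 u * xE ax 7 t = xE ax 7 t * xE ax 9 u * (xE ax 10 (-(3 * t * u))) := by
  apply Subtype.ext
  show xG ax 9 u * xG ax 7 t = xG ax 7 t * xG ax 9 u * (xG ax 10 (-(3 * t * u)))
  rw [xG_comm ax (r := 7) (s := 9) (by decide) (by decide) (by decide) (by decide) t u]
  have e : chevG2.commTerms 7 9 = [(10, 3, 1, 1)] := by decide +kernel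
  simp only [ChevalleyDatum.commWord, e, wordG, List.map_cons, List.map_nil, List.prod_cons, List.prod_nil, mul_one]
  have e0 : ((3 : ℤ) : F) * (-t) ^ 1 * u ^ 1 = -(3 * t * u) := by push_cast; ring
  rw [e0]
  all_goals simp only [mul_assoc]

lemma e_r8_4 (u t : F) : xE ax 8 u * xE ax 4 t = xE ax 4 t * xE ax 8 u * (xE ax 6 (3 * t * u)) := by
  apply Subtype.ext
  show xG ax 8 u * xG ax 4 t = xG ax 4 t * xG ax 8 u * (xG ax 6 (3 * t * u))
  rw [xG_comm ax (r := 4) (s := 8) (by decide) (by decide) (by decide) (by decide) t u]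
  have e : chevG2.commTerms 4 8 = [(6, -3, 1, 1)] := by decide +kernel
  simp only [ChevalleyDatum.commWord, e, wordG, List.map_cons, List.map_nil, List.prod_cons, List.prod_nil, mul_one]
  have e0 : ((-3 : ℤ) : F) * (-t) ^ 1 * u ^ 1 = 3 * t * u := by push_cast; ring
  rw [e0]
  all_goals simp only [mul_assoc]

lemma e_r9_4 (u t : F) : xE ax 9 u * xE ax 4 t = xE ax 4 t * xE ax 9 u * (xE ax 8 (2 * t * u) * xE ax 6 (3 * t ^ 2 * u) * xE ax 11 (3 * t * u ^ 2)) := by
  apply Subtype.ext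
  show xG ax 9 u * xG ax 4 t = xG ax 4 t * xG ax 9 u * (xG ax 8 (2 * t * u) * xG ax 6 (3 * t ^ 2 * u) * xG ax 11 (3 * t * u ^ 2))
  rw [xG_comm ax (r := 4) (s := 9) (by decide) (by decide) (by decide) (by decide) t u]
  have e : chevG2.commTerms 4 9 = [(8, -2, 1, 1), (6, 3, 2, 1), (11, -3, 1, 2)] := by decide +kernel
  simp only [ChevalleyDatum.commWord, e, wordG, List.map_cons, List.map_nil, List.prod_cons, List.prod_nil, mul_one]
  have e0 : ((-2 : ℤ) : F) * (-t) ^ 1 * u ^ 1 = 2 * t * u := by push_cast; ring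
  have e1 : ((3 : ℤ) : F) * (-t) ^ 2 * u ^ 1 = 3 * t ^ 2 * u := by push_cast; ring
  have e2 : ((-3 : ℤ) : F) * (-t) ^ 1 * u ^ 2 = 3 * t * u ^ 2 := by push_cast; ring
  rw [e0, e1, e2]
  all_goals simp only [mul_assoc]

lemma e_r10_4 (u t : F) : xE ax 10 u * xE ax 4 t = xE ax 4 t * xE ax 10 u * (xE ax 9 (-(t * u)) * xE ax 8 (-(t ^ 2 * u)) * xE ax 6 (-(t ^ 3 * u)) * xE ax 11 (t ^ 3 * u ^ 2)) := by
  apply Subtype.ext
  show xG ax 10 u * xG ax 4 t = xG ax 4 t * xG ax 10 u * (xG ax 9 (-(t * u)) * xG ax 8 (-(t ^ 2 * u)) * xG ax 6 (-(t ^ 3 * u)) * xG ax 11 (t ^ 3 * u ^ 2))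
  rw [xG_comm ax (r := 4) (s := 10) (by decide) (by decide) (by decide) (by decide) t u]
  have e : chevG2.commTerms 4 10 = [(9, 1, 1, 1), (8, -1, 2, 1), (6, 1, 3, 1), (11, -1, 3, 2)] := by decide +kernel
  simp only [ChevalleyDatum.commWord, e, wordG, List.map_cons, List.map_nil, List.prod_cons, List.prod_nil, mul_one]
  have e0 : ((1 : ℤ) : F) * (-t) ^ 1 * u ^ 1 = -(t * u) := by push_cast; ring
  have e1 : ((-1 : ℤ) : F) * (-t) ^ 2 * u ^ 1 = -(t ^ 2 * u) := by push_cast; ring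
  have e2 : ((1 : ℤ) : F) * (-t) ^ 3 * u ^ 1 = -(t ^ 3 * u) := by push_cast; ring
  have e3 : ((-1 : ℤ) : F) * (-t) ^ 3 * u ^ 2 = t ^ 3 * u ^ 2 := by push_cast; ring
  rw [e0, e1, e2, e3]
  all_goals simp only [mul_assoc]

lemma e_r0_10 (u t : F) : xE ax 0 u * xE ax 10 t = xE ax 10 t * xE ax 0 u * (xE ax 5 (-(t * u))) := by
  apply Subtype.ext
  show xG ax 0 u * xG ax 10 t = xG ax 10 t * xG ax 0 u * (xG ax 5 (-(t * u)))
  rw [xG_comm ax (r := 10) (s := 0) (by decide) (by decide) (by decide) (by decide) t u]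
  have e : chevG2.commTerms 10 0 = [(5, 1, 1, 1)] := by decide +kernel
  simp only [ChevalleyDatum.commWord, e, wordG, List.map_cons, List.map_nil, List.prod_cons, List.prod_nil, mul_one]
  have e0 : ((1 : ℤ) : F) * (-t) ^ 1 * u ^ 1 = -(t * u) := by push_cast; ring
  rw [e0]
  all_goals simp only [mul_assoc]

lemma e_r11_5 (u t : F) : xE ax 11 u * xE ax 5 t = xE ax 5 t * xE ax 11 u * (xE ax 10 (-(t * u))) := by
  apply Subtype.ext
  show xG ax 11 u * xG ax 5 t = xG ax 5 t * xG ax 11 u * (xG ax 10 (-(t * u)))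
  rw [xG_comm ax (r := 5) (s := 11) (by decide) (by decide) (by decide) (by decide) t u]
  have e : chevG2.commTerms 5 11 = [(10, 1, 1, 1)] := by decide +kernel
  simp only [ChevalleyDatum.commWord, e, wordG, List.map_cons, List.map_nil, List.prod_cons, List.prod_nil, mul_one]
  have e0 : ((1 : ℤ) : F) * (-t) ^ 1 * u ^ 1 = -(t * u) := by push_cast; ring
  rw [e0]
  all_goals simp only [mul_assoc]

lemma e_r8_5 (u t : F) : xE ax 8 u * xE ax 5 t = xE ax 5 t * xE ax 8 u * (xE ax 7 (-(t * u)) * xE ax 9 (t * u ^ 2) * xE ax 11 (-(t * u ^ 3)) * xE ax 10 (2 * t ^ 2 * u ^ 3)) := by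
  apply Subtype.ext
  show xG ax 8 u * xG ax 5 t = xG ax 5 t * xG ax 8 u * (xG ax 7 (-(t * u)) * xG ax 9 (t * u ^ 2) * xG ax 11 (-(t * u ^ 3)) * xG ax 10 (2 * t ^ 2 * u ^ 3))
  rw [xG_comm ax (r := 5) (s := 8) (by decide) (by decide) (by decide) (by decide) t u]
  have e : chevG2.commTerms 5 8 = [(7, 1, 1, 1), (9, -1, 1, 2), (11, 1, 1, 3), (10, 2, 2, 3)] := by decide +kernel
  simp only [ChevalleyDatum.commWord, e, wordG, List.map_cons, List.map_nil, List.prod_cons, List.prod_nil, mul_one]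
  have e0 : ((1 : ℤ) : F) * (-t) ^ 1 * u ^ 1 = -(t * u) := by push_cast; ring
  have e1 : ((-1 : ℤ) : F) * (-t) ^ 1 * u ^ 2 = t * u ^ 2 := by push_cast; ring
  have e2 : ((1 : ℤ) : F) * (-t) ^ 1 * u ^ 3 = -(t * u ^ 3) := by push_cast; ring
  have e3 : ((2 : ℤ) : F) * (-t) ^ 2 * u ^ 3 = 2 * t ^ 2 * u ^ 3 := by push_cast; ring
  rw [e0, e1, e2, e3]
  all_goals simp only [mul_assoc]

/-! ### The Weyl elements -/

lemma nG_eq_hG_mul' (r : ℕ) (t : F) : nG ax r t = hG ax r t * nG ax r 1 := by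
  simp only [hG, mul_assoc, ← nG_inv, inv_mul_cancel, mul_one]

/-- The torus in the group. -/
noncomputable def tE (s τ : Fˣ) : ↥(chevG2.group F) := ⟨tor chevG2 (yy s τ), by
  rw [tor_yy ax]
  exact mul_mem (hG_mem' ax _ _) (hG_mem' ax _ _)⟩

/-- `n_a(1)`. -/
noncomputable def naE : ↥(chevG2.group F) := ⟨nG ax 7 1, nG_mem' ax _ _⟩

/-- `n_b(1)`. -/
noncomputable def nbE : ↥(chevG2.group F) := ⟨nG ax 6 1, nG_mem' ax _ _⟩

theorem refl0 : ∀ r, r < 12 → chevG2.reflectRoot 0 r = reflA r := by decide +kernel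
theorem refl1 : ∀ r, r < 12 → chevG2.reflectRoot 1 r = reflB r := by decide +kernel

theorem simple0 : chevG2.simple 0 = 7 := by decide +kernel
theorem simple1 : chevG2.simple 1 = 6 := by decide +kernel

lemma n_conj_aux (i : ℕ) (hi : i < chevG2.rank) (r : ℕ) (hr : r < chevG2.nroots) :
    ∃ η : F, (η = 1 ∨ η = -1) ∧ ∀ u, nG ax (chevG2.simple i) 1 * xG ax r u * (nG ax (chevG2.simple i) 1)⁻¹ =
      xG ax (chevG2.reflectRoot i r) (η * u) := by
  obtain ⟨η, hη, h1, -⟩ := ax.n_simple i r hi hr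
  refine ⟨(η : F), ?_, ?_⟩
  · rcases hη with rfl | rfl <;> simp
  · intro u
    have : nG ax (chevG2.simple i) 1 * xG ax r u =
        xG ax (chevG2.reflectRoot i r) ((η : F) * u) * nG ax (chevG2.simple i) 1 :=
      Units.ext (by simp only [Units.val_mul, nG_val, xG_val]; exact h1 u)
    rw [this, mul_inv_cancel_right]

lemma na_conj' (r : ℕ) (hr : r < 12) :
    ∃ η : F, (η = 1 ∨ η = -1) ∧ ∀ u, naE ax * xE ax r u * (naE ax)⁻¹ = xE ax (reflA r) (η * u) := by
  obtain ⟨η, hη, h⟩ := n_conj_aux ax 0 (by decide) r hr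
  refine ⟨η, hη, fun u => Subtype.ext ?_⟩
  have h2 := h u
  rw [simple0, refl0 r hr] at h2
  exact h2

lemma nb_conj' (r : ℕ) (hr : r < 12) :
    ∃ η : F, (η = 1 ∨ η = -1) ∧ ∀ u, nbE ax * xE ax r u * (nbE ax)⁻¹ = xE ax (reflB r) (η * u) := by
  obtain ⟨η, hη, h⟩ := n_conj_aux ax 1 (by decide) r hr
  refine ⟨η, hη, fun u => Subtype.ext ?_⟩
  have h2 := h u
  rw [simple1, refl1 r hr] at h2
  exact h2

lemma conj_tor_hW (i : ℕ) (hi : i < chevG2.rank) (r : ℕ) (hr : r < chevG2.nroots) (c : Fˣ) :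
    sG ax i * tor chevG2 (hW chevG2 r c) * (sG ax i)⁻¹ = tor chevG2 (hW chevG2 (chevG2.reflectRoot i r) c) := by
  obtain ⟨e, H⟩ := exists_isNor_sG tabG2 ax tab2G2 hi
  have h1 := H.conj_hG tabG2 ax ⟨r, hr⟩ (t := (c : F)) c.ne_zero
  rw [hG_eq_tor ax tabG2 hr] at h1
  rw [h1]
  have hlt : (wF tabG2 i hi ⟨r, hr⟩ : ℕ) < chevG2.nroots := (wF tabG2 i hi ⟨r, hr⟩).isLt
  have h2 : (e ⟨r, hr⟩ : F) * (c : F) = ((e ⟨r, hr⟩ * c : Fˣ) : F) := rfl
  rw [h2, hG_eq_tor ax tabG2 hlt, hG_eq_tor ax tabG2 hlt, tor_inv, ← tor_mul, wF_val]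
  congr 1
  funext j
  simp [hW, mul_zpow]

include ax in
lemma tor_yy' (s τ : Fˣ) : (tor chevG2 (yy s τ) : GL chevG2.Idx F) =
    tor chevG2 (hW chevG2 7 (s ^ 2 * τ)) * tor chevG2 (hW chevG2 6 (s ^ 3 * τ ^ 2)) := by
  rw [tor_yy ax, hG_eq_tor ax tabG2 (by decide), hG_eq_tor ax tabG2 (by decide)]

lemma na_t' (s τ : Fˣ) : naE ax * tE ax s τ * (naE ax)⁻¹ = tE ax s⁻¹ (s ^ 3 * τ) := by
  apply Subtype.ext
  show nG ax 7 1 * tor chevG2 (yy s τ) * (nG ax 7 1)⁻¹ = tor chevG2 (yy s⁻¹ (s ^ 3 * τ))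
  have e0 : sG ax 0 = nG ax 7 1 := by rw [sG, simple0]
  have h1 := conj_tor_hW ax 0 (by decide) 7 (by decide) (s ^ 2 * τ)
  have h2 := conj_tor_hW ax 0 (by decide) 6 (by decide) (s ^ 3 * τ ^ 2)
  rw [e0, refl0 7 (by decide)] at h1
  rw [e0, refl0 6 (by decide)] at h2
  rw [tor_yy' ax]
  calc nG ax 7 1 * (tor chevG2 (hW chevG2 7 (s ^ 2 * τ)) * tor chevG2 (hW chevG2 6 (s ^ 3 * τ ^ 2))) * (nG ax 7 1)⁻¹
      = (nG ax 7 1 * tor chevG2 (hW chevG2 7 (s ^ 2 * τ)) * (nG ax 7 1)⁻¹) *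
        (nG ax 7 1 * tor chevG2 (hW chevG2 6 (s ^ 3 * τ ^ 2)) * (nG ax 7 1)⁻¹) := by group
    _ = tor chevG2 (yy s⁻¹ (s ^ 3 * τ)) := by
      rw [h1, h2, ← tor_mul]
      apply tor_congr
      intro i hi
      have h4 : reflA 7 = 4 := rfl
      have h10 : reflA 6 = 10 := rfl
      rw [h4, h10]
      have hs := s.ne_zero
      have hτ := τ.ne_zero
      interval_cases i
      · simp only [Pi.mul_apply, hW_0, pair_4_7, pair_10_7, yy, if_true]
        apply Units.ext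
        simp only [zpow_neg, zpow_one, zpow_ofNat, Units.val_mul, Units.val_inv_eq_inv_val, Units.val_pow_eq_pow_val]
        field_simp
      · simp only [Pi.mul_apply, hW_1, pair_4_6, pair_10_6, yy, one_ne_zero, if_false]
        apply Units.ext
        simp only [zpow_neg, zpow_one, zpow_ofNat, Units.val_mul, Units.val_inv_eq_inv_val, Units.val_pow_eq_pow_val]
        field_simp

lemma nb_t' (s τ : Fˣ) : nbE ax * tE ax s τ * (nbE ax)⁻¹ = tE ax (s * τ) τ⁻¹ := by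
  apply Subtype.ext
  show nG ax 6 1 * tor chevG2 (yy s τ) * (nG ax 6 1)⁻¹ = tor chevG2 (yy (s * τ) τ⁻¹)
  have e0 : sG ax 1 = nG ax 6 1 := by rw [sG, simple1]
  have h1 := conj_tor_hW ax 1 (by decide) 7 (by decide) (s ^ 2 * τ)
  have h2 := conj_tor_hW ax 1 (by decide) 6 (by decide) (s ^ 3 * τ ^ 2)
  rw [e0, refl1 7 (by decide)] at h1
  rw [e0, refl1 6 (by decide)] at h2
  rw [tor_yy' ax]
  calc nG ax 6 1 * (tor chevG2 (hW chevG2 7 (s ^ 2 * τ)) * tor chevG2 (hW chevG2 6 (s ^ 3 * τ ^ 2))) * (nG ax 6 1)⁻¹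
      = (nG ax 6 1 * tor chevG2 (hW chevG2 7 (s ^ 2 * τ)) * (nG ax 6 1)⁻¹) *
        (nG ax 6 1 * tor chevG2 (hW chevG2 6 (s ^ 3 * τ ^ 2)) * (nG ax 6 1)⁻¹) := by group
    _ = tor chevG2 (yy (s * τ) τ⁻¹) := by
      rw [h1, h2, ← tor_mul]
      apply tor_congr
      intro i hi
      have h8 : reflB 7 = 8 := rfl
      have h5 : reflB 6 = 5 := rfl
      rw [h8, h5]
      have hs := s.ne_zero
      have hτ := τ.ne_zero
      interval_cases i
      · simp only [Pi.mul_apply, hW_0, pair_8_7, pair_5_7, yy, if_true]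
        apply Units.ext
        simp only [zpow_neg, zpow_one, zpow_ofNat, Units.val_mul, Units.val_inv_eq_inv_val, Units.val_pow_eq_pow_val]
        field_simp
      · simp only [Pi.mul_apply, hW_1, pair_8_6, pair_5_6, yy, one_ne_zero, if_false]
        apply Units.ext
        simp only [zpow_neg, zpow_one, zpow_ofNat, Units.val_mul, Units.val_inv_eq_inv_val, Units.val_pow_eq_pow_val]
        field_simp

lemma nb_eq' (c : Fˣ) : xE ax 6 c * xE ax 5 (-((c : F)⁻¹)) * xE ax 6 c = tE ax c⁻¹ (c ^ 2) * nbE ax := by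
  apply Subtype.ext
  show xG ax 6 c * xG ax 5 (-((c : F)⁻¹)) * xG ax 6 c = tor chevG2 (yy c⁻¹ (c ^ 2)) * nG ax 6 1
  have hn : chevG2.neg 6 = 5 := by decide +kernel
  have e1 : xG ax 6 c * xG ax 5 (-((c : F)⁻¹)) * xG ax 6 c = nG ax 6 c := by
    simp only [nG, hn]
  rw [e1, nG_eq_hG_mul' ax, hG_eq_tor ax tabG2 (by decide)]
  congr 1
  apply tor_congr
  intro i hi
  interval_cases i
  · simp only [hW_0, pair_6_7, yy, if_true]
    simp
  · simp only [hW_1, pair_6_6, yy, one_ne_zero, if_false]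
    simp

/-- Generation by the simple root groups and their opposites. -/
lemma gen' (K : Subgroup ↥(chevG2.group F)) (hK : ∀ r, r ∈ [4, 5, 6, 7] → ∀ u, xE ax r u ∈ K) : K = ⊤ := by
  have hn4 : chevG2.neg 7 = 4 := by decide +kernel
  have hn5 : chevG2.neg 6 = 5 := by decide +kernel
  have hna : naE ax ∈ K := by
    have : naE ax = xE ax 7 1 * xE ax 4 (-(1 : F)⁻¹) * xE ax 7 1 := by
      apply Subtype.ext
      show nG ax 7 1 = xG ax 7 1 * xG ax 4 (-(1 : F)⁻¹) * xG ax 7 1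
      simp only [nG, hn4]
    rw [this]
    exact mul_mem (mul_mem (hK 7 (by simp) _) (hK 4 (by simp) _)) (hK 7 (by simp) _)
  have hnb : nbE ax ∈ K := by
    have : nbE ax = xE ax 6 1 * xE ax 5 (-(1 : F)⁻¹) * xE ax 6 1 := by
      apply Subtype.ext
      show nG ax 6 1 = xG ax 6 1 * xG ax 5 (-(1 : F)⁻¹) * xG ax 6 1
      simp only [nG, hn5]
    rw [this]
    exact mul_mem (mul_mem (hK 6 (by simp) _) (hK 5 (by simp) _)) (hK 6 (by simp) _)
  have stepA : ∀ r, r < 12 → (∀ u, xE ax r u ∈ K) → ∀ v, xE ax (reflA r) v ∈ K := by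
    intro r hr h v
    obtain ⟨η, hη, e⟩ := na_conj' ax r hr
    have hη2 : η * (η * v) = v := by
      rcases hη with rfl | rfl <;> simp
    have := e (η * v)
    rw [hη2] at this
    rw [← this]
    exact mul_mem (mul_mem hna (h _)) (inv_mem hna)
  have stepB : ∀ r, r < 12 → (∀ u, xE ax r u ∈ K) → ∀ v, xE ax (reflB r) v ∈ K := by
    intro r hr h v
    obtain ⟨η, hη, e⟩ := nb_conj' ax r hr
    have hη2 : η * (η * v) = v := by
      rcases hη with rfl | rfl <;> simp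
    have := e (η * v)
    rw [hη2] at this
    rw [← this]
    exact mul_mem (mul_mem hnb (h _)) (inv_mem hnb)
  have h4 := hK 4 (by simp)
  have h5 := hK 5 (by simp)
  have h6 := hK 6 (by simp)
  have h7 := hK 7 (by simp)
  have h10 : ∀ v, xE ax 10 v ∈ K := stepA 6 (by decide) h6
  have h1 : ∀ v, xE ax 1 v ∈ K := stepA 5 (by decide) h5
  have h8 : ∀ v, xE ax 8 v ∈ K := stepB 7 (by decide) h7
  have h3 : ∀ v, xE ax 3 v ∈ K := stepB 4 (by decide) h4
  have h9 : ∀ v, xE ax 9 v ∈ K := stepA 8 (by decide) h8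
  have h2 : ∀ v, xE ax 2 v ∈ K := stepA 3 (by decide) h3
  have h11 : ∀ v, xE ax 11 v ∈ K := stepB 10 (by decide) h10
  have h0 : ∀ v, xE ax 0 v ∈ K := stepB 1 (by decide) h1
  have hall : ∀ r, r < 12 → ∀ v, xE ax r v ∈ K := by
    intro r hr
    interval_cases r <;> assumption
  have hle : chevG2.group F ≤ K.map (chevG2.group F).subtype := by
    refine (Subgroup.closure_le _).mpr ?_
    rintro g ⟨r, t, hg⟩
    have hr : (r : ℕ) < 12 := r.isLt
    refine ⟨xE ax r t, hall r hr t, ?_⟩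
    apply Units.ext
    show chevG2.x F r t = _
    rw [hg]
    exact x_eq_xMat2 (r : ℕ) r.isLt t
  rw [eq_top_iff]
  intro g _
  obtain ⟨y, hy, hyg⟩ := hle g.2
  have : y = g := Subtype.ext hyg
  rwa [← this]

theorem rho_val : ∀ r : Fin chevG2.nroots, ((Cfsg.Agent.Lib.ReeG2.Blocks.rho r : Fin chevG2.nroots) : ℕ) = rhoS r := by
  decide +kernel

lemma sigma' (h3 : (3 : F) = 0) : ∃ σ : ↥(chevG2.group F) →* ↥(chevG2.group F),
    ∀ r, r < 12 → ∀ t, σ (xE ax r t) = xE ax (rhoS r) (t ^ ccS r) := by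
  have : CharP F 3 := by
    have hp : Nat.Prime 3 := by norm_num
    have h : ringChar F = 3 := CharP.ringChar_of_prime_eq_zero hp (by exact_mod_cast h3)
    rw [← h]
    exact ringChar.charP F
  refine ⟨Cfsg.Agent.Lib.ReeG2.Tw.sigma ax (RingEquiv.refl F), ?_⟩
  intro r hr t
  have h1 := Cfsg.Agent.Lib.ReeG2.Tw.sigma_x ax (RingEquiv.refl F) ⟨r, hr⟩ t
  have h2 := rho_val ⟨r, hr⟩
  apply Subtype.ext
  have h3 := congrArg Subtype.val h1
  show _ = xG ax (rhoS r) (t ^ ccS r)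
  rw [← h2]
  exact h3

end InstAux

open InstAux in
/-- The instance, `x r t = ⟨xG ax r t, xG_mem ax r t⟩`, `na = nG 7 1`, `nb = nG 6 1`, and the twist `ReeG2.Tw.sigma ax (RingEquiv.refl F)` in characteristic three. -/
theorem exists_sys (F : Type*) [Field F] :
    ∃ S : Sys F ↥(chevG2.group F), ((3 : F) = 0 → ∃ σ : ↥(chevG2.group F) →* ↥(chevG2.group F),
      ∀ r, r < 12 → ∀ t, σ (S.x r t) = S.x (rhoS r) (t ^ ccS r)) := by
  have ax : Ax chevG2 F := Cfsg.Agent.Lib.Lie.AxOf.ax_of_mem hmemG2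
  refine ⟨{
    x := xE ax
    x_add := fun r _ a b => Subtype.ext (xG_add ax r a b).symm
    comm := fun r s h u w => comm_pairs ax r s h u w
    r10_6 := e_r10_6 ax
    r9_8 := e_r9_8 ax
    r6_7 := e_r6_7 ax
    r8_7 := e_r8_7 ax
    r9_7 := e_r9_7 ax
    r8_4 := e_r8_4 ax
    r9_4 := e_r9_4 ax
    r10_4 := e_r10_4 ax
    r0_10 := e_r0_10 ax
    r11_5 := e_r11_5 ax
    r8_5 := e_r8_5 ax
    t := tE ax
    t_mul := fun s τ s' τ' => Subtype.ext (by
      show tor chevG2 (yy s τ) * tor chevG2 (yy s' τ') = tor chevG2 (yy (s * s') (τ * τ'))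
      rw [← tor_mul]
      apply tor_congr
      intro i hi
      interval_cases i <;> simp [yy])
    t_one := Subtype.ext (by
      show tor chevG2 (yy (1 : Fˣ) 1) = 1
      rw [← tor_one (D := chevG2)]
      apply tor_congr
      intro i hi
      interval_cases i <;> simp [yy])
    t_conj := fun s τ r hr u => Subtype.ext (by
      show tor chevG2 (yy s τ) * xG ax r u * (tor chevG2 (yy s τ))⁻¹ = xG ax r ((chiV r s τ : F) * u)
      rw [tor_conj_xG ax tabG2 (yy s τ) hr u, chi_yy s τ hr])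
    na := naE ax
    nb := nbE ax
    na_conj := na_conj' ax
    nb_conj := nb_conj' ax
    na_t := na_t' ax
    nb_t := nb_t' ax
    nb_eq := nb_eq' ax
    gen := gen' ax
  }, ?_⟩
  exact fun h3 => sigma' ax h3

/-- The order of the group. -/
theorem card_chevG2 (F : Type*) [Field F] [Fintype F] :
    Nat.card ↥(chevG2.group F) = Fintype.card F ^ 6 * (Fintype.card F ^ 2 - 1) * (Fintype.card F ^ 6 - 1) :=
  Cfsg.Agent.S1059.result rfl

end Cfsg.Agent.Lib.MinG2
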