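import Cfsg.Agent.Lib.MinG2.Basic

/-! The weights in the fixed vectors of `x 11`: invariance, the first numerical relations. -/

set_option autoImplicit false
set_option linter.unusedSectionVars false
set_option linter.unusedVariables false

namespace Cfsg.Agent.Lib.MinG2

open Module
open scoped Classical

variable {F : Type*} [Field F] {Γ : Type*} [Group Γ] {V : Type*} [AddCommGroup V] [Module ℂ V]
variable {S : Sys F Γ} {ρ : Representation ℂ Γ V} {ψ : AddChar F ℂ}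

/-- The invariance of a weight function `nf` on `F⁴`. -/
structure Inv (nf : F × F × F × F → ℕ) : Prop where
  shift : ∀ t c0 c1 c2 c3 : F, nf (c0, c1, c2, c3) =
    nf (c0 + c1 * t + c2 * t ^ 2 - c3 * t ^ 3, c1 + 2 * c2 * t - 3 * c3 * t ^ 2, c2 - 3 * c3 * t, c3)
  torus : ∀ (s τ : Fˣ) (c0 c1 c2 c3 : F), nf (c0, c1, c2, c3) =
    nf (c0 * ((τ⁻¹ : Fˣ) : F), c1 * (((s * τ)⁻¹ : Fˣ) : F), c2 * (((s ^ 2 * τ)⁻¹ : Fˣ) : F), c3 * (((s ^ 3 * τ)⁻¹ : Fˣ) : F))
  swap : ∃ e0 e1 e2 e3 : F, (e0 = 1 ∨ e0 = -1) ∧ (e1 = 1 ∨ e1 = -1) ∧ (e2 = 1 ∨ e2 = -1) ∧ (e3 = 1 ∨ e3 = -1) ∧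
    ∀ c0 c1 c2 c3 : F, nf (c0, c1, c2, c3) = nf (e0 * c3, e1 * c2, e2 * c1, e3 * c0)

section partB

/-- The weight space of `nf`. -/
abbrev W5 (S : Sys F Γ) (ρ : Representation ℂ Γ V) (ψ : AddChar F ℂ) (c0 c1 c2 c3 : F) : Submodule ℂ V :=
  Wt S ρ ψ [(11, 0), (6, c0), (8, c1), (9, c2), (10, c3)]

lemma mem5 {c0 c1 c2 c3 : F} {v : V} : v ∈ W5 S ρ ψ c0 c1 c2 c3 ↔
    (∀ u, ρ (S.x 11 u) v = v) ∧ (∀ u, ρ (S.x 6 u) v = ψ (c0 * u) • v) ∧ (∀ u, ρ (S.x 8 u) v = ψ (c1 * u) • v) ∧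
      (∀ u, ρ (S.x 9 u) v = ψ (c2 * u) • v) ∧ (∀ u, ρ (S.x 10 u) v = ψ (c3 * u) • v) := by
  simp only [mem_Wt, List.forall_mem_cons, List.not_mem_nil, false_imp_iff, implies_true, and_true, zero_mul,
    AddChar.map_zero_eq_one, one_smul]

private lemma act (a b : Γ) (v : V) : ρ a (ρ b v) = ρ (a * b) v := by
  rw [map_mul, Module.End.mul_apply]

lemma shift_map (t : F) {c0 c1 c2 c3 : F} {v : V} (hv : v ∈ W5 S ρ ψ c0 c1 c2 c3) :
    ρ (S.x 7 t) v ∈ W5 S ρ ψ (c0 + c1 * t + c2 * t ^ 2 - c3 * t ^ 3) (c1 + 2 * c2 * t - 3 * c3 * t ^ 2)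
      (c2 - 3 * c3 * t) c3 := by
  obtain ⟨h11, h6, h8, h9, h10⟩ := mem5.mp hv
  refine mem5.mpr ⟨?_, ?_, ?_, ?_, ?_⟩
  · intro u
    rw [act, ← S.comm 7 11 (by simp [commPairs]) t u, ← act, h11]
  · intro u
    rw [act, S.r6_7 u t]
    simp only [map_mul, Module.End.mul_apply, h11, h10, h9, h8, h6, map_smul, smul_smul]
    simp only [← AddChar.map_add_eq_mul]
    congr 2
    ring
  · intro u
    rw [act, S.r8_7 u t]
    simp only [map_mul, Module.End.mul_apply, h11, h10, h9, h8, map_smul, smul_smul]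
    simp only [← AddChar.map_add_eq_mul]
    congr 2
    ring
  · intro u
    rw [act, S.r9_7 u t]
    simp only [map_mul, Module.End.mul_apply, h10, h9, map_smul, smul_smul]
    simp only [← AddChar.map_add_eq_mul]
    congr 2
    ring
  · intro u
    rw [act, ← S.comm 7 10 (by simp [commPairs]) t u, ← act, h10, map_smul]

lemma conj_t (s τ : Fˣ) (r : ℕ) (hr : r < 12) (u : F) :
    S.x r u * S.t s τ = S.t s τ * S.x r ((((chiV r s τ)⁻¹ : Fˣ) : F) * u) := by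
  have h := S.t_conj s τ r hr (((chiV r s τ)⁻¹ : Fˣ) * u)
  rw [← mul_assoc, Units.mul_inv, one_mul] at h
  rw [← h]
  group

lemma conj_t_inv (s τ : Fˣ) (r : ℕ) (hr : r < 12) (u : F) :
    S.x r u * (S.t s τ)⁻¹ = (S.t s τ)⁻¹ * S.x r ((chiV r s τ : F) * u) := by
  rw [← S.t_conj s τ r hr u]
  group

lemma torus_map (s τ : Fˣ) {c0 c1 c2 c3 : F} {v : V} (hv : v ∈ W5 S ρ ψ c0 c1 c2 c3) :
    ρ (S.t s τ) v ∈ W5 S ρ ψ (c0 * ((τ⁻¹ : Fˣ) : F)) (c1 * (((s * τ)⁻¹ : Fˣ) : F))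
      (c2 * (((s ^ 2 * τ)⁻¹ : Fˣ) : F)) (c3 * (((s ^ 3 * τ)⁻¹ : Fˣ) : F)) := by
  obtain ⟨h11, h6, h8, h9, h10⟩ := mem5.mp hv
  refine mem5.mpr ⟨?_, ?_, ?_, ?_, ?_⟩
  · intro u
    rw [act, conj_t s τ 11 (by norm_num), ← act, h11]
  · intro u
    rw [act, conj_t s τ 6 (by norm_num), ← act, h6, map_smul, mul_assoc]
    rfl
  · intro u
    rw [act, conj_t s τ 8 (by norm_num), ← act, h8, map_smul, mul_assoc]
    rfl
  · intro u
    rw [act, conj_t s τ 9 (by norm_num), ← act, h9, map_smul, mul_assoc]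
    rfl
  · intro u
    rw [act, conj_t s τ 10 (by norm_num), ← act, h10, map_smul, mul_assoc]
    rfl

lemma torus_map_inv (s τ : Fˣ) {c0 c1 c2 c3 : F} {v : V}
    (hv : v ∈ W5 S ρ ψ (c0 * ((τ⁻¹ : Fˣ) : F)) (c1 * (((s * τ)⁻¹ : Fˣ) : F))
      (c2 * (((s ^ 2 * τ)⁻¹ : Fˣ) : F)) (c3 * (((s ^ 3 * τ)⁻¹ : Fˣ) : F))) :
    ρ (S.t s τ)⁻¹ v ∈ W5 S ρ ψ c0 c1 c2 c3 := by
  obtain ⟨h11, h6, h8, h9, h10⟩ := mem5.mp hv
  have key : ∀ (χ : Fˣ) (c u : F), c * ((χ⁻¹ : Fˣ) : F) * ((χ : F) * u) = c * u := by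
    intro χ c u
    rw [mul_assoc, ← mul_assoc _ (χ : F) u, Units.inv_mul, one_mul]
  refine mem5.mpr ⟨?_, ?_, ?_, ?_, ?_⟩
  · intro u
    rw [act, conj_t_inv s τ 11 (by norm_num), ← act, h11]
  · intro u
    rw [act, conj_t_inv s τ 6 (by norm_num), ← act, h6, map_smul]
    show ψ (c0 * ((τ⁻¹ : Fˣ) : F) * ((τ : F) * u)) • _ = _
    rw [key]
  · intro u
    rw [act, conj_t_inv s τ 8 (by norm_num), ← act, h8, map_smul]
    show ψ (c1 * (((s * τ)⁻¹ : Fˣ) : F) * (((s * τ : Fˣ) : F) * u)) • _ = _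
    rw [key]
  · intro u
    rw [act, conj_t_inv s τ 9 (by norm_num), ← act, h9, map_smul]
    show ψ (c2 * (((s ^ 2 * τ)⁻¹ : Fˣ) : F) * (((s ^ 2 * τ : Fˣ) : F) * u)) • _ = _
    rw [key]
  · intro u
    rw [act, conj_t_inv s τ 10 (by norm_num), ← act, h10, map_smul]
    show ψ (c3 * (((s ^ 3 * τ)⁻¹ : Fˣ) : F) * (((s ^ 3 * τ : Fˣ) : F) * u)) • _ = _
    rw [key]

/-- `x 7 t` moves `c` by the shift, `t s τ` by the scaling, `na` by the swap. -/
theorem inv_nf [FiniteDimensional ℂ V] : Inv (nf S ρ ψ) := by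
  refine ⟨?_, ?_, ?_⟩
  · intro t c0 c1 c2 c3
    show wr S ρ ψ _ = wr S ρ ψ _
    refine wr_eq_of_maps (S.x 7 t) (fun v hv => shift_map t hv) (fun v hv => ?_)
    rw [x_inv S 7 (by norm_num) t]
    have h := shift_map (-t) hv
    have e0 : c0 + c1 * t + c2 * t ^ 2 - c3 * t ^ 3 + (c1 + 2 * c2 * t - 3 * c3 * t ^ 2) * (-t) +
        (c2 - 3 * c3 * t) * (-t) ^ 2 - c3 * (-t) ^ 3 = c0 := by ring
    have e1 : c1 + 2 * c2 * t - 3 * c3 * t ^ 2 + 2 * (c2 - 3 * c3 * t) * (-t) - 3 * c3 * (-t) ^ 2 = c1 := by ring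
    have e2 : c2 - 3 * c3 * t - 3 * c3 * (-t) = c2 := by ring
    rw [e0, e1, e2] at h
    exact h
  · intro s τ c0 c1 c2 c3
    show wr S ρ ψ _ = wr S ρ ψ _
    exact wr_eq_of_maps (S.t s τ) (fun v hv => torus_map s τ hv) (fun v hv => torus_map_inv s τ hv)
  · obtain ⟨η6, h6e, h6⟩ := S.na_conj 6 (by norm_num)
    obtain ⟨η8, h8e, h8⟩ := S.na_conj 8 (by norm_num)
    obtain ⟨η9, h9e, h9⟩ := S.na_conj 9 (by norm_num)
    obtain ⟨η10, h10e, h10⟩ := S.na_conj 10 (by norm_num)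
    obtain ⟨η11, h11e, h11⟩ := S.na_conj 11 (by norm_num)
    have h6' : ∀ u, S.na * S.x 6 u * S.na⁻¹ = S.x 10 (η6 * u) := h6
    have h8' : ∀ u, S.na * S.x 8 u * S.na⁻¹ = S.x 9 (η8 * u) := h8
    have h9' : ∀ u, S.na * S.x 9 u * S.na⁻¹ = S.x 8 (η9 * u) := h9
    have h10' : ∀ u, S.na * S.x 10 u * S.na⁻¹ = S.x 6 (η10 * u) := h10
    have h11' : ∀ u, S.na * S.x 11 u * S.na⁻¹ = S.x 11 (η11 * u) := h11
    have hsq : ∀ η : F, (η = 1 ∨ η = -1) → η * η = 1 := by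
      rintro η (rfl | rfl) <;> ring
    refine ⟨η10, η9, η8, η6, h10e, h9e, h8e, h6e, ?_⟩
    intro c0 c1 c2 c3
    show wr S ρ ψ _ = wr S ρ ψ _
    -- the inverse relation
    have inv_rel : ∀ (r r' : ℕ) (η : F), (η = 1 ∨ η = -1) → (∀ u, S.na * S.x r u * S.na⁻¹ = S.x r' (η * u)) →
        ∀ u, S.x r' u * S.na = S.na * S.x r (η * u) := by
      intro r r' η hη h u
      have h1 := h (η * u)
      rw [← mul_assoc, hsq η hη, one_mul] at h1
      rw [← h1]
      group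
    have inv_rel2 : ∀ (r r' : ℕ) (η : F), (∀ u, S.na * S.x r u * S.na⁻¹ = S.x r' (η * u)) →
        ∀ u, S.x r u * S.na⁻¹ = S.na⁻¹ * S.x r' (η * u) := by
      intro r r' η h u
      rw [← h u]
      group
    refine wr_eq_of_maps S.na (fun v hv => ?_) (fun v hv => ?_)
    · obtain ⟨a11, a6, a8, a9, a10⟩ := mem5.mp hv
      refine mem5.mpr ⟨?_, ?_, ?_, ?_, ?_⟩
      · intro u
        rw [act, inv_rel 11 11 η11 h11e h11', ← act, a11]
      · intro u
        rw [act, inv_rel 10 6 η10 h10e h10', ← act, a10, map_smul, ← mul_assoc, mul_comm c3 η10]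
      · intro u
        rw [act, inv_rel 9 8 η9 h9e h9', ← act, a9, map_smul, ← mul_assoc, mul_comm c2 η9]
      · intro u
        rw [act, inv_rel 8 9 η8 h8e h8', ← act, a8, map_smul, ← mul_assoc, mul_comm c1 η8]
      · intro u
        rw [act, inv_rel 6 10 η6 h6e h6', ← act, a6, map_smul, ← mul_assoc, mul_comm c0 η6]
    · obtain ⟨a11, a6, a8, a9, a10⟩ := mem5.mp hv
      have key : ∀ (η c u : F), (η = 1 ∨ η = -1) → η * c * (η * u) = c * u := by
        intro η c u hη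
        calc η * c * (η * u) = (η * η) * (c * u) := by ring
          _ = c * u := by rw [hsq η hη, one_mul]
      refine mem5.mpr ⟨?_, ?_, ?_, ?_, ?_⟩
      · intro u
        rw [act, inv_rel2 11 11 η11 h11', ← act, a11]
      · intro u
        rw [act, inv_rel2 6 10 η6 h6', ← act, a10, map_smul, key _ _ _ h6e]
      · intro u
        rw [act, inv_rel2 8 9 η8 h8', ← act, a9, map_smul, key _ _ _ h8e]
      · intro u
        rw [act, inv_rel2 9 8 η9 h9', ← act, a8, map_smul, key _ _ _ h9e]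
      · intro u
        rw [act, inv_rel2 10 6 η10 h10', ← act, a6, map_smul, key _ _ _ h10e]

/-- The torus permutes the nontrivial characters of `x 11`. -/
theorem dz_eq [FiniteDimensional ℂ V] {l : F} (hl : l ≠ 0) : wr S ρ ψ [(11, l)] = wr S ρ ψ [(11, 1)] := by
  let L : Fˣ := Units.mk0 l hl
  have hL : (L : F) = l := rfl
  -- `t L L⁻¹` has character `L` on `x 11`
  have hchi : chiV 11 L L⁻¹ = L := by
    show L ^ 3 * L⁻¹ ^ 2 = L
    group
  symm
  refine wr_eq_of_maps (S.t L⁻¹ L) (fun v hv => ?_) (fun v hv => ?_)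
  · have h1 : chiV 11 L⁻¹ L = L⁻¹ := by
      show L⁻¹ ^ 3 * L ^ 2 = L⁻¹
      group
    have hv' : ∀ u, ρ (S.x 11 u) v = ψ (1 * u) • v := by
      intro u
      exact (mem_Wt.mp hv) (11, 1) (by simp) u
    rw [mem_Wt]
    intro p hp u
    obtain rfl : p = (11, l) := by simpa using hp
    show ρ (S.x 11 u) (ρ (S.t L⁻¹ L) v) = ψ (l * u) • ρ (S.t L⁻¹ L) v
    rw [act, conj_t L⁻¹ L 11 (by norm_num), ← act, hv', map_smul, h1, inv_inv, hL, one_mul]
  · have h1 : chiV 11 L⁻¹ L = L⁻¹ := by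
      show L⁻¹ ^ 3 * L ^ 2 = L⁻¹
      group
    have hv' : ∀ u, ρ (S.x 11 u) v = ψ (l * u) • v := by
      intro u
      exact (mem_Wt.mp hv) (11, l) (by simp) u
    rw [mem_Wt]
    intro p hp u
    obtain rfl : p = (11, 1) := by simpa using hp
    show ρ (S.x 11 u) (ρ (S.t L⁻¹ L)⁻¹ v) = ψ (1 * u) • ρ (S.t L⁻¹ L)⁻¹ v
    rw [act, conj_t_inv L⁻¹ L 11 (by norm_num), ← act, hv', map_smul, h1]
    have e : l * (((L⁻¹ : Fˣ) : F) * u) = 1 * u := by
      rw [← mul_assoc, ← hL, Units.mul_inv]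
    rw [e]

lemma comm11 {r : ℕ} (h : (r, 11) ∈ commPairs) {u w : F} {v : V} :
    ρ (S.x 11 w) (ρ (S.x r u) v) = ρ (S.x r u) (ρ (S.x 11 w) v) := by
  rw [act, act, S.comm r 11 h u w]

/-- `dim V^{x 11} = ∑ nf c`. -/
theorem dz_zero [Fintype F] [FiniteDimensional ℂ V] (hψ : ψ ≠ 1) :
    wr S ρ ψ [(11, 0)] = ∑ c : F × F × F × F, nf S ρ ψ c := by
  have hz : ∀ (w : F) (v : V), v ∈ Wt S ρ ψ [(11, 0)] → ρ (S.x 11 w) v = v := by
    intro w v hv
    have := (mem_Wt.mp hv) (11, 0) (by simp) w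
    simpa using this
  -- the first step
  have h1 : wr S ρ ψ [(11, 0)] = ∑ c0 : F, wr S ρ ψ [(6, c0), (11, 0)] := by
    apply wr_cons hψ (by norm_num)
    intro v hv u
    rw [mem_Wt]
    intro p hp w
    obtain rfl : p = (11, 0) := by simpa using hp
    show ρ (S.x 11 w) (ρ (S.x 6 u) v) = ψ (0 * w) • ρ (S.x 6 u) v
    rw [comm11 (by simp [commPairs]), hz w v hv, zero_mul, AddChar.map_zero_eq_one, one_smul]
  have h2 : ∀ c0 : F, wr S ρ ψ [(6, c0), (11, 0)] = ∑ c1 : F, wr S ρ ψ [(8, c1), (6, c0), (11, 0)] := by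
    intro c0
    apply wr_cons hψ (by norm_num)
    intro v hv u
    have a6 := (mem_Wt.mp hv) (6, c0) (by simp)
    have a11 := (mem_Wt.mp hv) (11, 0) (by simp)
    rw [mem_Wt]
    intro p hp w
    simp only [List.mem_cons, List.not_mem_nil, or_false] at hp
    rcases hp with rfl | rfl
    · show ρ (S.x 6 w) (ρ (S.x 8 u) v) = ψ (c0 * w) • ρ (S.x 8 u) v
      rw [act, S.comm 6 8 (by simp [commPairs]) w u, ← act, a6 w, map_smul]
    · show ρ (S.x 11 w) (ρ (S.x 8 u) v) = ψ (0 * w) • ρ (S.x 8 u) v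
      rw [act, ← S.comm 8 11 (by simp [commPairs]) u w, ← act]
      have := a11 w
      simp only [zero_mul, AddChar.map_zero_eq_one, one_smul] at this ⊢
      rw [this]
  have h3 : ∀ c0 c1 : F, wr S ρ ψ [(8, c1), (6, c0), (11, 0)] =
      ∑ c2 : F, wr S ρ ψ [(9, c2), (8, c1), (6, c0), (11, 0)] := by
    intro c0 c1
    apply wr_cons hψ (by norm_num)
    intro v hv u
    have a8 := (mem_Wt.mp hv) (8, c1) (by simp)
    have a6 := (mem_Wt.mp hv) (6, c0) (by simp)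
    have a11 := (mem_Wt.mp hv) (11, 0) (by simp)
    simp only [zero_mul, AddChar.map_zero_eq_one, one_smul] at a11
    rw [mem_Wt]
    intro p hp w
    simp only [List.mem_cons, List.not_mem_nil, or_false] at hp
    rcases hp with rfl | rfl | rfl
    · show ρ (S.x 8 w) (ρ (S.x 9 u) v) = ψ (c1 * w) • ρ (S.x 9 u) v
      have e : S.x 8 w * S.x 9 u = S.x 9 u * S.x 8 w * S.x 11 (3 * w * u) := by
        have h9 := S.r9_8 u w
        have hc := S.x_add 11 (by norm_num) (-(3 * w * u)) (3 * w * u)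
        rw [neg_add_cancel, x_zero S 11 (by norm_num)] at hc
        have h10 : S.x 11 (-(3 * w * u)) * S.x 11 (3 * w * u) = 1 := hc.symm
        calc S.x 8 w * S.x 9 u = S.x 8 w * S.x 9 u * (S.x 11 (-(3 * w * u)) * S.x 11 (3 * w * u)) := by
              rw [h10, mul_one]
          _ = (S.x 8 w * S.x 9 u * S.x 11 (-(3 * w * u))) * S.x 11 (3 * w * u) := by group
          _ = S.x 9 u * S.x 8 w * S.x 11 (3 * w * u) := by rw [← h9]
      rw [act, e, ← act, ← act, a11, a8 w, map_smul]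
    · show ρ (S.x 6 w) (ρ (S.x 9 u) v) = ψ (c0 * w) • ρ (S.x 9 u) v
      rw [act, S.comm 6 9 (by simp [commPairs]) w u, ← act, a6 w, map_smul]
    · show ρ (S.x 11 w) (ρ (S.x 9 u) v) = ψ (0 * w) • ρ (S.x 9 u) v
      rw [act, ← S.comm 9 11 (by simp [commPairs]) u w, ← act, a11 w]
      simp
  have h4 : ∀ c0 c1 c2 : F, wr S ρ ψ [(9, c2), (8, c1), (6, c0), (11, 0)] =
      ∑ c3 : F, wr S ρ ψ [(10, c3), (9, c2), (8, c1), (6, c0), (11, 0)] := by
    intro c0 c1 c2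
    apply wr_cons hψ (by norm_num)
    intro v hv u
    have a9 := (mem_Wt.mp hv) (9, c2) (by simp)
    have a8 := (mem_Wt.mp hv) (8, c1) (by simp)
    have a6 := (mem_Wt.mp hv) (6, c0) (by simp)
    have a11 := (mem_Wt.mp hv) (11, 0) (by simp)
    simp only [zero_mul, AddChar.map_zero_eq_one, one_smul] at a11
    rw [mem_Wt]
    intro p hp w
    simp only [List.mem_cons, List.not_mem_nil, or_false] at hp
    rcases hp with rfl | rfl | rfl | rfl
    · show ρ (S.x 9 w) (ρ (S.x 10 u) v) = ψ (c2 * w) • ρ (S.x 10 u) v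
      rw [act, S.comm 9 10 (by simp [commPairs]) w u, ← act, a9 w, map_smul]
    · show ρ (S.x 8 w) (ρ (S.x 10 u) v) = ψ (c1 * w) • ρ (S.x 10 u) v
      rw [act, S.comm 8 10 (by simp [commPairs]) w u, ← act, a8 w, map_smul]
    · show ρ (S.x 6 w) (ρ (S.x 10 u) v) = ψ (c0 * w) • ρ (S.x 10 u) v
      have e : S.x 6 w * S.x 10 u = S.x 10 u * S.x 6 w * S.x 11 (w * u) := by
        have h9 := S.r10_6 u w
        have hc := S.x_add 11 (by norm_num) (-(w * u)) (w * u)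
        rw [neg_add_cancel, x_zero S 11 (by norm_num)] at hc
        have h10 : S.x 11 (-(w * u)) * S.x 11 (w * u) = 1 := hc.symm
        calc S.x 6 w * S.x 10 u = S.x 6 w * S.x 10 u * (S.x 11 (-(w * u)) * S.x 11 (w * u)) := by
              rw [h10, mul_one]
          _ = (S.x 6 w * S.x 10 u * S.x 11 (-(w * u))) * S.x 11 (w * u) := by group
          _ = S.x 10 u * S.x 6 w * S.x 11 (w * u) := by
              have e2 : -(w * u) = -(w * u) := rfl
              rw [← h9]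
      rw [act, e, ← act, ← act, a11, a6 w, map_smul]
    · show ρ (S.x 11 w) (ρ (S.x 10 u) v) = ψ (0 * w) • ρ (S.x 10 u) v
      rw [act, ← S.comm 10 11 (by simp [commPairs]) u w, ← act, a11 w]
      simp
  rw [h1]
  simp only [Fintype.sum_prod_type, h2, h3, h4]
  refine Finset.sum_congr rfl fun c0 _ => Finset.sum_congr rfl fun c1 _ => Finset.sum_congr rfl fun c2 _ =>
    Finset.sum_congr rfl fun c3 _ => ?_
  show _ = wr S ρ ψ [(11, 0), (6, c0), (8, c1), (9, c2), (10, c3)]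
  apply wr_congr
  intro p
  simp only [List.mem_cons, List.not_mem_nil, or_false]
  tauto

/-- `dim V = dim V^{x 11} + (q - 1) d`. -/
theorem k_eq_z [Fintype F] [FiniteDimensional ℂ V] (hψ : ψ ≠ 1) :
    finrank ℂ V = wr S ρ ψ [(11, 0)] + (Fintype.card F - 1) * wr S ρ ψ [(11, 1)] := by
  rw [finrank_eq_sum_x (S := S) (ρ := ρ) hψ (r := 11) (by norm_num)]
  rw [← Finset.add_sum_erase Finset.univ _ (Finset.mem_univ (0 : F))]
  congr 1
  have h : ∀ a ∈ Finset.univ.erase (0 : F), wr S ρ ψ [(11, a)] = wr S ρ ψ [(11, 1)] := by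
    intro a ha
    exact dz_eq (Finset.ne_of_mem_erase ha)
  rw [Finset.sum_congr rfl h, Finset.sum_const, Finset.card_erase_of_mem (Finset.mem_univ _), Finset.card_univ,
    smul_eq_mul]

end partB

/-- `dim V = ∑ nf c + (q - 1) d`. -/
theorem k_eq [Fintype F] [FiniteDimensional ℂ V] (hψ : ψ ≠ 1) :
    finrank ℂ V = (Fintype.card F - 1) * wr S ρ ψ [(11, 1)] + ∑ c : F × F × F × F, nf S ρ ψ c := by
  rw [k_eq_z (S := S) (ρ := ρ) hψ, dz_zero (S := S) (ρ := ρ) hψ, add_comm]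


section PartTwo

omit [Field F] in
/-- A commutation relation up to a central factor. -/
lemma act_mul_of_rel {ρ : Representation ℂ Γ V} {A B C : Γ} (hrel : A * B = B * A * C) {v : V} {α γ : ℂ}
    (hA : ρ A v = α • v) (hC : ρ C v = γ • v) : ρ A (ρ B v) = (α * γ) • ρ B v := by
  rw [← Module.End.mul_apply, ← map_mul, hrel, map_mul, map_mul, Module.End.mul_apply,
    Module.End.mul_apply, hC, map_smul, map_smul, hA, map_smul, smul_smul, mul_comm]

omit [Field F] in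
lemma act_comm_of {ρ : Representation ℂ Γ V} {A B : Γ} (hrel : A * B = B * A) (v : V) :
    ρ A (ρ B v) = ρ B (ρ A v) := by
  rw [← Module.End.mul_apply, ← map_mul, hrel, map_mul, Module.End.mul_apply]

lemma mem_Wt_cons {r : ℕ} {a : F} {l : List (ℕ × F)} {v : V} :
    v ∈ Wt S ρ ψ ((r, a) :: l) ↔ (∀ u, ρ (S.x r u) v = ψ (a * u) • v) ∧ v ∈ Wt S ρ ψ l := by
  simp [mem_Wt]

lemma not_mem_nil_Wt {v : V} : v ∈ Wt S ρ ψ [] := by
  simp [mem_Wt]

/-- Stability of a weight condition when the commutator acts on `v` by `1`. -/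
lemma comm_x {r s : ℕ} (h : (r, s) ∈ commPairs) (u w : F) : S.x r u * S.x s w = S.x s w * S.x r u :=
  S.comm r s h u w

/-- `x 6 t * x 10 u = x 10 u * x 6 t * x 11 (t * u)`. -/
lemma rel_6_10 (u t : F) : S.x 6 t * S.x 10 u = S.x 10 u * S.x 6 t * S.x 11 (t * u) := by
  have h := S.r10_6 u t
  have h2 : S.x 11 (t * u) = (S.x 11 (-(t * u)))⁻¹ := by
    rw [x_inv S 11 (by norm_num), neg_neg]
  rw [h2, h, mul_inv_cancel_right]

/-- `x 8 t * x 9 u = x 9 u * x 8 t * x 11 (3 * t * u)`. -/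
lemma rel_8_9 (u t : F) : S.x 8 t * S.x 9 u = S.x 9 u * S.x 8 t * S.x 11 (3 * t * u) := by
  have h := S.r9_8 u t
  have h2 : S.x 11 (3 * t * u) = (S.x 11 (-(3 * t * u)))⁻¹ := by
    rw [x_inv S 11 (by norm_num), neg_neg]
  rw [h2, h, mul_inv_cancel_right]

/-- `x 10` shifts the weights of `x 6` on `Wt [(11, 1)]`. -/
lemma x10_maps (u a : F) {v : V} (hv : v ∈ Wt S ρ ψ [(6, a), (11, 1)]) :
    ρ (S.x 10 u) v ∈ Wt S ρ ψ [(6, a + u), (11, 1)] := by
  rw [mem_Wt_cons, mem_Wt_cons] at hv ⊢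
  obtain ⟨h6, h11, -⟩ := hv
  refine ⟨?_, ?_, not_mem_nil_Wt⟩
  · intro t
    have h1 := h11 (t * u)
    rw [one_mul] at h1
    rw [act_mul_of_rel (rel_6_10 u t) (h6 t) h1, ← AddChar.map_add_eq_mul]
    congr 2
    ring
  · intro w
    rw [← act_comm_of (comm_x (by decide) u w) v, h11 w, map_smul]

/-- The weights of `x 6` on `Wt [(11, 1)]` are all of the same multiplicity. -/
lemma wr_shift6 [FiniteDimensional ℂ V] (a b : F) :
    wr S ρ ψ [(6, a), (11, 1)] = wr S ρ ψ [(6, b), (11, 1)] := by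
  refine wr_eq_of_maps (S.x 10 (b - a)) ?_ ?_
  · intro v hv
    have := x10_maps (b - a) a hv
    rwa [add_sub_cancel] at this
  · intro v hv
    rw [x_inv S 10 (by norm_num)]
    have := x10_maps (-(b - a)) b hv
    rwa [show b + -(b - a) = a by ring] at this

lemma sq_sign {e : F} (h : e = 1 ∨ e = -1) : e * e = 1 := by
  rcases h with rfl | rfl <;> simp

lemma mul_sign {e f : F} (h : e = 1 ∨ e = -1) (h' : f = 1 ∨ f = -1) : e * f = 1 ∨ e * f = -1 := by
  rcases h with rfl | rfl <;> rcases h' with rfl | rfl <;> simp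

/-- The element swapping the long roots `11` and `6`. -/
lemma exists_long_swap : ∃ (g : Γ) (η η' : F), (η = 1 ∨ η = -1) ∧ (η' = 1 ∨ η' = -1) ∧
    (∀ u, g * S.x 11 u * g⁻¹ = S.x 6 (η * u)) ∧ (∀ u, g * S.x 6 u * g⁻¹ = S.x 11 (η' * u)) := by
  obtain ⟨e1, he1, h1⟩ := S.na_conj 11 (by norm_num)
  obtain ⟨e2, he2, h2⟩ := S.nb_conj 11 (by norm_num)
  obtain ⟨e3, he3, h3⟩ := S.na_conj 10 (by norm_num)
  obtain ⟨e4, he4, h4⟩ := S.nb_conj 10 (by norm_num)
  change ∀ u, S.na * S.x 11 u * S.na⁻¹ = S.x 11 (e1 * u) at h1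
  change ∀ u, S.nb * S.x 11 u * S.nb⁻¹ = S.x 10 (e2 * u) at h2
  change ∀ u, S.na * S.x 10 u * S.na⁻¹ = S.x 6 (e3 * u) at h3
  change ∀ u, S.nb * S.x 10 u * S.nb⁻¹ = S.x 11 (e4 * u) at h4
  refine ⟨S.na * S.nb * S.na⁻¹, e3 * e2 * e1, e1 * e4 * e3, mul_sign (mul_sign he3 he2) he1,
    mul_sign (mul_sign he1 he4) he3, ?_, ?_⟩
  · intro u
    have h5 : S.x 11 u = S.na * S.x 11 (e1 * u) * S.na⁻¹ := by
      rw [h1, ← mul_assoc, sq_sign he1, one_mul]
    calc S.na * S.nb * S.na⁻¹ * S.x 11 u * (S.na * S.nb * S.na⁻¹)⁻¹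
        = S.na * (S.nb * S.x 11 (e1 * u) * S.nb⁻¹) * S.na⁻¹ := by
          rw [h5]
          group
      _ = S.x 6 (e3 * e2 * e1 * u) := by
          rw [h2, h3]
          congr 1
          ring
  · intro u
    have h5 : S.x 6 u = S.na * S.x 10 (e3 * u) * S.na⁻¹ := by
      rw [h3, ← mul_assoc, sq_sign he3, one_mul]
    calc S.na * S.nb * S.na⁻¹ * S.x 6 u * (S.na * S.nb * S.na⁻¹)⁻¹
        = S.na * (S.nb * S.x 10 (e3 * u) * S.nb⁻¹) * S.na⁻¹ := by
          rw [h5]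
          group
      _ = S.x 11 (e1 * e4 * e3 * u) := by
          rw [h4, h1]
          congr 1
          ring

/-- Weight transport along a relation `x r w * g = g * x s (κ * w)`. -/
lemma act_conj_rel {g : Γ} {r s : ℕ} {κ a : F} {v : V} {w : F}
    (hrel : S.x r w * g = g * S.x s (κ * w)) (hv : ρ (S.x s (κ * w)) v = ψ (a * (κ * w)) • v) :
    ρ (S.x r w) (ρ g v) = ψ (a * κ * w) • ρ g v := by
  rw [← Module.End.mul_apply, ← map_mul, hrel, map_mul, Module.End.mul_apply, hv, map_smul,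
    mul_assoc]

/-- `T c0 = wr [(6, c0), (11, 0)]` and `m = wr [(6, 0), (11, 1)]`. -/
lemma exists_swap_eq [FiniteDimensional ℂ V] : ∃ η : F, (η = 1 ∨ η = -1) ∧
    wr S ρ ψ [(6, 0), (11, 1)] = wr S ρ ψ [(6, η), (11, 0)] := by
  obtain ⟨g, η, η', hη, hη', h1, h2⟩ := exists_long_swap (S := S)
  refine ⟨η, hη, wr_eq_of_maps g ?_ ?_⟩
  · intro v hv
    rw [mem_Wt_cons, mem_Wt_cons] at hv ⊢
    obtain ⟨h6, h11, -⟩ := hv
    refine ⟨?_, ?_, not_mem_nil_Wt⟩
    · intro w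
      have hrel : S.x 6 w * g = g * S.x 11 (η * w) := by
        have e : S.x 6 w = g * S.x 11 (η * w) * g⁻¹ := by
          rw [h1, ← mul_assoc, sq_sign hη, one_mul]
        rw [e]
        group
      have := act_conj_rel (ρ := ρ) (ψ := ψ) (a := 1) (v := v) hrel (h11 _)
      rwa [one_mul] at this
    · intro w
      have hrel : S.x 11 w * g = g * S.x 6 (η' * w) := by
        have e : S.x 11 w = g * S.x 6 (η' * w) * g⁻¹ := by
          rw [h2, ← mul_assoc, sq_sign hη', one_mul]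
        rw [e]
        group
      have := act_conj_rel (ρ := ρ) (ψ := ψ) (a := 0) (v := v) hrel (h6 _)
      simpa using this
  · intro v hv
    rw [mem_Wt_cons, mem_Wt_cons] at hv ⊢
    obtain ⟨h6, h11, -⟩ := hv
    refine ⟨?_, ?_, not_mem_nil_Wt⟩
    · intro w
      have hrel : S.x 6 w * g⁻¹ = g⁻¹ * S.x 11 (η' * w) := by
        rw [← h2]
        group
      have := act_conj_rel (ρ := ρ) (ψ := ψ) (a := 0) (v := v) hrel (h11 _)
      simpa using this
    · intro w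
      have hrel : S.x 11 w * g⁻¹ = g⁻¹ * S.x 6 (η * w) := by
        rw [← h1]
        group
      have := act_conj_rel (ρ := ρ) (ψ := ψ) (a := η) (v := v) hrel (h6 _)
      rwa [sq_sign hη] at this

/-- The torus. -/
lemma wr_torus6 [FiniteDimensional ℂ V] {c : F} (hc : c ≠ 0) :
    wr S ρ ψ [(6, c), (11, 0)] = wr S ρ ψ [(6, 1), (11, 0)] := by
  set τ : Fˣ := Units.mk0 c hc with hτ
  have hτc : (τ : F) = c := rfl
  have h6 : ∀ u, S.t 1 τ * S.x 6 u * (S.t 1 τ)⁻¹ = S.x 6 (c * u) := by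
    intro u
    rw [S.t_conj 1 τ 6 (by norm_num)]
    rfl
  have h11 : ∀ u, S.t 1 τ * S.x 11 u * (S.t 1 τ)⁻¹ = S.x 11 (c ^ 2 * u) := by
    intro u
    rw [S.t_conj 1 τ 11 (by norm_num)]
    simp [chiV, hτc]
  have hc2 : c ^ 2 ≠ 0 := pow_ne_zero 2 hc
  refine wr_eq_of_maps (S.t 1 τ) ?_ ?_
  · intro v hv
    rw [mem_Wt_cons, mem_Wt_cons] at hv ⊢
    obtain ⟨hv6, hv11, -⟩ := hv
    refine ⟨?_, ?_, not_mem_nil_Wt⟩
    · intro w
      have hrel : S.x 6 w * S.t 1 τ = S.t 1 τ * S.x 6 (c⁻¹ * w) := by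
        have e : S.x 6 w = S.t 1 τ * S.x 6 (c⁻¹ * w) * (S.t 1 τ)⁻¹ := by
          rw [h6, mul_inv_cancel_left₀ hc]
        rw [e]
        group
      have := act_conj_rel (ρ := ρ) (ψ := ψ) (a := c) (v := v) hrel (hv6 _)
      rwa [mul_inv_cancel₀ hc] at this
    · intro w
      have hrel : S.x 11 w * S.t 1 τ = S.t 1 τ * S.x 11 ((c ^ 2)⁻¹ * w) := by
        have e : S.x 11 w = S.t 1 τ * S.x 11 ((c ^ 2)⁻¹ * w) * (S.t 1 τ)⁻¹ := by
          rw [h11, mul_inv_cancel_left₀ hc2]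
        rw [e]
        group
      have := act_conj_rel (ρ := ρ) (ψ := ψ) (a := 0) (v := v) hrel (hv11 _)
      simpa using this
  · intro v hv
    rw [mem_Wt_cons, mem_Wt_cons] at hv ⊢
    obtain ⟨hv6, hv11, -⟩ := hv
    refine ⟨?_, ?_, not_mem_nil_Wt⟩
    · intro w
      have hrel : S.x 6 w * (S.t 1 τ)⁻¹ = (S.t 1 τ)⁻¹ * S.x 6 (c * w) := by
        rw [← h6]
        group
      have := act_conj_rel (ρ := ρ) (ψ := ψ) (a := 1) (v := v) hrel (hv6 _)
      rwa [one_mul] at this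
    · intro w
      have hrel : S.x 11 w * (S.t 1 τ)⁻¹ = (S.t 1 τ)⁻¹ * S.x 11 (c ^ 2 * w) := by
        rw [← h11]
        group
      have := act_conj_rel (ρ := ρ) (ψ := ψ) (a := 0) (v := v) hrel (hv11 _)
      simpa using this

/-- The decomposition of `wr [(6, c0), (11, 0)]`. -/
lemma wr_decomp [Fintype F] [FiniteDimensional ℂ V] (hψ : ψ ≠ 1) (c0 : F) :
    wr S ρ ψ [(6, c0), (11, 0)] = ∑ c1 : F, ∑ c2 : F, ∑ c3 : F, nf S ρ ψ (c0, c1, c2, c3) := by
  have h0 : ∀ u : F, ψ (0 * u) = 1 := fun u => by simp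
  rw [wr_cons (S := S) (ρ := ρ) hψ (r := 8) (by norm_num) (l := [(6, c0), (11, 0)]) (by
    intro v hv u
    rw [mem_Wt_cons, mem_Wt_cons] at hv ⊢
    obtain ⟨h6, h11, -⟩ := hv
    refine ⟨?_, ?_, not_mem_nil_Wt⟩
    · intro t
      rw [act_comm_of (comm_x (by decide) t u) v, h6 t, map_smul]
    · intro t
      rw [← act_comm_of (comm_x (by decide) u t) v, h11 t, map_smul])]
  refine Finset.sum_congr rfl fun c1 _ => ?_
  rw [wr_cons (S := S) (ρ := ρ) hψ (r := 9) (by norm_num) (l := [(8, c1), (6, c0), (11, 0)]) (by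
    intro v hv u
    rw [mem_Wt_cons, mem_Wt_cons, mem_Wt_cons] at hv ⊢
    obtain ⟨h8, h6, h11, -⟩ := hv
    refine ⟨?_, ?_, ?_, not_mem_nil_Wt⟩
    · intro t
      have h1 := h11 (3 * t * u)
      rw [act_mul_of_rel (rel_8_9 u t) (h8 t) h1, h0, mul_one]
    · intro t
      rw [act_comm_of (comm_x (by decide) t u) v, h6 t, map_smul]
    · intro t
      rw [← act_comm_of (comm_x (by decide) u t) v, h11 t, map_smul])]
  refine Finset.sum_congr rfl fun c2 _ => ?_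
  rw [wr_cons (S := S) (ρ := ρ) hψ (r := 10) (by norm_num) (l := [(9, c2), (8, c1), (6, c0), (11, 0)]) (by
    intro v hv u
    rw [mem_Wt_cons, mem_Wt_cons, mem_Wt_cons, mem_Wt_cons] at hv ⊢
    obtain ⟨h9, h8, h6, h11, -⟩ := hv
    refine ⟨?_, ?_, ?_, ?_, not_mem_nil_Wt⟩
    · intro t
      rw [act_comm_of (comm_x (by decide) t u) v, h9 t, map_smul]
    · intro t
      rw [act_comm_of (comm_x (by decide) t u) v, h8 t, map_smul]
    · intro t
      have h1 := h11 (t * u)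
      rw [act_mul_of_rel (rel_6_10 u t) (h6 t) h1, h0, mul_one]
    · intro t
      rw [← act_comm_of (comm_x (by decide) u t) v, h11 t, map_smul])]
  refine Finset.sum_congr rfl fun c3 _ => ?_
  apply wr_congr
  intro p
  simp only [List.mem_cons, List.not_mem_nil, or_false]
  tauto

/-- `x 6` moves the weights of `x 10`. -/
lemma x6_maps (u a b : F) {v : V} (hv : v ∈ Wt S ρ ψ [(9, b), (10, a), (11, 1)]) :
    ρ (S.x 6 u) v ∈ Wt S ρ ψ [(9, b), (10, a - u), (11, 1)] := by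
  rw [mem_Wt_cons, mem_Wt_cons, mem_Wt_cons] at hv ⊢
  obtain ⟨h9, h10, h11, -⟩ := hv
  refine ⟨?_, ?_, ?_, not_mem_nil_Wt⟩
  · intro t
    rw [← act_comm_of (comm_x (by decide) u t) v, h9 t, map_smul]
  · intro t
    have h1 := h11 (-(u * t))
    rw [act_mul_of_rel (S.r10_6 t u) (h10 t) h1, ← AddChar.map_add_eq_mul]
    congr 2
    ring
  · intro t
    rw [← act_comm_of (comm_x (by decide) u t) v, h11 t, map_smul]

/-- `x 8` moves the weights of `x 9`. -/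
lemma x8_maps (u a b : F) {v : V} (hv : v ∈ Wt S ρ ψ [(9, b), (10, a), (11, 1)]) :
    ρ (S.x 8 u) v ∈ Wt S ρ ψ [(9, b - 3 * u), (10, a), (11, 1)] := by
  rw [mem_Wt_cons, mem_Wt_cons, mem_Wt_cons] at hv ⊢
  obtain ⟨h9, h10, h11, -⟩ := hv
  refine ⟨?_, ?_, ?_, not_mem_nil_Wt⟩
  · intro t
    have h1 := h11 (-(3 * u * t))
    rw [act_mul_of_rel (S.r9_8 t u) (h9 t) h1, ← AddChar.map_add_eq_mul]
    congr 2
    ring
  · intro t
    rw [act_comm_of (comm_x (by decide) u t).symm v, h10 t, map_smul]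
  · intro t
    rw [← act_comm_of (comm_x (by decide) u t) v, h11 t, map_smul]

lemma wr_shift_sq [FiniteDimensional ℂ V] (h3 : (3 : F) ≠ 0) (a b : F) :
    wr S ρ ψ [(9, b), (10, a), (11, 1)] = wr S ρ ψ [(9, 0), (10, 0), (11, 1)] := by
  have h1 : wr S ρ ψ [(9, b), (10, a), (11, 1)] = wr S ρ ψ [(9, b), (10, 0), (11, 1)] := by
    refine wr_eq_of_maps (S.x 6 a) ?_ ?_
    · intro v hv
      have := x6_maps a a b hv
      rwa [sub_self] at this
    · intro v hv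
      rw [x_inv S 6 (by norm_num)]
      have := x6_maps (-a) 0 b hv
      rwa [zero_sub, neg_neg] at this
  have h2 : wr S ρ ψ [(9, b), (10, 0), (11, 1)] = wr S ρ ψ [(9, 0), (10, 0), (11, 1)] := by
    refine wr_eq_of_maps (S.x 8 (b / 3)) ?_ ?_
    · intro v hv
      have := x8_maps (b / 3) 0 b hv
      rwa [mul_div_cancel₀ _ h3, sub_self] at this
    · intro v hv
      rw [x_inv S 8 (by norm_num)]
      have := x8_maps (-(b / 3)) 0 0 hv
      rwa [mul_neg, mul_div_cancel₀ _ h3, zero_sub, neg_neg] at this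
  rw [h1, h2]

/-- Triviality passes along conjugations. -/
lemma triv_conj {g : Γ} {r r' : ℕ}
    (h : ∃ η : F, (η = 1 ∨ η = -1) ∧ ∀ u, g * S.x r u * g⁻¹ = S.x r' (η * u))
    (htriv : ∀ u, ρ (S.x r u) = 1) : ∀ u, ρ (S.x r' u) = 1 := by
  obtain ⟨η, hη, h1⟩ := h
  intro u
  have e : S.x r' u = g * S.x r (η * u) * g⁻¹ := by
    rw [h1, ← mul_assoc, sq_sign hη, one_mul]
  rw [e, map_mul, map_mul, htriv, mul_one, ← map_mul, mul_inv_cancel, map_one]

end PartTwo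

/-- The relation `E0`: `x 6` is conjugate to `x 11` (by `na * nb`), and `x 10` permutes the characters of `x 6` on the
nontrivial characters of `x 11`. -/
theorem exists_m [Fintype F] [FiniteDimensional ℂ V] (hψ : ψ ≠ 1) :
    ∃ m, wr S ρ ψ [(11, 1)] = Fintype.card F * m ∧
      ∑ c : F × F × F × F, (if c.1 ≠ 0 then nf S ρ ψ c else 0) = (Fintype.card F - 1) * m := by
  refine ⟨wr S ρ ψ [(6, 0), (11, 1)], ?_, ?_⟩
  · rw [wr_cons (S := S) (ρ := ρ) hψ (r := 6) (by norm_num) (l := [(11, 1)]) (by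
      intro v hv u
      rw [mem_Wt_cons] at hv ⊢
      obtain ⟨h11, -⟩ := hv
      refine ⟨?_, not_mem_nil_Wt⟩
      intro t
      rw [← act_comm_of (comm_x (by decide) u t) v, h11 t, map_smul])]
    simp_rw [wr_shift6 (S := S) (ρ := ρ) (ψ := ψ) _ 0]
    rw [Finset.sum_const, Finset.card_univ, smul_eq_mul]
  · obtain ⟨η, hη, hm⟩ := exists_swap_eq (S := S) (ρ := ρ) (ψ := ψ)
    have hη0 : η ≠ 0 := by
      rcases hη with rfl | rfl <;> simp
    rw [hm, wr_torus6 hη0]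
    simp_rw [Fintype.sum_prod_type]
    have h1 : ∀ c0 : F, ∑ c1 : F, ∑ c2 : F, ∑ c3 : F,
        (if c0 ≠ 0 then nf S ρ ψ (c0, c1, c2, c3) else 0) =
        if c0 ≠ 0 then wr S ρ ψ [(6, 1), (11, 0)] else 0 := by
      intro c0
      by_cases hc0 : c0 = 0
      · simp [hc0]
      · simp only [ne_eq, hc0, not_false_eq_true, if_true]
        rw [← wr_decomp hψ c0, wr_torus6 hc0]
    simp only [h1]
    rw [Finset.sum_ite, Finset.sum_const_zero, add_zero, Finset.sum_const, smul_eq_mul]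
    congr 1
    rw [Finset.filter_ne', Finset.card_erase_of_mem (Finset.mem_univ _), Finset.card_univ]

/-- `x 11` acts nontrivially: otherwise all the long root groups act trivially, then by `r6_7` also `x 8, x 9`, and all
the short root groups are conjugate to them. -/
theorem d_pos [Fintype F] [FiniteDimensional ℂ V] (hψ : ψ ≠ 1) (hq : 2 < Fintype.card F) (hfix : NoFix S ρ)
    (hV : Nontrivial V) : 0 < wr S ρ ψ [(11, 1)] := by
  by_contra hcon
  have h0 : wr S ρ ψ [(11, 1)] = 0 := by omega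
  have hl : ∀ a : F, a ≠ 0 → wr S ρ ψ [(11, a)] = 0 := fun a ha => by
    rw [dz_eq ha, h0]
  have hsum := finrank_eq_sum_x (S := S) (ρ := ρ) hψ (r := 11) (by norm_num)
  rw [Finset.sum_eq_single (0 : F) (fun a _ ha => hl a ha) (fun h => absurd (Finset.mem_univ _) h)]
    at hsum
  have htop : Wt S ρ ψ [(11, 0)] = ⊤ := Submodule.eq_top_of_finrank_eq hsum.symm
  have h11 : ∀ u, ρ (S.x 11 u) = 1 := by
    intro u
    ext1 v
    have hv : v ∈ Wt S ρ ψ [(11, 0)] := by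
      rw [htop]
      trivial
    rw [mem_Wt_cons] at hv
    rw [hv.1 u]
    simp
  have h10 : ∀ u, ρ (S.x 10 u) = 1 := triv_conj (g := S.nb) (S.nb_conj 11 (by norm_num)) h11
  have h6 : ∀ u, ρ (S.x 6 u) = 1 := triv_conj (g := S.na) (S.na_conj 10 (by norm_num)) h10
  have h5 : ∀ u, ρ (S.x 5 u) = 1 := triv_conj (g := S.nb) (S.nb_conj 6 (by norm_num)) h6
  have hinv : ∀ g, ρ g⁻¹ * ρ g = 1 := fun g => by
    rw [← map_mul, inv_mul_cancel, map_one]
  have hinv' : ∀ g, ρ g * ρ g⁻¹ = 1 := fun g => by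
    rw [← map_mul, mul_inv_cancel, map_one]
  have hmul : ∀ t u : F, ρ (S.x 8 (t * u)) * ρ (S.x 9 (t ^ 2 * u)) = 1 := by
    intro t u
    have h1 := congrArg ρ (S.r6_7 u t)
    simp only [map_mul, h6, h10, h11, mul_one, one_mul] at h1
    have h2 := congrArg (fun T => ρ (S.x 7 t)⁻¹ * T) h1
    simp only [← mul_assoc, hinv, one_mul] at h2
    exact h2.symm
  obtain ⟨t₀, ht₀, ht₁⟩ : ∃ t₀ : F, t₀ ≠ 0 ∧ t₀ ≠ 1 := by
    classical
    have h1 : (({0, 1} : Finset F)).card < (Finset.univ : Finset F).card := by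
      rw [Finset.card_univ]
      exact lt_of_le_of_lt (Finset.card_le_two) hq
    obtain ⟨t, -, ht⟩ := Finset.exists_mem_notMem_of_card_lt_card h1
    simp only [Finset.mem_insert, Finset.mem_singleton, not_or] at ht
    exact ⟨t, ht.1, ht.2⟩
  have hrel : ∀ t a : F, t ≠ 0 → ρ (S.x 8 a) * ρ (S.x 9 (t * a)) = 1 := by
    intro t a ht
    have h1 := hmul t (a / t)
    rwa [mul_div_cancel₀ _ ht, show t ^ 2 * (a / t) = t * a by field_simp] at h1
  have h9 : ∀ w, ρ (S.x 9 w) = 1 := by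
    intro w
    have ht2 : t₀ - 1 ≠ 0 := sub_ne_zero.mpr ht₁
    set a := w / (t₀ - 1) with ha
    have h1 := hrel 1 a one_ne_zero
    have h2 := hrel t₀ a ht₀
    rw [one_mul] at h1
    have h3 : t₀ * a = a + w := by
      rw [ha]
      field_simp
      ring
    rw [h3, S.x_add 9 (by norm_num), map_mul, ← mul_assoc, h1, one_mul] at h2
    exact h2
  have h8 : ∀ a, ρ (S.x 8 a) = 1 := by
    intro a
    have h1 := hrel 1 a one_ne_zero
    rwa [h9, mul_one] at h1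
  have h7 : ∀ u, ρ (S.x 7 u) = 1 := triv_conj (g := S.nb) (S.nb_conj 8 (by norm_num)) h8
  have h4 : ∀ u, ρ (S.x 4 u) = 1 := triv_conj (g := S.na) (S.na_conj 7 (by norm_num)) h7
  obtain ⟨v, hv⟩ := exists_ne (0 : V)
  apply hv
  apply hfix v
  intro r hr u
  simp only [List.mem_cons, List.not_mem_nil, or_false] at hr
  rcases hr with rfl | rfl | rfl | rfl
  · rw [h4]; rfl
  · rw [h5]; rfl
  · rw [h6]; rfl
  · rw [h7]; rfl

/-- If `3 ≠ 0`, `x 6` permutes the characters of `x 10` and `x 8` those of `x 9` on `Wt [(11, 1)]`. -/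
theorem sq_dvd [Fintype F] [FiniteDimensional ℂ V] (hψ : ψ ≠ 1) (h3 : (3 : F) ≠ 0) :
    Fintype.card F ^ 2 ∣ wr S ρ ψ [(11, 1)] := by
  rw [wr_cons (S := S) (ρ := ρ) hψ (r := 10) (by norm_num) (l := [(11, 1)]) (by
    intro v hv u
    rw [mem_Wt_cons] at hv ⊢
    obtain ⟨h11, -⟩ := hv
    refine ⟨?_, not_mem_nil_Wt⟩
    intro t
    rw [← act_comm_of (comm_x (by decide) u t) v, h11 t, map_smul])]
  have h1 : ∀ a : F, wr S ρ ψ [(10, a), (11, 1)] = Fintype.card F * wr S ρ ψ [(9, 0), (10, 0), (11, 1)] := by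
    intro a
    rw [wr_cons (S := S) (ρ := ρ) hψ (r := 9) (by norm_num) (l := [(10, a), (11, 1)]) (by
      intro v hv u
      rw [mem_Wt_cons, mem_Wt_cons] at hv ⊢
      obtain ⟨h10, h11, -⟩ := hv
      refine ⟨?_, ?_, not_mem_nil_Wt⟩
      · intro t
        rw [← act_comm_of (comm_x (by decide) u t) v, h10 t, map_smul]
      · intro t
        rw [← act_comm_of (comm_x (by decide) u t) v, h11 t, map_smul])]
    simp_rw [wr_shift_sq h3 a]
    rw [Finset.sum_const, Finset.card_univ, smul_eq_mul]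
  simp_rw [h1]
  rw [Finset.sum_const, Finset.card_univ, smul_eq_mul, ← mul_assoc, ← pow_two]
  exact dvd_mul_right _ _

end Cfsg.Agent.Lib.MinG2
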