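import Cfsg.Agent.Lib.MinG2.K1G

/-! The case `q ≡ 1 mod 3`: the projection `Π`. -/

set_option autoImplicit false
set_option linter.unusedSectionVars false
set_option linter.unusedVariables false

namespace Cfsg.Agent.Lib.MinG2

open Module
open scoped Classical
open Cfsg.Agent.Lib.OddDeg

variable {F : Type*} [Field F] {Γ : Type*} [Group Γ] {V : Type*} [AddCommGroup V] [Module ℂ V]
variable {S : Sys F Γ} {ρ : Representation ℂ Γ V} {ψ : AddChar F ℂ}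

/-- Membership in `N`. -/
lemma mem_NN_iff {v : V} : v ∈ NN S ρ ψ ↔ (∀ u, ρ (S.x 11 u) v = v) ∧ (∀ u, ρ (S.x 6 u) v = v) := by
  simp [NN, mem_Wt]

lemma sign_mul {a b : F} (ha : a = 1 ∨ a = -1) (hb : b = 1 ∨ b = -1) : a * b = 1 ∨ a * b = -1 := by
  rcases ha with rfl | rfl <;> rcases hb with rfl | rfl <;> simp

lemma sign_sq {a : F} (ha : a = 1 ∨ a = -1) : a * a = 1 := by
  rcases ha with rfl | rfl <;> simp

lemma conj_inv_of {n : Γ} {r r' : ℕ} {η : F} (hη : η = 1 ∨ η = -1) (h : ∀ u, n * S.x r u * n⁻¹ = S.x r' (η * u)) (v : F) :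
    n⁻¹ * S.x r' v * n = S.x r (η * v) := by
  have h1 := h (η * v)
  rw [← mul_assoc, sign_sq hη, one_mul] at h1
  rw [← h1]
  group

variable (S) in
/-- The Weyl element `w₁`. -/
def w1 : Γ := S.na * S.nb * S.na⁻¹

lemma w1_x5 : ∃ η : F, (η = 1 ∨ η = -1) ∧ ∀ v, w1 S * S.x 5 v * (w1 S)⁻¹ = S.x 0 (η * v) := by
  obtain ⟨e1, he1, h1⟩ := S.na_conj 1 (by norm_num)
  obtain ⟨e2, he2, h2⟩ := S.nb_conj 1 (by norm_num)
  obtain ⟨e3, he3, h3⟩ := S.na_conj 0 (by norm_num)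
  have h1' : ∀ u, S.na * S.x 1 u * S.na⁻¹ = S.x 5 (e1 * u) := h1
  have h2' : ∀ u, S.nb * S.x 1 u * S.nb⁻¹ = S.x 0 (e2 * u) := h2
  have h3' : ∀ u, S.na * S.x 0 u * S.na⁻¹ = S.x 0 (e3 * u) := h3
  refine ⟨e3 * e2 * e1, sign_mul (sign_mul he3 he2) he1, fun v => ?_⟩
  have e : w1 S * S.x 5 v * (w1 S)⁻¹ = S.na * (S.nb * (S.na⁻¹ * S.x 5 v * S.na) * S.nb⁻¹) * S.na⁻¹ := by
    unfold w1
    group
  rw [e, conj_inv_of he1 h1', h2', h3']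
  congr 1
  ring

lemma w1_x11 : ∃ η : F, (η = 1 ∨ η = -1) ∧ ∀ v, w1 S * S.x 11 v * (w1 S)⁻¹ = S.x 6 (η * v) := by
  obtain ⟨e1, he1, h1⟩ := S.na_conj 11 (by norm_num)
  obtain ⟨e2, he2, h2⟩ := S.nb_conj 11 (by norm_num)
  obtain ⟨e3, he3, h3⟩ := S.na_conj 10 (by norm_num)
  have h1' : ∀ u, S.na * S.x 11 u * S.na⁻¹ = S.x 11 (e1 * u) := h1
  have h2' : ∀ u, S.nb * S.x 11 u * S.nb⁻¹ = S.x 10 (e2 * u) := h2
  have h3' : ∀ u, S.na * S.x 10 u * S.na⁻¹ = S.x 6 (e3 * u) := h3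
  refine ⟨e3 * e2 * e1, sign_mul (sign_mul he3 he2) he1, fun v => ?_⟩
  have e : w1 S * S.x 11 v * (w1 S)⁻¹ = S.na * (S.nb * (S.na⁻¹ * S.x 11 v * S.na) * S.nb⁻¹) * S.na⁻¹ := by
    unfold w1
    group
  rw [e, conj_inv_of he1 h1', h2', h3']
  congr 1
  ring

lemma w1_x6 : ∃ η : F, (η = 1 ∨ η = -1) ∧ ∀ v, w1 S * S.x 6 v * (w1 S)⁻¹ = S.x 11 (η * v) := by
  obtain ⟨e1, he1, h1⟩ := S.na_conj 10 (by norm_num)
  obtain ⟨e2, he2, h2⟩ := S.nb_conj 10 (by norm_num)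
  obtain ⟨e3, he3, h3⟩ := S.na_conj 11 (by norm_num)
  have h1' : ∀ u, S.na * S.x 10 u * S.na⁻¹ = S.x 6 (e1 * u) := h1
  have h2' : ∀ u, S.nb * S.x 10 u * S.nb⁻¹ = S.x 11 (e2 * u) := h2
  have h3' : ∀ u, S.na * S.x 11 u * S.na⁻¹ = S.x 11 (e3 * u) := h3
  refine ⟨e3 * e2 * e1, sign_mul (sign_mul he3 he2) he1, fun v => ?_⟩
  have e : w1 S * S.x 6 v * (w1 S)⁻¹ = S.na * (S.nb * (S.na⁻¹ * S.x 6 v * S.na) * S.nb⁻¹) * S.na⁻¹ := by
    unfold w1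
    group
  rw [e, conj_inv_of he1 h1', h2', h3']
  congr 1
  ring

/-- `w₁⁻¹` stabilises `N`. -/
lemma w1_inv_NN {b : V} (hb : b ∈ NN S ρ ψ) : ρ (w1 S)⁻¹ b ∈ NN S ρ ψ := by
  rw [mem_NN_iff] at hb ⊢
  obtain ⟨e1, he1, h1⟩ := w1_x11 (S := S)
  obtain ⟨e2, he2, h2⟩ := w1_x6 (S := S)
  constructor
  · intro u
    have e : S.x 11 u * (w1 S)⁻¹ = (w1 S)⁻¹ * (w1 S * S.x 11 u * (w1 S)⁻¹) := by group
    rw [← Module.End.mul_apply, ← map_mul, e, h1, map_mul, Module.End.mul_apply, hb.2]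
  · intro u
    have e : S.x 6 u * (w1 S)⁻¹ = (w1 S)⁻¹ * (w1 S * S.x 6 u * (w1 S)⁻¹) := by group
    rw [← Module.End.mul_apply, ← map_mul, e, h2, map_mul, Module.End.mul_apply, hb.1]

/-- `x 10` stabilises `N`. -/
lemma x10_NN {b : V} (hb : b ∈ NN S ρ ψ) (r : F) : ρ (S.x 10 r) b ∈ NN S ρ ψ := by
  rw [mem_NN_iff] at hb ⊢
  constructor
  · intro u
    have e : S.x 11 u * S.x 10 r = S.x 10 r * S.x 11 u := (S.comm 10 11 (by simp [commPairs]) r u).symm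
    rw [← Module.End.mul_apply, ← map_mul, e, map_mul, Module.End.mul_apply, hb.1]
  · intro u
    have e : S.x 6 u * S.x 10 r = S.x 10 r * S.x 6 u * (S.x 11 (-(u * r)))⁻¹ := by
      rw [S.r10_6 r u]
      group
    rw [← Module.End.mul_apply, ← map_mul, e, x_inv S 11 (by norm_num), map_mul, map_mul, Module.End.mul_apply,
      Module.End.mul_apply, hb.1, hb.2]

/-- Conjugation in `E⁻ = X₀ X₅`. -/
lemma x10_x0_conj (r u : F) : S.x 10 r * S.x 0 u * (S.x 10 r)⁻¹ = S.x 0 u * S.x 5 (r * u) := by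
  have h := S.r0_10 u r
  have h5 : S.x 5 (r * u) * S.x 10 r = S.x 10 r * S.x 5 (r * u) := S.comm 5 10 (by simp [commPairs]) _ _
  have h6 : (S.x 5 (-(r * u)))⁻¹ = S.x 5 (r * u) := by
    rw [x_inv S 5 (by norm_num), neg_neg]
  have h7 : S.x 10 r * S.x 0 u = S.x 0 u * S.x 10 r * S.x 5 (r * u) := by
    rw [h, ← h6]
    group
  rw [h7, mul_assoc (S.x 0 u), mul_assoc (S.x 0 u), ← h5]
  group

/-- The value of `⟨x 0 (u) x 5 (r u) a, a⟩` on `N`. -/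
lemma B_line [Fintype F] [FiniteDimensional ℂ V] (hψ : ψ ≠ 1) (hq : 2 < Fintype.card F) (hfix : NoFix S ρ) (hQ : Q1 S ρ ψ)
    (I : IH ρ) {a : V} (ha : a ∈ NN S ρ ψ) (r : F) :
    ∃ κ : ℝ, κ ≤ 0 ∧ ∀ u : F, u ≠ 0 → I.B (ρ (S.x 0 u) (ρ (S.x 5 (r * u)) a)) a = (κ : ℂ) := by
  obtain ⟨η, hη, h⟩ := w1_x5 (S := S)
  set g : Γ := S.x 10 r * w1 S with hg
  have hginv : g⁻¹ = (w1 S)⁻¹ * S.x 10 (-r) := by
    rw [hg, mul_inv_rev, x_inv S 10 (by norm_num)]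
  have hb : ρ g⁻¹ a ∈ NN S ρ ψ := by
    rw [hginv, map_mul, Module.End.mul_apply]
    exact w1_inv_NN (x10_NN ha _)
  obtain ⟨κ, hκ0, hκ⟩ := B_x5_N hψ hq hfix hQ I hb
  refine ⟨κ, hκ0, fun u hu => ?_⟩
  have e : S.x 0 u * S.x 5 (r * u) = g * S.x 5 (η * u) * g⁻¹ := by
    have e1 : g * S.x 5 (η * u) * g⁻¹ = S.x 10 r * (w1 S * S.x 5 (η * u) * (w1 S)⁻¹) * (S.x 10 r)⁻¹ := by
      rw [hg]
      group
    rw [e1, h, ← mul_assoc η, sign_sq hη, one_mul, x10_x0_conj]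
  have hu' : η * u ≠ 0 := mul_ne_zero (by rcases hη with rfl | rfl <;> simp) hu
  rw [← Module.End.mul_apply, ← map_mul, e, map_mul, map_mul, Module.End.mul_apply, Module.End.mul_apply, I.adj]
  exact hκ _ hu'

/-- Injectivity of the projection `Π = ∑ ψ(-u) x 0 (u) x 5 (w)` on `A`. With `w₁ = na nb na⁻¹` (`x 5 ↦ x 0 (η ·)`, `x 6 ↔ x 11`)
and `g_r = x 10 (r) w₁` we have `x 0 (u) x 5 (r u) = g_r x 5 (η u) g_r⁻¹` (by `r0_10`, `x 5` commutes with `x 10`) and `g_r⁻¹` stabilises `N`.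
`⟨Π a, a⟩ = ‖a‖² + ∑_{w≠0} ⟨x 5 (w) a, a⟩ + ∑_r ∑_{u≠0} ψ(-u) ⟨x 5 (η u) g_r⁻¹ a, g_r⁻¹ a⟩ = ‖a‖² + 0 + ∑_r (-κ_r)`, by `B_x5_A`, `B_x5_N`, and
`∑_{u≠0} ψ(-u) = -1`. So the real part of `⟨Π a, a⟩` is at least `‖a‖²`. -/
theorem Pi_inj [Fintype F] [FiniteDimensional ℂ V] (hψ : ψ ≠ 1) (hq : 2 < Fintype.card F) (hfix : NoFix S ρ) (hQ : Q1 S ρ ψ)
    (I : IH ρ) {a : V} (ha : a ∈ AA S ρ ψ) (h0 : ∑ u : F, ∑ w : F, ψ (-u) • ρ (S.x 0 u) (ρ (S.x 5 w) a) = 0) : a = 0 := by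
  have haN : a ∈ NN S ρ ψ := AA_le_NN ha
  -- the form of the sum
  have hT : ∑ u : F, ∑ w : F, ψ (-u) * I.B (ρ (S.x 0 u) (ρ (S.x 5 w) a)) a = 0 := by
    have := congrArg (fun y => I.B y a) h0
    simp only [I.zero_left] at this
    rw [I.sum_left] at this
    rw [← this]
    refine Finset.sum_congr rfl fun u _ => ?_
    rw [I.sum_left]
    refine Finset.sum_congr rfl fun w _ => ?_
    rw [I.smul_left]
  -- the term `u = 0`
  have hA0 : ∑ w : F, ψ (-(0 : F)) * I.B (ρ (S.x 0 0) (ρ (S.x 5 w) a)) a = I.B a a := by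
    rw [Finset.sum_eq_single (0 : F)]
    · simp [x_zero S 0 (by norm_num), x_zero S 5 (by norm_num)]
    · intro w _ hw
      simp [x_zero S 0 (by norm_num), B_x5_A hψ I ha hw]
    · simp
  -- the terms `u ≠ 0`
  have hre : ∀ u : F, u ≠ 0 → ∑ w : F, ψ (-u) * I.B (ρ (S.x 0 u) (ρ (S.x 5 w) a)) a =
      ∑ r : F, ψ (-u) * I.B (ρ (S.x 0 u) (ρ (S.x 5 (r * u)) a)) a := by
    intro u hu
    exact (Equiv.sum_comp (Equiv.mulRight₀ u hu) (fun w => ψ (-u) * I.B (ρ (S.x 0 u) (ρ (S.x 5 w) a)) a)).symm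
  have hline := fun r => B_line hψ hq hfix hQ I haN r
  choose κ hκ0 hκ using hline
  have hpsi : ∑ u ∈ Finset.univ.erase (0 : F), ψ (-u) = -1 := by
    have h1 := sum_psi_mul (ψ := ψ) hψ (a := (-1 : F)) (by simp)
    have h2 := Finset.add_sum_erase (Finset.univ) (fun u : F => ψ (-1 * u)) (Finset.mem_univ (0 : F))
    rw [h1] at h2
    simp only [mul_zero, AddChar.map_zero_eq_one, neg_mul, one_mul] at h2
    linear_combination h2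
  have hsum : I.B a a + ∑ r : F, (-(κ r : ℂ)) = 0 := by
    have hsplit := Finset.add_sum_erase Finset.univ
      (fun u : F => ∑ w : F, ψ (-u) * I.B (ρ (S.x 0 u) (ρ (S.x 5 w) a)) a) (Finset.mem_univ (0 : F))
    rw [hT, hA0] at hsplit
    rw [← hsplit]
    congr 1
    rw [Finset.sum_congr rfl (fun u hu => hre u (Finset.ne_of_mem_erase hu)), Finset.sum_comm]
    refine Finset.sum_congr rfl fun r _ => ?_
    rw [Finset.sum_congr rfl (fun u hu => by rw [hκ r u (Finset.ne_of_mem_erase hu)]), ← Finset.sum_mul, hpsi]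
    ring
  by_contra hne
  have hpos := I.pos a hne
  have hre2 := congrArg Complex.re hsum
  simp only [Complex.add_re, Complex.re_sum, Complex.neg_re, Complex.ofReal_re, Complex.zero_re] at hre2
  have hnn : 0 ≤ ∑ r : F, (-(κ r)) := Finset.sum_nonneg fun r _ => by
    have := hκ0 r
    linarith
  linarith

end Cfsg.Agent.Lib.MinG2
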