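import Cfsg.Agent.Lib.MinG2.Q2
import Cfsg.Agent.Lib.OddDeg.Form

/-! The case `q ≡ 1 mod 3`: `N = V^{x 6, x 11}`, `A`. -/

set_option autoImplicit false
set_option linter.unusedSectionVars false
set_option linter.unusedVariables false

namespace Cfsg.Agent.Lib.MinG2

open Module
open scoped Classical
open Cfsg.Agent.Lib.OddDeg

variable {F : Type*} [Field F] {Γ : Type*} [Group Γ] {V : Type*} [AddCommGroup V] [Module ℂ V]
variable {S : Sys F Γ} {ρ : Representation ℂ Γ V} {ψ : AddChar F ℂ}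

/-- The structure in the case `q ≡ 1 mod 3` (from `struct_q1`). -/
structure Q1 (S : Sys F Γ) (ρ : Representation ℂ Γ V) (ψ : AddChar F ℂ) : Prop where
  hd : ∀ [Fintype F], wr S ρ ψ [(11, 1)] = Fintype.card F ^ 2
  hR : wr S ρ ψ (Ul F) ≤ 1
  hl : ∀ c3 : F, c3 ≠ 0 → nf S ρ ψ (0, 0, 0, c3) = 1
  hz : ∀ c1 c2 c3 : F, (c1 ≠ 0 ∨ c2 ≠ 0) → nf S ρ ψ (0, c1, c2, c3) = 0

/-- `N = V^{x 6, x 11}`. -/
abbrev NN (S : Sys F Γ) (ρ : Representation ℂ Γ V) (ψ : AddChar F ℂ) : Submodule ℂ V := Wt S ρ ψ [(11, 0), (6, 0)]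

/-- The line `Vc (0, 0, 0, c3)`. -/
abbrev LL (S : Sys F Γ) (ρ : Representation ℂ Γ V) (ψ : AddChar F ℂ) (c3 : F) : Submodule ℂ V :=
  Wt S ρ ψ [(11, 0), (6, 0), (8, 0), (9, 0), (10, c3)]

/-- `A`: the sum of the lines with `c3 ≠ 0`. -/
noncomputable def AA (S : Sys F Γ) (ρ : Representation ℂ Γ V) (ψ : AddChar F ℂ) : Submodule ℂ V :=
  ⨆ c3 : {c : F // c ≠ 0}, LL S ρ ψ c3


namespace K1Aux

lemma mem_cons_iff {r : ℕ} {a : F} {l : List (ℕ × F)} {v : V} :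
    v ∈ Wt S ρ ψ ((r, a) :: l) ↔ (∀ u, ρ (S.x r u) v = ψ (a * u) • v) ∧ v ∈ Wt S ρ ψ l := by
  constructor
  · intro h
    exact ⟨fun u => h (r, a) List.mem_cons_self u, fun p hp u => h p (List.mem_cons_of_mem _ hp) u⟩
  · rintro ⟨h1, h2⟩ p hp u
    rcases List.mem_cons.mp hp with rfl | hp
    · exact h1 u
    · exact h2 p hp u

lemma mem_nil_iff {v : V} : v ∈ Wt S ρ ψ [] := by
  intro p hp
  simp at hp

lemma fix_of {l : List (ℕ × F)} {r : ℕ} {v : V} (hv : v ∈ Wt S ρ ψ l) (h : (r, (0 : F)) ∈ l) (u : F) :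
    ρ (S.x r u) v = v := by
  have := hv (r, 0) h u
  simpa using this

lemma rho_comm {g h : Γ} (e : g * h = h * g) (v : V) : ρ g (ρ h v) = ρ h (ρ g v) := by
  rw [← Module.End.mul_apply, ← map_mul, e, map_mul, Module.End.mul_apply]

lemma twist_act {g h z : Γ} (e : g * h = h * g * z) {v : V} (hz : ρ z⁻¹ v = v) : ρ h (ρ g v) = ρ g (ρ h v) := by
  have e' : h * g = g * h * z⁻¹ := by rw [e]; group
  rw [← Module.End.mul_apply, ← map_mul, e', map_mul, map_mul, Module.End.mul_apply, Module.End.mul_apply, hz]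

lemma act_comm {r s : ℕ} {a : F} {v : V} (hc : ∀ u w, S.x s u * S.x r w = S.x r w * S.x s u)
    (hv : ∀ w, ρ (S.x r w) v = ψ (a * w) • v) (u w : F) :
    ρ (S.x r w) (ρ (S.x s u) v) = ψ (a * w) • ρ (S.x s u) v := by
  rw [← rho_comm (ρ := ρ) (hc u w), hv, map_smul]

lemma st8 : ∀ v ∈ Wt S ρ ψ [(11, 0), (6, 0)], ∀ u, ρ (S.x 8 u) v ∈ Wt S ρ ψ [(11, 0), (6, 0)] := by
  intro v hv u
  simp only [mem_cons_iff] at hv ⊢
  obtain ⟨h11, h6, -⟩ := hv
  refine ⟨fun w => act_comm (S.comm 8 11 (by decide)) h11 u w, fun w => act_comm (fun u w => (S.comm 6 8 (by decide) w u).symm) h6 u w, mem_nil_iff⟩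

lemma st9 (c1 : F) : ∀ v ∈ Wt S ρ ψ [(8, c1), (11, 0), (6, 0)], ∀ u, ρ (S.x 9 u) v ∈ Wt S ρ ψ [(8, c1), (11, 0), (6, 0)] := by
  intro v hv u
  simp only [mem_cons_iff] at hv ⊢
  obtain ⟨h8, h11, h6, -⟩ := hv
  refine ⟨fun w => ?_, fun w => act_comm (S.comm 9 11 (by decide)) h11 u w, fun w => act_comm (fun u w => (S.comm 6 9 (by decide) w u).symm) h6 u w, mem_nil_iff⟩
  have hz : ρ (S.x 11 (-(3 * w * u)))⁻¹ v = v := by
    rw [x_inv S 11 (by norm_num), h11]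
    simp
  rw [twist_act (S.r9_8 u w) hz, h8, map_smul]

lemma st10 (c1 c2 : F) : ∀ v ∈ Wt S ρ ψ [(9, c2), (8, c1), (11, 0), (6, 0)], ∀ u,
    ρ (S.x 10 u) v ∈ Wt S ρ ψ [(9, c2), (8, c1), (11, 0), (6, 0)] := by
  intro v hv u
  simp only [mem_cons_iff] at hv ⊢
  obtain ⟨h9, h8, h11, h6, -⟩ := hv
  refine ⟨fun w => act_comm (fun u w => (S.comm 9 10 (by decide) w u).symm) h9 u w,
    fun w => act_comm (fun u w => (S.comm 8 10 (by decide) w u).symm) h8 u w,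
    fun w => act_comm (S.comm 10 11 (by decide)) h11 u w, fun w => ?_, mem_nil_iff⟩
  have hz : ρ (S.x 11 (-(w * u)))⁻¹ v = v := by
    rw [x_inv S 11 (by norm_num), h11]
    simp
  rw [twist_act (S.r10_6 u w) hz, h6, map_smul]

/-- Decomposing a vector of a stabilised weight space along `x_r`. -/
theorem exists_decomp [Fintype F] [FiniteDimensional ℂ V] (hψ : ψ ≠ 1) {r : ℕ} (hr : r < 12) {l : List (ℕ × F)}
    (hst : ∀ v ∈ Wt S ρ ψ l, ∀ u, ρ (S.x r u) v ∈ Wt S ρ ψ l) {v : V} (hv : v ∈ Wt S ρ ψ l) :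
    ∃ f : F → V, (∀ a, f a ∈ Wt S ρ ψ ((r, a) :: l)) ∧ v = ∑ a, f a := by
  classical
  set W := Wt S ρ ψ l with hW
  let p : F → F → ℂ := fun a u => ψ (a * u)
  have hp : Cfsg.Agent.Lib.WtSpace.Basic.Pairing p := by
    refine ⟨?_, ?_, ?_, rfl⟩
    · intro x a b
      simp only [p, mul_add, AddChar.map_add_eq_mul]
    · intro x
      simp [p]
    · intro a ha
      have := sum_psi_mul (ψ := ψ) hψ ha
      simpa only [p, mul_comm] using this
  let τ : F → Module.End ℂ W := fun u =>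
    LinearMap.restrict (ρ (S.x r u) : V →ₗ[ℂ] V) (fun v hv => hst v hv u)
  have hτ : ∀ a b, τ (a + b) = τ a * τ b := by
    intro a b
    ext v
    simp [τ, S.x_add r hr a b]
  have hτ0 : τ 0 = 1 := by
    ext v
    simp [τ, x_zero S r hr]
  have h1 := Cfsg.Agent.Lib.WtSpace.Basic.sum_ee hp hτ hτ0
  let E : F → Module.End ℂ W := fun a => Cfsg.Agent.Lib.WtSpace.Basic.ee p τ a
  refine ⟨fun a => ((E a) ⟨v, hv⟩ : W), fun a => ?_, ?_⟩
  · rw [mem_cons_iff]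
    refine ⟨fun u => ?_, ((E a) ⟨v, hv⟩ : W).2⟩
    have h2 := (Cfsg.Agent.Lib.WtSpace.Basic.mem_range_ee hp hτ hτ0 (x := a) (v := (E a) ⟨v, hv⟩)).mp ⟨_, rfl⟩ u
    have h3 := congrArg Subtype.val h2
    simpa [τ, p] using h3
  · have h2 := LinearMap.congr_fun h1 ⟨v, hv⟩
    have h3 := congrArg Subtype.val h2
    simp only [LinearMap.sum_apply, Module.End.one_apply, AddSubmonoidClass.coe_finsetSum] at h3
    exact h3.symm

/-- Projection on a character of `x 10`. -/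
lemma sum_proj [Fintype F] (hψ : ψ ≠ 1) {c c0 : F} {w : V} (hw : ∀ u, ρ (S.x 10 u) w = ψ (c * u) • w) :
    ∑ u : F, ψ (-(c0 * u)) • ρ (S.x 10 u) w = (if c = c0 then (Fintype.card F : ℂ) else 0) • w := by
  have h1 : ∀ u : F, ψ (-(c0 * u)) • ρ (S.x 10 u) w = ψ ((c - c0) * u) • w := by
    intro u
    rw [hw, smul_smul, ← AddChar.map_add_eq_mul]
    congr 2
    ring
  rw [Finset.sum_congr rfl (fun u _ => h1 u), ← Finset.sum_smul]
  by_cases h : c = c0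
  · subst h
    simp
  · rw [sum_psi_mul hψ (sub_ne_zero.mpr h), if_neg h]

/-- `x 10 u` moves `n = t τ⁻¹ τ² nb` to `n x 11 (⋯)`. -/
lemma x10_mul_n (s τ : Fˣ) (u : F) : ∃ u'' : F, S.x 10 u * (S.t s τ * S.nb) = S.t s τ * S.nb * S.x 11 u'' := by
  set χ : F := ((chiV 10 s τ : Fˣ) : F) with hχ
  have hχ0 : χ ≠ 0 := Units.ne_zero _
  set u' : F := χ⁻¹ * u with hu'
  have h1 := S.t_conj s τ 10 (by norm_num) u'
  rw [← hχ, hu', mul_inv_cancel_left₀ hχ0] at h1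
  obtain ⟨η, hη, h2⟩ := S.nb_conj 11 (by norm_num)
  have hη0 : η ≠ 0 := by
    rcases hη with rfl | rfl
    · exact one_ne_zero
    · exact neg_ne_zero.mpr one_ne_zero
  have h3 := h2 (η⁻¹ * u')
  rw [mul_inv_cancel_left₀ hη0] at h3
  have h4 : reflB 11 = 10 := rfl
  rw [h4] at h3
  refine ⟨η⁻¹ * u', ?_⟩
  rw [← h1, ← h3]
  group

end K1Aux

open K1Aux

/-- `N` is the sum of the lines with all `c3` (`x 8, x 9, x 10` stabilise `N` and the other weights vanish by `Q1.hz`). -/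
theorem NN_decomp [Fintype F] [FiniteDimensional ℂ V] (hψ : ψ ≠ 1) (hQ : Q1 S ρ ψ) {b : V} (hb : b ∈ NN S ρ ψ) :
    ∃ f : F → V, (∀ c, f c ∈ LL S ρ ψ c) ∧ b = ∑ c, f c := by
  classical
  obtain ⟨f1, hf1, hb1⟩ := exists_decomp hψ (r := 8) (by norm_num) st8 hb
  choose f2 hf2 hb2 using fun c1 => exists_decomp hψ (r := 9) (by norm_num) (st9 c1) (hf1 c1)
  choose f3 hf3 hb3 using fun c1 c2 => exists_decomp hψ (r := 10) (by norm_num) (st10 c1 c2) (hf2 c1 c2)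
  have hmem : ∀ c1 c2 c3, f3 c1 c2 c3 ∈ Wt S ρ ψ [(11, 0), (6, 0), (8, c1), (9, c2), (10, c3)] := by
    intro c1 c2 c3
    have h := hf3 c1 c2 c3
    rwa [Wt_congr S ρ ψ (l' := [(11, 0), (6, 0), (8, c1), (9, c2), (10, c3)]) (by
      intro p
      simp only [List.mem_cons, List.not_mem_nil, or_false]
      tauto)] at h
  have hz : ∀ c1 c2 c3, (c1 ≠ 0 ∨ c2 ≠ 0) → f3 c1 c2 c3 = 0 := by
    intro c1 c2 c3 h
    have h0 := hQ.hz c1 c2 c3 h
    have h1 : Wt S ρ ψ [(11, 0), (6, 0), (8, c1), (9, c2), (10, c3)] = ⊥ :=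
      Submodule.finrank_eq_zero.mp h0
    have h2 := hmem c1 c2 c3
    rw [h1] at h2
    exact h2
  have h2z : ∀ c1 c2, (c1 ≠ 0 ∨ c2 ≠ 0) → f2 c1 c2 = 0 := by
    intro c1 c2 h
    rw [hb3]
    exact Finset.sum_eq_zero fun c3 _ => hz c1 c2 c3 h
  have h1z : ∀ c1, c1 ≠ 0 → f1 c1 = 0 := by
    intro c1 h
    rw [hb2]
    exact Finset.sum_eq_zero fun c2 _ => h2z c1 c2 (Or.inl h)
  refine ⟨fun c => f3 0 0 c, fun c => hmem 0 0 c, ?_⟩
  calc b = ∑ c1, f1 c1 := hb1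
    _ = f1 0 := Finset.sum_eq_single 0 (fun c1 _ h => h1z c1 h) (by simp)
    _ = ∑ c2, f2 0 c2 := hb2 0
    _ = f2 0 0 := Finset.sum_eq_single 0 (fun c2 _ h => h2z 0 c2 (Or.inr h)) (by simp)
    _ = ∑ c, f3 0 0 c := hb3 0 0

/-- `A` has dimension `q - 1`: the lines are independent (different characters of `x 10`) and of dimension one. -/
theorem finrank_AA [Fintype F] [FiniteDimensional ℂ V] (hψ : ψ ≠ 1) (hQ : Q1 S ρ ψ) :
    finrank ℂ (AA S ρ ψ) = Fintype.card F - 1 := by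
  classical
  have hone : ∀ c : {c : F // c ≠ 0}, finrank ℂ (LL S ρ ψ c) = 1 := fun c => hQ.hl c c.2
  have hex : ∀ c : {c : F // c ≠ 0}, ∃ v : LL S ρ ψ c, v ≠ 0 ∧ ∀ w : LL S ρ ψ c, ∃ k : ℂ, k • v = w :=
    fun c => finrank_eq_one_iff'.mp (hone c)
  choose v hv0 hv using hex
  let b : {c : F // c ≠ 0} → V := fun c => (v c : V)
  have hb0 : ∀ c, b c ≠ 0 := fun c h => hv0 c (Subtype.ext h)
  have hbc : ∀ (c : {c : F // c ≠ 0}) u, ρ (S.x 10 u) (b c) = ψ ((c : F) * u) • b c := by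
    intro c u
    exact (v c).2 (10, (c : F)) (by simp) u
  have hli : LinearIndependent ℂ b := by
    rw [Fintype.linearIndependent_iff]
    intro g hg c0
    have h1 : ∑ u : F, ψ (-((c0 : F) * u)) • ρ (S.x 10 u) (∑ c, g c • b c) = 0 := by
      rw [hg]
      simp
    have h2 : ∑ u : F, ψ (-((c0 : F) * u)) • ρ (S.x 10 u) (∑ c, g c • b c)
        = ∑ c, g c • ∑ u : F, ψ (-((c0 : F) * u)) • ρ (S.x 10 u) (b c) := by
      simp only [map_sum, map_smul, Finset.smul_sum]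
      rw [Finset.sum_comm]
      refine Finset.sum_congr rfl fun c _ => Finset.sum_congr rfl fun u _ => ?_
      rw [smul_comm]
    rw [h2] at h1
    simp only [sum_proj hψ (hbc _)] at h1
    rw [Finset.sum_eq_single c0] at h1
    · rw [if_pos rfl, smul_smul] at h1
      rcases smul_eq_zero.mp h1 with h3 | h3
      · rcases mul_eq_zero.mp h3 with h4 | h4
        · exact h4
        · exact absurd h4 (by exact_mod_cast Fintype.card_ne_zero)
      · exact absurd h3 (hb0 c0)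
    · intro c _ hc
      rw [if_neg (fun h => hc (Subtype.ext h)), zero_smul, smul_zero]
    · simp
  have hspan : AA S ρ ψ = Submodule.span ℂ (Set.range b) := by
    apply le_antisymm
    · apply iSup_le
      intro c w hw
      obtain ⟨k, hk⟩ := hv c ⟨w, hw⟩
      have : w = k • b c := (congrArg Subtype.val hk).symm
      rw [this]
      exact Submodule.smul_mem _ _ (Submodule.subset_span ⟨c, rfl⟩)
    · apply Submodule.span_le.mpr
      rintro _ ⟨c, rfl⟩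
      exact (le_iSup (fun c : {c : F // c ≠ 0} => LL S ρ ψ c) c) (v c).2
  rw [hspan, finrank_span_eq_card hli]
  simp [Fintype.card_subtype_compl]

/-- For `a ∈ N`, `a' ∈ N` with a nontrivial character of `x 10`: `⟨x 5 (w) a, a'⟩ = 0`.
Write `w = -t⁻¹`; `⟨x 5 (w) a, a'⟩ = ⟨x 6 (t) x 5 (w) x 6 (t) a, a'⟩ = ⟨n_b(t) a, a'⟩` (as `x 6` fixes `a, a'`); `n_b(t) a` is fixed
by `x 10` since `a` is fixed by `x 11`, and `a'` has a nontrivial character of `x 10`. -/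
theorem B_x5_line [Fintype F] [FiniteDimensional ℂ V] (hψ : ψ ≠ 1) (I : IH ρ) {c : F} (hc : c ≠ 0) {a a' : V}
    (ha : a ∈ NN S ρ ψ) (ha' : a' ∈ Wt S ρ ψ [(11, 0), (6, 0), (10, c)]) {w : F} (hw : w ≠ 0) :
    I.B (ρ (S.x 5 w) a) a' = 0 := by
  set t : F := -w⁻¹ with ht
  have ht0 : t ≠ 0 := neg_ne_zero.mpr (inv_ne_zero hw)
  let τ : Fˣ := Units.mk0 t ht0
  have hτ : (τ : F) = t := rfl
  have hne := S.nb_eq τ
  have hw' : -(((τ : Fˣ) : F)⁻¹) = w := by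
    rw [hτ, ht, inv_neg, inv_inv, neg_neg]
  rw [hw', hτ] at hne
  set n := S.t τ⁻¹ (τ ^ 2) * S.nb with hn
  have h6a : ρ (S.x 6 t) a = a := fix_of ha (by simp) t
  have h6a' : ρ (S.x 6 t) a' = a' := fix_of ha' (by simp) t
  have h1 : I.B (ρ (S.x 5 w) a) a' = I.B (ρ n a) a' := by
    rw [← hne, map_mul, map_mul, Module.End.mul_apply, Module.End.mul_apply, h6a]
    have h2 := I.inv (S.x 6 t) (ρ (S.x 5 w) a) a'
    rw [h6a'] at h2
    exact h2.symm
  rw [h1]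
  have h2 : ∀ u, ρ (S.x 10 u) (ρ n a) = ρ n a := by
    intro u
    obtain ⟨u'', hu⟩ := x10_mul_n (S := S) τ⁻¹ (τ ^ 2) u
    rw [← Module.End.mul_apply, ← map_mul, hu, map_mul, Module.End.mul_apply, fix_of ha (by simp) u'']
  obtain ⟨y, hy⟩ : ∃ y, ψ y ≠ 1 := by
    by_contra hcon
    push Not at hcon
    exact hψ (by ext y; simpa using hcon y)
  have h3 := I.inv (S.x 10 (c⁻¹ * y)) (ρ n a) a'
  rw [h2, ha' (10, c) (by simp) (c⁻¹ * y), I.smul_right] at h3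
  have h4 : c * (c⁻¹ * y) = y := mul_inv_cancel_left₀ hc y
  simp only [h4] at h3
  have h5 : star (ψ y) ≠ 1 := by
    intro h
    apply hy
    have := congrArg star h
    simpa using this
  have h6 : (star (ψ y) - 1) * I.B (ρ n a) a' = 0 := by
    linear_combination h3
  rcases mul_eq_zero.mp h6 with h7 | h7
  · exact absurd (sub_eq_zero.mp h7) h5
  · exact h7

/-- `A ≤ N`. -/
theorem AA_le_NN : AA S ρ ψ ≤ NN S ρ ψ := by
  apply iSup_le
  intro c v hv p hp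
  exact hv p (by
    simp only [List.mem_cons, List.not_mem_nil, or_false] at hp ⊢
    tauto)

/-- For `a ∈ A`: `⟨x 5 (w) a, a⟩ = 0`, by `B_x5_line` on the components. -/
theorem B_x5_A [Fintype F] [FiniteDimensional ℂ V] (hψ : ψ ≠ 1) (I : IH ρ) {a : V} (ha : a ∈ AA S ρ ψ) {w : F} (hw : w ≠ 0) :
    I.B (ρ (S.x 5 w) a) a = 0 := by
  have hall : ∀ a' ∈ AA S ρ ψ, I.B (ρ (S.x 5 w) a) a' = 0 := by
    intro a' ha'
    unfold AA at ha'
    induction ha' using Submodule.iSup_induction' with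
    | mem c x hx =>
      apply B_x5_line hψ I c.2 (AA_le_NN ha) _ hw
      intro p hp
      exact hx p (by
        simp only [List.mem_cons, List.not_mem_nil, or_false] at hp ⊢
        tauto)
    | zero => simp
    | add x y _ _ hx hy => rw [I.add_right, hx, hy, add_zero]
  exact hall a ha

end Cfsg.Agent.Lib.MinG2
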