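import Cfsg.Agent.Lib.MinG2.K1F

/-! The case `q ≡ 1 mod 3`: the value of `⟨x 5 (w) b, b⟩` on `N = V^{x 6, x 11}`. -/

set_option autoImplicit false
set_option linter.unusedSectionVars false
set_option linter.unusedVariables false

namespace Cfsg.Agent.Lib.MinG2

open Module
open scoped Classical
open Cfsg.Agent.Lib.OddDeg

variable {F : Type*} [Field F] {Γ : Type*} [Group Γ] {V : Type*} [AddCommGroup V] [Module ℂ V]
variable {S : Sys F Γ} {ρ : Representation ℂ Γ V} {ψ : AddChar F ℂ}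

/-- Fixed vectors of the list `Ul`. -/
lemma KG_mem_Ul {v : V} : v ∈ Wt S ρ ψ (Ul F) ↔ ∀ r ∈ [11, 6, 8, 9, 10], ∀ u, ρ (S.x r u) v = v := by
  constructor
  · intro h r hr u
    have hr' : (r, (0 : F)) ∈ Ul F := by
      simp only [List.mem_cons, List.not_mem_nil, or_false] at hr
      rcases hr with rfl | rfl | rfl | rfl | rfl <;> simp [Ul]
    have := h _ hr' u
    simpa using this
  · intro h p hp u
    simp only [Ul, List.mem_cons, List.not_mem_nil, or_false] at hp
    rcases hp with rfl | rfl | rfl | rfl | rfl <;> simpa using h _ (by simp) u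

/-- A conjugating element moves fixed vectors. -/
lemma KG_conj_fix {g : Γ} {r r' : ℕ} (h : ∃ η : F, (η = 1 ∨ η = -1) ∧ ∀ u, g * S.x r u * g⁻¹ = S.x r' (η * u))
    {v : V} (hv : ∀ u, ρ (S.x r u) v = v) (a : F) : ρ (S.x r' a) (ρ g v) = ρ g v := by
  obtain ⟨η, hη, h⟩ := h
  have hηη : η * η = 1 := by rcases hη with rfl | rfl <;> simp
  have e : S.x r' a = g * S.x r (η * a) * g⁻¹ := by
    rw [h, ← mul_assoc, hηη, one_mul]
  have e2 : S.x r' a * g = g * S.x r (η * a) := by
    rw [e]; group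
  rw [← Module.End.mul_apply, ← map_mul, e2, map_mul, Module.End.mul_apply, hv]

/-- The torus moves fixed vectors. -/
lemma KG_t_fix {r : ℕ} (hr : r < 12) (s τ : Fˣ) {v : V} (hv : ∀ u, ρ (S.x r u) v = v) (a : F) :
    ρ (S.x r a) (ρ (S.t s τ) v) = ρ (S.t s τ) v := by
  have e : S.x r a = S.t s τ * S.x r ((chiV r s τ : F)⁻¹ * a) * (S.t s τ)⁻¹ := by
    rw [S.t_conj s τ r hr, ← mul_assoc, mul_inv_cancel₀ (Units.ne_zero _), one_mul]
  have e2 : S.x r a * S.t s τ = S.t s τ * S.x r ((chiV r s τ : F)⁻¹ * a) := by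
    rw [e]; group
  rw [← Module.End.mul_apply, ← map_mul, e2, map_mul, Module.End.mul_apply, hv]

/-- Vectors fixed by `x 11, x 6, x 10` are fixed by `U`. -/
lemma KG_W_le [Fintype F] [FiniteDimensional ℂ V] (hψ : ψ ≠ 1) (hQ : Q1 S ρ ψ) {y : V}
    (h11 : ∀ u, ρ (S.x 11 u) y = y) (h6 : ∀ u, ρ (S.x 6 u) y = y) (h10 : ∀ u, ρ (S.x 10 u) y = y) :
    y ∈ Wt S ρ ψ (Ul F) := by
  have hy : y ∈ NN S ρ ψ := by
    intro p hp u
    simp only [List.mem_cons, List.not_mem_nil, or_false] at hp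
    rcases hp with rfl | rfl
    · simpa using h11 u
    · simpa using h6 u
  obtain ⟨f, hf, rfl⟩ := NN_decomp hψ hQ hy
  have hact : ∀ a : F, ∑ c, f c = ∑ c, ψ (c * a) • f c := by
    intro a
    have h1 := h10 a
    rw [map_sum] at h1
    rw [← h1]
    refine Finset.sum_congr rfl fun c _ => ?_
    exact hf c (10, c) (by simp) a
  have hsum : (Fintype.card F : ℂ) • ∑ c, f c = (Fintype.card F : ℂ) • f 0 := by
    have h1 : (Fintype.card F : ℂ) • ∑ c, f c = ∑ a : F, ∑ c, ψ (c * a) • f c := by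
      rw [← Finset.sum_congr rfl (fun a _ => hact a), Finset.sum_const, Finset.card_univ,
        Nat.cast_smul_eq_nsmul]
    rw [h1, Finset.sum_comm]
    have h2 : ∀ c : F, ∑ a : F, ψ (c * a) • f c = if c = 0 then (Fintype.card F : ℂ) • f 0 else 0 := by
      intro c
      rw [← Finset.sum_smul]
      split_ifs with hc
      · subst hc
        simp [Finset.card_univ]
      · rw [sum_psi_mul hψ hc, zero_smul]
    rw [Finset.sum_congr rfl (fun c _ => h2 c)]
    simp
  have hq : (Fintype.card F : ℂ) ≠ 0 := Nat.cast_ne_zero.mpr Fintype.card_ne_zero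
  have h0 := smul_right_injective V hq hsum
  rw [h0]
  exact hf 0

/-- The value on `R = V^U` when `dim R ≤ 1`: let `v ∈ R`. `T` acts on `R` by scalars and transitively on `w ≠ 0`, so
`φ(w) = ⟨x 5 (w) v, v⟩ = κ ⟨v, v⟩` is constant on `w ≠ 0`, and `κ` is real as `φ(-w) = conj φ(w)`. The projection
`u = (1/q) ∑ x 6 (t) n_b v` is in `V^{x 6, x 10, x 11} = R` (by `Q1`: `N ∩ V^{x 10} = R`), hence `u = κ v` (pair with `v`, using
`⟨n_b(t) v, v⟩ = ⟨x 5 (-t⁻¹) v, v⟩`). `‖u‖² = ⟨u, n_b v⟩ = (1/q)(1 + (q-1) κ) ‖v‖²` gives `q κ² = 1 + (q-1) κ`, `(q κ + 1)(κ - 1) = 0`.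
`κ = 1` means `v` is fixed by `x 5` (equality in Cauchy–Schwarz, i.e. `‖x 5 (w) v - v‖² = 0`). `x 7` acts on the line `R` by a
character, which is trivial as `T` fixes the line and `t s 1` scales the argument by `s` (`q > 2`); `x 4` likewise since `na`
stabilises `R`. So `v` is fixed by `x 4, x 5, x 6, x 7`: `v = 0` by `NoFix`. Hence `κ = -1/q ≤ 0`. -/
theorem B_x5_R [Fintype F] [FiniteDimensional ℂ V] (hψ : ψ ≠ 1) (hq : 2 < Fintype.card F) (hfix : NoFix S ρ) (hQ : Q1 S ρ ψ)
    (I : IH ρ) {v : V} (hv : v ∈ Wt S ρ ψ (Ul F)) : ∃ κ : ℝ, κ ≤ 0 ∧ ∀ w : F, w ≠ 0 → I.B (ρ (S.x 5 w) v) v = (κ : ℂ) := by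
  by_cases hv0 : v = 0
  · refine ⟨0, le_rfl, fun w _ => ?_⟩
    rw [hv0, map_zero, I.zero_left]
    simp
  have hvfix := (KG_mem_Ul).mp hv
  have h11 : ∀ u, ρ (S.x 11 u) v = v := hvfix 11 (by simp)
  have h6 : ∀ u, ρ (S.x 6 u) v = v := hvfix 6 (by simp)
  have h8 : ∀ u, ρ (S.x 8 u) v = v := hvfix 8 (by simp)
  have h9 : ∀ u, ρ (S.x 9 u) v = v := hvfix 9 (by simp)
  have h10 : ∀ u, ρ (S.x 10 u) v = v := hvfix 10 (by simp)
  -- the line
  have hline : ∀ y ∈ Wt S ρ ψ (Ul F), ∃ c : ℂ, y = c • v := by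
    have h1 : finrank ℂ ↥(Wt S ρ ψ (Ul F)) ≤ 1 := hQ.hR
    obtain ⟨e, he⟩ := finrank_le_one_iff.mp h1
    obtain ⟨c, hc⟩ := he ⟨v, hv⟩
    have hc0 : c ≠ 0 := by
      rintro rfl
      apply hv0
      have := congrArg Subtype.val hc
      simpa using this.symm
    intro y hy
    obtain ⟨d, hd⟩ := he ⟨y, hy⟩
    refine ⟨d * c⁻¹, ?_⟩
    have h2 := congrArg Subtype.val hc
    have h3 := congrArg Subtype.val hd
    simp only [Submodule.coe_smul] at h2 h3
    rw [← h3, ← h2, smul_smul, mul_assoc, inv_mul_cancel₀ hc0, mul_one]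
  -- the torus on the line
  have htv : ∀ s τ : Fˣ, ∃ c : ℂ, ρ (S.t s τ) v = c • v := by
    intro s τ
    apply hline
    rw [KG_mem_Ul]
    intro r hr a
    have hr12 : r < 12 := by
      simp only [List.mem_cons, List.not_mem_nil, or_false] at hr
      omega
    exact KG_t_fix hr12 s τ (hvfix r hr) a
  have htinv : ∀ s τ : Fˣ, (S.t s τ)⁻¹ = S.t s⁻¹ τ⁻¹ := by
    intro s τ
    rw [inv_eq_iff_mul_eq_one, S.t_mul, mul_inv_cancel, mul_inv_cancel, S.t_one]
  -- the function
  let φ : F → ℂ := fun w => I.B (ρ (S.x 5 w) v) v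
  have hφc : ∀ (τ : Fˣ) (w : F), φ ((τ⁻¹ : Fˣ) * w) = φ w := by
    intro τ w
    have e : S.x 5 ((τ⁻¹ : Fˣ) * w) = S.t 1 τ * S.x 5 w * (S.t 1 τ)⁻¹ := by
      rw [S.t_conj 1 τ 5 (by norm_num)]
      rfl
    change I.B (ρ (S.x 5 _) v) v = I.B (ρ (S.x 5 w) v) v
    rw [e, map_mul, map_mul, Module.End.mul_apply, Module.End.mul_apply, I.adj]
    obtain ⟨c, hc⟩ := htv 1 τ⁻¹
    have hc' : ρ (S.t 1 τ)⁻¹ v = c • v := by rw [htinv, inv_one]; exact hc
    have hcc := I.eig_star hv0 hc'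
    rw [hc', map_smul, I.smul_left, I.smul_right]
    rw [← mul_assoc, hcc, one_mul]
  have hφ : ∀ w : F, w ≠ 0 → φ w = φ 1 := by
    intro w hw
    have h1 := hφc (Units.mk0 w hw) 1
    have : (((Units.mk0 w hw)⁻¹ : Fˣ) : F) * 1 = w⁻¹ := by simp
    rw [this] at h1
    have h2 := hφc (Units.mk0 w hw)⁻¹ 1
    simp only [inv_inv, Units.val_mk0, mul_one] at h2
    exact h2
  have hadj : ∀ w : F, φ w = star (φ (-w)) := by
    intro w
    change I.B (ρ (S.x 5 w) v) v = star (I.B (ρ (S.x 5 (-w)) v) v)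
    rw [I.adj, Cfsg.Agent.Lib.MinG2.x_inv S 5 (by norm_num) w, ← I.symm]
  have h1ne : (1 : F) ≠ 0 := one_ne_zero
  have hreal : star (φ 1) = φ 1 := by
    have h1 := hadj 1
    rw [hφ (-1) (neg_ne_zero.mpr h1ne)] at h1
    exact h1.symm
  -- real numbers
  let k : ℝ := (φ 1).re
  have hk : φ 1 = (k : ℂ) := by
    apply Complex.ext
    · simp [k]
    · have := congrArg Complex.im hreal
      simp only [Complex.star_def, Complex.conj_im] at this
      simp only [Complex.ofReal_im]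
      linarith
  let n : ℝ := (I.B v v).re
  have hn : I.B v v = (n : ℂ) := I.self_re v
  have hnpos : 0 < n := I.pos v hv0
  refine ⟨k, ?_, fun w hw => ?_⟩
  swap
  · change φ w = _
    rw [hφ w hw, hk]
  -- the Weyl element
  have hnb : S.nb = S.x 6 1 * S.x 5 (-1) * S.x 6 1 := by
    have := S.nb_eq 1
    simp only [Units.val_one, inv_one, one_pow, S.t_one, one_mul] at this
    exact this.symm
  let w₀ : V := ρ S.nb v
  have hw₀v : I.B w₀ v = (k : ℂ) := by
    change I.B (ρ S.nb v) v = _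
    rw [hnb, map_mul, map_mul, Module.End.mul_apply, Module.End.mul_apply, h6, I.adj]
    have : ρ (S.x 6 1)⁻¹ v = v := by rw [Cfsg.Agent.Lib.MinG2.x_inv S 6 (by norm_num)]; exact h6 _
    rw [this, ← hk]
    exact hφ (-1) (neg_ne_zero.mpr h1ne)
  have hw11 : ∀ a, ρ (S.x 11 a) w₀ = w₀ := by
    have := KG_conj_fix (ρ := ρ) (S.nb_conj 10 (by norm_num)) h10
    exact this
  have hw10 : ∀ a, ρ (S.x 10 a) w₀ = w₀ := by
    have := KG_conj_fix (ρ := ρ) (S.nb_conj 11 (by norm_num)) h11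
    exact this
  -- the projection
  have hqC : (Fintype.card F : ℂ) ≠ 0 := Nat.cast_ne_zero.mpr Fintype.card_ne_zero
  let q : ℂ := (Fintype.card F : ℂ)
  let u : V := q⁻¹ • ∑ t : F, ρ (S.x 6 t) w₀
  have hu6 : ∀ a, ρ (S.x 6 a) u = u := by
    intro a
    change ρ (S.x 6 a) (q⁻¹ • ∑ t : F, ρ (S.x 6 t) w₀) = q⁻¹ • ∑ t : F, ρ (S.x 6 t) w₀
    rw [map_smul, map_sum]
    congr 1
    have : ∀ t : F, ρ (S.x 6 a) (ρ (S.x 6 t) w₀) = ρ (S.x 6 (a + t)) w₀ := by
      intro t
      rw [S.x_add 6 (by norm_num), map_mul, Module.End.mul_apply]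
    rw [Finset.sum_congr rfl (fun t _ => this t)]
    exact Fintype.sum_equiv (Equiv.addLeft a) _ _ (fun t => rfl)
  have hu11 : ∀ a, ρ (S.x 11 a) u = u := by
    intro a
    change ρ (S.x 11 a) (q⁻¹ • ∑ t : F, ρ (S.x 6 t) w₀) = q⁻¹ • ∑ t : F, ρ (S.x 6 t) w₀
    rw [map_smul, map_sum]
    congr 1
    refine Finset.sum_congr rfl fun t _ => ?_
    rw [← Module.End.mul_apply, ← map_mul, ← S.comm 6 11 (by simp [commPairs]) t a, map_mul,
      Module.End.mul_apply, hw11]
  have hu10 : ∀ a, ρ (S.x 10 a) u = u := by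
    intro a
    change ρ (S.x 10 a) (q⁻¹ • ∑ t : F, ρ (S.x 6 t) w₀) = q⁻¹ • ∑ t : F, ρ (S.x 6 t) w₀
    rw [map_smul, map_sum]
    congr 1
    refine Finset.sum_congr rfl fun t _ => ?_
    rw [← Module.End.mul_apply, ← map_mul, S.r10_6, map_mul, map_mul, Module.End.mul_apply,
      Module.End.mul_apply, hw11, hw10]
  have huR : u ∈ Wt S ρ ψ (Ul F) := KG_W_le hψ hQ hu11 hu6 hu10
  obtain ⟨c, hc⟩ := hline u huR
  -- first evaluation
  have hBuv : I.B u v = (k : ℂ) := by
    change I.B (q⁻¹ • ∑ t : F, ρ (S.x 6 t) w₀) v = _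
    rw [I.smul_left, I.sum_left]
    have : ∀ t : F, I.B (ρ (S.x 6 t) w₀) v = (k : ℂ) := by
      intro t
      rw [I.adj, Cfsg.Agent.Lib.MinG2.x_inv S 6 (by norm_num), h6, hw₀v]
    rw [Finset.sum_congr rfl (fun t _ => this t), Finset.sum_const, Finset.card_univ, nsmul_eq_mul]
    change q⁻¹ * (q * _) = _
    rw [← mul_assoc, inv_mul_cancel₀ hqC, one_mul]
  have hcn : c * (n : ℂ) = (k : ℂ) := by
    rw [← hBuv, hc, I.smul_left, hn]
  -- second evaluation
  have hBuw : I.B u w₀ = q⁻¹ * ((n : ℂ) + ((Fintype.card F : ℂ) - 1) * (k : ℂ)) := by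
    change I.B (q⁻¹ • ∑ t : F, ρ (S.x 6 t) w₀) w₀ = _
    rw [I.smul_left, I.sum_left]
    congr 1
    obtain ⟨η, hη, hconj⟩ := S.nb_conj 5 (by norm_num)
    have hηη : η * η = 1 := by rcases hη with rfl | rfl <;> simp
    have hη0 : η ≠ 0 := by rcases hη with rfl | rfl <;> simp
    have hval : ∀ t : F, I.B (ρ (S.x 6 t) w₀) w₀ = φ (η * t) := by
      intro t
      have e : S.x 6 t = S.nb * S.x 5 (η * t) * S.nb⁻¹ := by
        have := hconj (η * t)
        rw [← mul_assoc, hηη, one_mul] at this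
        exact this.symm
      change I.B (ρ (S.x 6 t) (ρ S.nb v)) (ρ S.nb v) = I.B (ρ (S.x 5 (η * t)) v) v
      rw [← Module.End.mul_apply, ← map_mul,
        show S.x 6 t * S.nb = S.nb * S.x 5 (η * t) by rw [e]; group, map_mul, Module.End.mul_apply,
        I.inv]
    rw [Finset.sum_congr rfl (fun t _ => hval t)]
    rw [← Finset.add_sum_erase _ _ (Finset.mem_univ (0 : F))]
    have h0 : φ (η * 0) = (n : ℂ) := by
      rw [mul_zero]
      change I.B (ρ (S.x 5 0) v) v = _
      rw [Cfsg.Agent.Lib.MinG2.x_zero S 5 (by norm_num), map_one]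
      exact hn
    have hne : ∀ t ∈ Finset.univ.erase (0 : F), φ (η * t) = (k : ℂ) := by
      intro t ht
      rw [hφ _ (mul_ne_zero hη0 (Finset.ne_of_mem_erase ht)), hk]
    rw [h0, Finset.sum_congr rfl hne, Finset.sum_const, Finset.card_erase_of_mem (Finset.mem_univ _),
      Finset.card_univ, nsmul_eq_mul]
    congr 2
    rw [Nat.cast_sub Fintype.card_pos]
    simp
  have hBuu : I.B u u = I.B u w₀ := by
    conv_lhs => rw [show u = q⁻¹ • ∑ t : F, ρ (S.x 6 t) w₀ from rfl]
    rw [I.smul_right, I.sum_right]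
    have : ∀ t : F, I.B (q⁻¹ • ∑ t : F, ρ (S.x 6 t) w₀) (ρ (S.x 6 t) w₀) = I.B u w₀ := by
      intro t
      change I.B u (ρ (S.x 6 t) w₀) = I.B u w₀
      rw [I.adj', Cfsg.Agent.Lib.MinG2.x_inv S 6 (by norm_num), hu6]
    rw [Finset.sum_congr rfl (fun t _ => this t), Finset.sum_const, Finset.card_univ, nsmul_eq_mul]
    have hstar : star q⁻¹ = q⁻¹ := by
      simp [q]
    rw [hstar]
    change q⁻¹ * (q * _) = _
    rw [← mul_assoc, inv_mul_cancel₀ hqC, one_mul]
  -- the equation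
  have hq_real : (q : ℂ) = ((Fintype.card F : ℝ) : ℂ) := by simp [q]
  have hcreal : c = ((k / n : ℝ) : ℂ) := by
    have hn0 : (n : ℂ) ≠ 0 := by exact_mod_cast hnpos.ne'
    push_cast
    field_simp
    exact hcn
  have hBuu2 : I.B u u = ((k / n * (k / n) * n : ℝ) : ℂ) := by
    rw [hc, I.smul_left, I.smul_right, hn, hcreal]
    simp only [Complex.star_def, Complex.conj_ofReal]
    push_cast
    ring
  let Q : ℝ := (Fintype.card F : ℝ)
  have hQpos : 0 < Q := by
    have : 0 < Fintype.card F := Fintype.card_pos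
    change (0 : ℝ) < (Fintype.card F : ℝ)
    exact_mod_cast this
  have hmain : Q * k ^ 2 = n ^ 2 + (Q - 1) * k * n := by
    have h1 := hBuu2.symm.trans (hBuu.trans hBuw)
    have h2 : ((k / n * (k / n) * n : ℝ) : ℂ) = ((Q⁻¹ * (n + (Q - 1) * k) : ℝ) : ℂ) := by
      rw [h1]
      push_cast
      simp [q, Q]
    have h3 := Complex.ofReal_injective h2
    field_simp at h3
    nlinarith [h3]
  have hfac : (Q * k + n) * (k - n) = 0 := by
    nlinarith [hmain]
  -- the alternative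
  rcases mul_eq_zero.mp hfac with h0 | h0
  · have : Q * k = -n := by linarith
    by_contra hkpos
    push Not at hkpos
    have : 0 < Q * k := mul_pos hQpos hkpos
    linarith
  · exfalso
    have hkn : k = n := by linarith
    -- `x 5` fixes `v`
    have hx5 : ∀ w : F, ρ (S.x 5 w) v = v := by
      intro w
      by_cases hw : w = 0
      · rw [hw, Cfsg.Agent.Lib.MinG2.x_zero S 5 (by norm_num), map_one]
        rfl
      · apply sub_eq_zero.mp
        apply I.eq_zero_of_self
        rw [I.sub_left, I.sub_right, I.sub_right, I.inv]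
        have e1 : I.B (ρ (S.x 5 w) v) v = (k : ℂ) := by
          change φ w = _
          rw [hφ w hw, hk]
        have e2 : I.B v (ρ (S.x 5 w) v) = (k : ℂ) := by
          rw [I.symm (ρ (S.x 5 w) v) v, e1]
          simp
        rw [e1, e2, hn, hkn]
        ring
    -- `x 7` acts on the line
    have hx7R : ∀ t : F, ρ (S.x 7 t) v ∈ Wt S ρ ψ (Ul F) := by
      intro t
      rw [KG_mem_Ul]
      intro r hr a
      simp only [List.mem_cons, List.not_mem_nil, or_false] at hr
      rcases hr with rfl | rfl | rfl | rfl | rfl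
      · rw [← Module.End.mul_apply, ← map_mul, ← S.comm 7 11 (by simp [commPairs]) t a, map_mul,
          Module.End.mul_apply, h11]
      · rw [← Module.End.mul_apply, ← map_mul, S.r6_7]
        simp only [map_mul, Module.End.mul_apply, h11, h10, h9, h8, h6]
      · rw [← Module.End.mul_apply, ← map_mul, S.r8_7]
        simp only [map_mul, Module.End.mul_apply, h11, h10, h9, h8, h6]
      · rw [← Module.End.mul_apply, ← map_mul, S.r9_7]
        simp only [map_mul, Module.End.mul_apply, h11, h10, h9, h8, h6]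
      · rw [← Module.End.mul_apply, ← map_mul, ← S.comm 7 10 (by simp [commPairs]) t a, map_mul,
          Module.End.mul_apply, h10]
    obtain ⟨l, hl⟩ := hline _ (hx7R 1)
    -- scaling
    have hx7 : ∀ w : F, w ≠ 0 → ρ (S.x 7 w) v = l • v := by
      intro w hw
      let s : Fˣ := Units.mk0 w hw
      have e : S.x 7 w = S.t s 1 * S.x 7 1 * (S.t s 1)⁻¹ := by
        rw [S.t_conj s 1 7 (by norm_num)]
        simp [chiV, s]
      obtain ⟨c', hc'⟩ := htv s⁻¹ 1⁻¹
      have hc'' : ρ (S.t s 1)⁻¹ v = c' • v := by rw [htinv]; exact hc'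
      rw [e, map_mul, map_mul, Module.End.mul_apply, Module.End.mul_apply, hc'', map_smul, hl, smul_comm,
        map_smul, ← hc'', ← Module.End.mul_apply, ← map_mul, mul_inv_cancel, map_one]
      rfl
    have hl1 : l = 1 := by
      -- a point other than `0, -1`
      obtain ⟨a, ha0, ha1⟩ : ∃ a : F, a ≠ 0 ∧ a + 1 ≠ 0 := by
        by_contra hcon
        push Not at hcon
        have : ∀ a : F, a = 0 ∨ a = -1 := by
          intro a
          by_cases h : a = 0
          · exact Or.inl h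
          · right
            have := hcon a h
            exact eq_neg_of_add_eq_zero_left this
        have hsub : (Finset.univ : Finset F) ⊆ {0, -1} := by
          intro a _
          rcases this a with rfl | rfl <;> simp
        have := Finset.card_le_card hsub
        have h2 : ({0, -1} : Finset F).card ≤ 2 := Finset.card_le_two
        rw [Finset.card_univ] at this
        omega
      have e := S.x_add 7 (by norm_num) a 1
      have h1 : ρ (S.x 7 (a + 1)) v = l • l • v := by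
        rw [e, map_mul, Module.End.mul_apply, hl, map_smul, hx7 a ha0]
      rw [hx7 _ ha1, smul_smul] at h1
      have h2 : (l * l - l) • v = 0 := by
        rw [sub_smul, ← h1, sub_self]
      have h3 : l * l - l = 0 := by
        rcases smul_eq_zero.mp h2 with h | h
        · exact h
        · exact absurd h hv0
      have hl0 : l ≠ 0 := by
        rintro rfl
        rw [zero_smul] at hl
        have := congrArg (ρ (S.x 7 1)⁻¹) hl
        rw [← Module.End.mul_apply, ← map_mul, inv_mul_cancel, map_one, map_zero] at this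
        exact hv0 this
      have : l * (l - 1) = 0 := by linear_combination h3
      rcases mul_eq_zero.mp this with h | h
      · exact absurd h hl0
      · linear_combination h
    have h7 : ∀ u, ρ (S.x 7 u) v = v := by
      intro w
      by_cases hw : w = 0
      · rw [hw, Cfsg.Agent.Lib.MinG2.x_zero S 7 (by norm_num), map_one]
        rfl
      · rw [hx7 w hw, hl1, one_smul]
    -- `x 4`
    have hna : ρ S.na v ∈ Wt S ρ ψ (Ul F) := by
      rw [KG_mem_Ul]
      intro r hr a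
      simp only [List.mem_cons, List.not_mem_nil, or_false] at hr
      rcases hr with rfl | rfl | rfl | rfl | rfl
      · exact KG_conj_fix (S.na_conj 11 (by norm_num)) h11 a
      · exact KG_conj_fix (S.na_conj 10 (by norm_num)) h10 a
      · exact KG_conj_fix (S.na_conj 9 (by norm_num)) h9 a
      · exact KG_conj_fix (S.na_conj 8 (by norm_num)) h8 a
      · exact KG_conj_fix (S.na_conj 6 (by norm_num)) h6 a
    obtain ⟨μ, hμ⟩ := hline _ hna
    have hμ0 : μ ≠ 0 := by
      rintro rfl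
      rw [zero_smul] at hμ
      have := congrArg (ρ S.na⁻¹) hμ
      rw [← Module.End.mul_apply, ← map_mul, inv_mul_cancel, map_one, map_zero] at this
      exact hv0 this
    have h4 : ∀ u, ρ (S.x 4 u) v = v := by
      intro a
      have h1 : ρ (S.x 4 a) (ρ S.na v) = ρ S.na v := KG_conj_fix (S.na_conj 7 (by norm_num)) h7 a
      rw [hμ, map_smul] at h1
      exact smul_right_injective V hμ0 h1
    apply hv0
    apply hfix
    intro r hr u
    simp only [List.mem_cons, List.not_mem_nil, or_false] at hr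
    rcases hr with rfl | rfl | rfl | rfl
    · exact h4 u
    · exact hx5 u
    · exact h6 u
    · exact h7 u

/-- For `b ∈ N`: `⟨x 5 (w) b, b⟩` is a real number `κ_b ≤ 0`, independent of `w ≠ 0`. Decompose `b = r + a` with `NN_decomp`,
use `B_x5_line` and its adjoint form (`⟨x 5 (w) a, r⟩ = conj ⟨x 5 (-w) r, a⟩`), `B_x5_R`. -/
theorem B_x5_N [Fintype F] [FiniteDimensional ℂ V] (hψ : ψ ≠ 1) (hq : 2 < Fintype.card F) (hfix : NoFix S ρ) (hQ : Q1 S ρ ψ)
    (I : IH ρ) {b : V} (hb : b ∈ NN S ρ ψ) : ∃ κ : ℝ, κ ≤ 0 ∧ ∀ w : F, w ≠ 0 → I.B (ρ (S.x 5 w) b) b = (κ : ℂ) := by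
  obtain ⟨f, hf, rfl⟩ := NN_decomp hψ hQ hb
  obtain ⟨κ, hκ, hval⟩ := B_x5_R hψ hq hfix hQ I (v := f 0) (hf 0)
  refine ⟨κ, hκ, fun w hw => ?_⟩
  -- every other component is orthogonal
  have hNN : ∀ c, f c ∈ NN S ρ ψ := by
    intro c p hp u
    simp only [List.mem_cons, List.not_mem_nil, or_false] at hp
    rcases hp with rfl | rfl
    · exact hf c (11, 0) (by simp) u
    · exact hf c (6, 0) (by simp) u
  have hle : ∀ c, c ≠ 0 → f c ∈ Wt S ρ ψ [(11, 0), (6, 0), (10, c)] := by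
    intro c hc p hp u
    simp only [List.mem_cons, List.not_mem_nil, or_false] at hp
    rcases hp with rfl | rfl | rfl
    · exact hf c (11, 0) (by simp) u
    · exact hf c (6, 0) (by simp) u
    · exact hf c (10, c) (by simp) u
  have hzero : ∀ c c' : F, c' ≠ 0 → I.B (ρ (S.x 5 w) (f c)) (f c') = 0 :=
    fun c c' hc' => B_x5_line hψ I hc' (hNN c) (hle c' hc') hw
  -- the adjoint form
  have hzero' : ∀ c c' : F, c ≠ 0 → I.B (ρ (S.x 5 w) (f c)) (f c') = 0 := by
    intro c c' hc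
    rw [I.adj, Cfsg.Agent.Lib.MinG2.x_inv S 5 (by norm_num), I.symm (ρ (S.x 5 (-w)) (f c')) (f c)]
    rw [B_x5_line hψ I hc (hNN c') (hle c hc) (neg_ne_zero.mpr hw)]
    simp
  rw [map_sum, I.sum_left]
  have h1 : ∀ c : F, I.B (ρ (S.x 5 w) (f c)) (∑ c', f c') = if c = 0 then (κ : ℂ) else 0 := by
    intro c
    rw [I.sum_right]
    split_ifs with hc
    · subst hc
      rw [Finset.sum_eq_single (0 : F)]
      · exact hval w hw
      · intro c' _ hc'
        exact hzero 0 c' hc'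
      · simp
    · exact Finset.sum_eq_zero fun c' _ => hzero' c c' hc
  rw [Finset.sum_congr rfl (fun c _ => h1 c)]
  simp

end Cfsg.Agent.Lib.MinG2
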