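import Cfsg.Agent.Lib.MinG2.K1

/-! The case `q ≡ 1 mod 3`: the element `s = t ω 1`. -/

set_option autoImplicit false
set_option linter.unusedSectionVars false
set_option linter.unusedVariables false
set_option linter.style.haveILetI false

namespace Cfsg.Agent.Lib.MinG2

open Module
open scoped Classical
open Cfsg.Agent.Lib.OddDeg

variable {F : Type*} [Field F] {Γ : Type*} [Group Γ] {V : Type*} [AddCommGroup V] [Module ℂ V]
variable {S : Sys F Γ} {ρ : Representation ℂ Γ V} {ψ : AddChar F ℂ}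

namespace K2Aux

/-- Moving `x r` over a torus element. -/
lemma x_mul_t (S : Sys F Γ) {r : ℕ} (hr : r < 12) (s τ : Fˣ) (u : F) :
    S.x r u * S.t s τ = S.t s τ * S.x r (((chiV r s τ : Fˣ) : F)⁻¹ * u) := by
  have h := S.t_conj s τ r hr (((chiV r s τ : Fˣ) : F)⁻¹ * u)
  have h1 : ((chiV r s τ : Fˣ) : F) * (((chiV r s τ : Fˣ) : F)⁻¹ * u) = u := by
    rw [← mul_assoc, mul_inv_cancel₀ (Units.ne_zero _), one_mul]
  rw [h1] at h
  rw [← h]
  group

/-- A torus element moves weight spaces. -/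
lemma t_mem_Wt {s τ : Fˣ} {l l' : List (ℕ × F)}
    (h : ∀ p ∈ l', p.1 < 12 ∧ (p.1, p.2 * ((chiV p.1 s τ : Fˣ) : F)) ∈ l) {v : V} (hv : v ∈ Wt S ρ ψ l) :
    ρ (S.t s τ) v ∈ Wt S ρ ψ l' := by
  intro p hp u
  obtain ⟨hr, hm⟩ := h p hp
  rw [← Module.End.mul_apply, ← map_mul, x_mul_t S hr, map_mul, Module.End.mul_apply, hv _ hm, map_smul]
  congr 2
  show p.2 * ((chiV p.1 s τ : Fˣ) : F) * (((chiV p.1 s τ : Fˣ) : F)⁻¹ * u) = p.2 * u
  have := Units.ne_zero (chiV p.1 s τ)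
  field_simp

lemma t_inv (S : Sys F Γ) (s τ : Fˣ) : (S.t s τ)⁻¹ = S.t s⁻¹ τ⁻¹ := by
  rw [inv_eq_iff_mul_eq_one, S.t_mul, mul_inv_cancel, mul_inv_cancel, S.t_one]

lemma rho_inj (ρ : Representation ℂ Γ V) (g : Γ) : Function.Injective (ρ g : V →ₗ[ℂ] V) := by
  intro a b hab
  have h3 := congrArg (ρ g⁻¹ : V →ₗ[ℂ] V) hab
  rw [← Module.End.mul_apply, ← Module.End.mul_apply, ← map_mul] at h3
  simpa using h3

end K2Aux

open K2Aux

/-- `s = t ω 1`, `ω³ = 1`, centralises the long root groups `x r`, `r = 0, 1, 5, 6, 10, 11`; it commutes with the torus; hence it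
preserves each line `LL c3` (`c3 ≠ 0`), acting by a scalar, and the torus moves the lines transitively: one scalar `ζ` on `A`. -/
theorem exists_zeta [Fintype F] [FiniteDimensional ℂ V] (hψ : ψ ≠ 1) (hQ : Q1 S ρ ψ) (ω : Fˣ) (hω : ω ^ 3 = 1) :
    ∃ ζ : ℂ, ∀ a ∈ AA S ρ ψ, ρ (S.t ω 1) a = ζ • a := by
  have hs : ∀ c : F, ∀ v ∈ LL S ρ ψ c, ρ (S.t ω 1) v ∈ LL S ρ ψ c := by
    intro c v hv
    refine t_mem_Wt (l := [(11, 0), (6, 0), (8, 0), (9, 0), (10, c)]) ?_ hv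
    intro p hp
    simp only [List.mem_cons, List.not_mem_nil, or_false] at hp
    rcases hp with rfl | rfl | rfl | rfl | rfl <;> simp [chiV, hω]
  have hg : ∀ (c : F) (τ : Fˣ), ∀ v ∈ LL S ρ ψ c, ρ (S.t 1 τ) v ∈ LL S ρ ψ (c * ((τ⁻¹ : Fˣ) : F)) := by
    intro c τ v hv
    refine t_mem_Wt (l := [(11, 0), (6, 0), (8, 0), (9, 0), (10, c)]) ?_ hv
    intro p hp
    simp only [List.mem_cons, List.not_mem_nil, or_false] at hp
    rcases hp with rfl | rfl | rfl | rfl | rfl <;> simp [chiV]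
  have h1 : finrank ℂ (LL S ρ ψ 1) = 1 := by
    have := hQ.hl 1 one_ne_zero
    exact this
  obtain ⟨⟨v₁, hv₁⟩, hv₁0, hspan⟩ := finrank_eq_one_iff'.1 h1
  have hv₁0' : v₁ ≠ 0 := fun h => hv₁0 (Subtype.ext h)
  obtain ⟨ζ, hζ⟩ := hspan ⟨_, hs 1 v₁ hv₁⟩
  have hζ' : ρ (S.t ω 1) v₁ = ζ • v₁ := (congrArg Subtype.val hζ).symm
  have hline : ∀ y ∈ LL S ρ ψ 1, ρ (S.t ω 1) y = ζ • y := by
    intro y hy
    obtain ⟨κ, hκ⟩ := hspan ⟨y, hy⟩
    have hκ' : y = κ • v₁ := (congrArg Subtype.val hκ).symm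
    rw [hκ', map_smul, hζ', smul_comm]
  refine ⟨ζ, fun a ha => ?_⟩
  have hle : AA S ρ ψ ≤ LinearMap.ker ((ρ (S.t ω 1) : V →ₗ[ℂ] V) - ζ • LinearMap.id) := by
    refine iSup_le fun c => ?_
    intro v hv
    have hc : (c : F) ≠ 0 := c.2
    set cu : Fˣ := Units.mk0 (c : F) hc with hcu
    have hy : ρ (S.t 1 cu) v ∈ LL S ρ ψ 1 := by
      have := hg c cu v hv
      have e : (c : F) * ((cu⁻¹ : Fˣ) : F) = 1 := by
        simp [hcu, hc]
      rwa [e] at this
    have h2 := hline _ hy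
    have hcomm : S.t ω 1 * S.t 1 cu = S.t 1 cu * S.t ω 1 := by
      rw [S.t_mul, S.t_mul]
      simp
    rw [← Module.End.mul_apply, ← map_mul, hcomm, map_mul, Module.End.mul_apply, ← map_smul] at h2
    have h3 := rho_inj ρ _ h2
    simp only [LinearMap.mem_ker, LinearMap.sub_apply, LinearMap.smul_apply, LinearMap.id_coe, id_eq]
    rw [h3, sub_self]
  have := hle ha
  simp only [LinearMap.mem_ker, LinearMap.sub_apply, LinearMap.smul_apply, LinearMap.id_coe, id_eq] at this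
  exact sub_eq_zero.1 this

namespace K2Aux

lemma x6_move {l κ t : F} {v : V} (hv : v ∈ Wt S ρ ψ [(11, l), (10, κ)]) :
    ρ (S.x 6 t) v ∈ Wt S ρ ψ [(11, l), (10, κ - l * t)] := by
  have h11 : ∀ u, ρ (S.x 11 u) v = ψ (l * u) • v := fun u => hv (11, l) (by simp) u
  have h10 : ∀ u, ρ (S.x 10 u) v = ψ (κ * u) • v := fun u => hv (10, κ) (by simp) u
  intro p hp u
  simp only [List.mem_cons, List.not_mem_nil, or_false] at hp
  rcases hp with rfl | rfl
  · have hc := S.comm 6 11 (by simp [commPairs]) t u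
    show ρ (S.x 11 u) (ρ (S.x 6 t) v) = ψ (l * u) • ρ (S.x 6 t) v
    rw [← Module.End.mul_apply, ← map_mul, ← hc, map_mul, Module.End.mul_apply, h11, map_smul]
  · show ρ (S.x 10 u) (ρ (S.x 6 t) v) = ψ ((κ - l * t) * u) • ρ (S.x 6 t) v
    rw [← Module.End.mul_apply, ← map_mul, S.r10_6 u t]
    simp only [map_mul, Module.End.mul_apply, h11, h10, map_smul, smul_smul]
    congr 1
    rw [← AddChar.map_add_eq_mul]
    congr 1
    ring

lemma x8_move {l κ t : F} {v : V} (hv : v ∈ Wt S ρ ψ [(9, κ), (11, l), (10, 0)]) :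
    ρ (S.x 8 t) v ∈ Wt S ρ ψ [(9, κ - 3 * l * t), (11, l), (10, 0)] := by
  have h9 : ∀ u, ρ (S.x 9 u) v = ψ (κ * u) • v := fun u => hv (9, κ) (by simp) u
  have h11 : ∀ u, ρ (S.x 11 u) v = ψ (l * u) • v := fun u => hv (11, l) (by simp) u
  have h10 : ∀ u, ρ (S.x 10 u) v = ψ ((0 : F) * u) • v := fun u => hv (10, 0) (by simp) u
  intro p hp u
  simp only [List.mem_cons, List.not_mem_nil, or_false] at hp
  rcases hp with rfl | rfl | rfl
  · show ρ (S.x 9 u) (ρ (S.x 8 t) v) = ψ ((κ - 3 * l * t) * u) • ρ (S.x 8 t) v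
    rw [← Module.End.mul_apply, ← map_mul, S.r9_8 u t]
    simp only [map_mul, Module.End.mul_apply, h11, h9, map_smul, smul_smul]
    congr 1
    rw [← AddChar.map_add_eq_mul]
    congr 1
    ring
  · have hc := S.comm 8 11 (by simp [commPairs]) t u
    show ρ (S.x 11 u) (ρ (S.x 8 t) v) = ψ (l * u) • ρ (S.x 8 t) v
    rw [← Module.End.mul_apply, ← map_mul, ← hc, map_mul, Module.End.mul_apply, h11, map_smul]
  · have hc := S.comm 8 10 (by simp [commPairs]) t u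
    show ρ (S.x 10 u) (ρ (S.x 8 t) v) = ψ ((0 : F) * u) • ρ (S.x 8 t) v
    rw [← Module.End.mul_apply, ← map_mul, ← hc, map_mul, Module.End.mul_apply, h10, map_smul]

/-- The dimension of `Wt [(11, l), (10, 0)]`. -/
lemma wr_W [Fintype F] [FiniteDimensional ℂ V] (hψ : ψ ≠ 1) (hd : wr S ρ ψ [(11, 1)] = Fintype.card F ^ 2) {l : F} (hl : l ≠ 0) :
    wr S ρ ψ [(11, l), (10, 0)] = Fintype.card F := by
  have hst : ∀ v ∈ Wt S ρ ψ [(11, l)], ∀ u, ρ (S.x 10 u) v ∈ Wt S ρ ψ [(11, l)] := by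
    intro v hv u p hp w
    simp only [List.mem_cons, List.not_mem_nil, or_false] at hp
    subst hp
    have hc := S.comm 10 11 (by simp [commPairs]) u w
    show ρ (S.x 11 w) (ρ (S.x 10 u) v) = ψ (l * w) • ρ (S.x 10 u) v
    rw [← Module.End.mul_apply, ← map_mul, ← hc, map_mul, Module.End.mul_apply, hv (11, l) (by simp) w, map_smul]
  have h1 := wr_cons (S := S) (ρ := ρ) hψ (r := 10) (by norm_num) hst
  have h2 : ∀ κ : F, wr S ρ ψ ((10, κ) :: [(11, l)]) = wr S ρ ψ [(11, l), (10, 0)] := by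
    intro κ
    have e : wr S ρ ψ ((10, κ) :: [(11, l)]) = wr S ρ ψ [(11, l), (10, κ)] :=
      wr_congr S ρ ψ (fun p => by simp [or_comm])
    rw [e]
    refine wr_eq_of_maps (S.x 6 (κ / l)) ?_ ?_
    · intro v hv
      have := x6_move (t := κ / l) hv
      rwa [show κ - l * (κ / l) = 0 by field_simp; ring] at this
    · intro v hv
      rw [x_inv S 6 (by norm_num)]
      have := x6_move (t := -(κ / l)) hv
      rwa [show (0 : F) - l * (-(κ / l)) = κ by field_simp; ring] at this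
  rw [dz_eq hl, hd] at h1
  simp only [h2, Finset.sum_const, Finset.card_univ, smul_eq_mul] at h1
  have hq : 0 < Fintype.card F := Fintype.card_pos
  nlinarith [h1]

/-- The lines have dimension one. -/
lemma wr_L [Fintype F] [FiniteDimensional ℂ V] (hψ : ψ ≠ 1) (h3 : (3 : F) ≠ 0) (hd : wr S ρ ψ [(11, 1)] = Fintype.card F ^ 2)
    {l : F} (hl : l ≠ 0) (κ : F) : wr S ρ ψ [(9, κ), (11, l), (10, 0)] = 1 := by
  have hst : ∀ v ∈ Wt S ρ ψ [(11, l), (10, 0)], ∀ u, ρ (S.x 9 u) v ∈ Wt S ρ ψ [(11, l), (10, 0)] := by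
    intro v hv u p hp w
    simp only [List.mem_cons, List.not_mem_nil, or_false] at hp
    rcases hp with rfl | rfl
    · have hc := S.comm 9 11 (by simp [commPairs]) u w
      show ρ (S.x 11 w) (ρ (S.x 9 u) v) = ψ (l * w) • ρ (S.x 9 u) v
      rw [← Module.End.mul_apply, ← map_mul, ← hc, map_mul, Module.End.mul_apply, hv (11, l) (by simp) w, map_smul]
    · have hc := S.comm 9 10 (by simp [commPairs]) u w
      show ρ (S.x 10 w) (ρ (S.x 9 u) v) = ψ ((0 : F) * w) • ρ (S.x 9 u) v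
      rw [← Module.End.mul_apply, ← map_mul, ← hc, map_mul, Module.End.mul_apply, hv (10, 0) (by simp) w, map_smul]
  have h1 := wr_cons (S := S) (ρ := ρ) hψ (r := 9) (by norm_num) hst
  have h3l : 3 * l ≠ 0 := mul_ne_zero h3 hl
  have h2 : ∀ κ κ' : F, wr S ρ ψ [(9, κ), (11, l), (10, 0)] = wr S ρ ψ [(9, κ'), (11, l), (10, 0)] := by
    intro κ κ'
    refine wr_eq_of_maps (S.x 8 ((κ - κ') / (3 * l))) ?_ ?_
    · intro v hv
      have := x8_move (t := (κ - κ') / (3 * l)) hv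
      rwa [show κ - 3 * l * ((κ - κ') / (3 * l)) = κ' by field_simp; ring] at this
    · intro v hv
      rw [x_inv S 8 (by norm_num)]
      have := x8_move (t := -((κ - κ') / (3 * l))) hv
      rwa [show κ' - 3 * l * (-((κ - κ') / (3 * l))) = κ by field_simp; ring] at this
  rw [wr_W hψ hd hl] at h1
  have h4 : ∀ a : F, wr S ρ ψ ((9, a) :: [(11, l), (10, 0)]) = wr S ρ ψ [(9, κ), (11, l), (10, 0)] := fun a => h2 a κ
  simp only [h4, Finset.sum_const, Finset.card_univ, smul_eq_mul] at h1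
  have hq : 0 < Fintype.card F := Fintype.card_pos
  have : Fintype.card F * 1 = Fintype.card F * wr S ρ ψ [(9, κ), (11, l), (10, 0)] := by
    rw [mul_one]; exact h1
  exact (Nat.eq_of_mul_eq_mul_left hq this).symm

/-- The (unnormalised) projection on a weight space of `x 9`. -/
noncomputable def eK (S : Sys F Γ) (ρ : Representation ℂ Γ V) (ψ : AddChar F ℂ) [Fintype F] (κ : F) : V →ₗ[ℂ] V :=
  ∑ u : F, ψ (-(κ * u)) • (ρ (S.x 9 u) : V →ₗ[ℂ] V)

lemma eK_apply [Fintype F] (κ : F) (v : V) : eK S ρ ψ κ v = ∑ u : F, ψ (-(κ * u)) • ρ (S.x 9 u) v := by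
  simp [eK, LinearMap.sum_apply]

lemma sum_eK [Fintype F] (hψ : ψ ≠ 1) (v : V) : ∑ κ : F, eK S ρ ψ κ v = (Fintype.card F : ℂ) • v := by
  simp only [eK_apply]
  rw [Finset.sum_comm, Finset.sum_eq_single (0 : F)]
  · simp only [mul_zero, neg_zero, AddChar.map_zero_eq_one, one_smul, x_zero S 9 (by norm_num : 9 < 12), map_one, Module.End.one_apply,
      Finset.sum_const, Finset.card_univ]
    exact (Nat.cast_smul_eq_nsmul ℂ _ _).symm
  · intro u _ hu
    rw [← Finset.sum_smul]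
    have : ∑ κ : F, ψ (-(κ * u)) = 0 := by
      have h := sum_psi_mul (ψ := ψ) hψ (neg_ne_zero.2 hu)
      rw [← h]
      refine Finset.sum_congr rfl fun κ _ => ?_
      congr 1
      ring
    rw [this, zero_smul]
  · intro h
    exact absurd (Finset.mem_univ _) h

lemma x9_eK [Fintype F] (κ w : F) (v : V) : ρ (S.x 9 w) (eK S ρ ψ κ v) = ψ (κ * w) • eK S ρ ψ κ v := by
  simp only [eK_apply, map_sum, map_smul, Finset.smul_sum]
  have h := Equiv.sum_comp (Equiv.addLeft w) (fun u : F => ψ (κ * w) • ψ (-(κ * u)) • ρ (S.x 9 u) v)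
  rw [← h]
  refine Finset.sum_congr rfl fun u _ => ?_
  simp only [Equiv.coe_addLeft]
  have e : ρ (S.x 9 (w + u)) v = ρ (S.x 9 w) (ρ (S.x 9 u) v) := by
    rw [S.x_add 9 (by norm_num), map_mul, Module.End.mul_apply]
  rw [e, smul_smul, ← AddChar.map_add_eq_mul]
  congr 2
  ring

lemma comm_eK [Fintype F] {g : Γ} (hc : ∀ u, g * S.x 9 u = S.x 9 u * g) (κ : F) (v : V) :
    ρ g (eK S ρ ψ κ v) = eK S ρ ψ κ (ρ g v) := by
  simp only [eK_apply, map_sum, map_smul]
  refine Finset.sum_congr rfl fun u _ => ?_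
  rw [← Module.End.mul_apply (ρ g), ← map_mul, hc, map_mul, Module.End.mul_apply]

lemma eK_mem [Fintype F] {l : F} (κ : F) {v : V} (hv : v ∈ Wt S ρ ψ [(11, l), (10, 0)]) :
    eK S ρ ψ κ v ∈ Wt S ρ ψ [(9, κ), (11, l), (10, 0)] := by
  intro p hp u
  simp only [List.mem_cons, List.not_mem_nil, or_false] at hp
  rcases hp with rfl | rfl | rfl
  · exact x9_eK κ u v
  · have hc : ∀ w, S.x 11 u * S.x 9 w = S.x 9 w * S.x 11 u := fun w => (S.comm 9 11 (by simp [commPairs]) w u).symm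
    show ρ (S.x 11 u) (eK S ρ ψ κ v) = ψ (l * u) • eK S ρ ψ κ v
    rw [comm_eK hc, hv (11, l) (by simp) u, map_smul]
  · have hc : ∀ w, S.x 10 u * S.x 9 w = S.x 9 w * S.x 10 u := fun w => (S.comm 9 10 (by simp [commPairs]) w u).symm
    show ρ (S.x 10 u) (eK S ρ ψ κ v) = ψ ((0 : F) * u) • eK S ρ ψ κ v
    rw [comm_eK hc, hv (10, 0) (by simp) u, map_smul]

lemma s_eK [Fintype F] (ω : Fˣ) (κ : F) (v : V) :
    ρ (S.t ω 1) (eK S ρ ψ (κ * ((ω : F) ^ 2)) v) = eK S ρ ψ κ (ρ (S.t ω 1) v) := by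
  simp only [eK_apply, map_sum, map_smul]
  have hne : ((ω : F) ^ 2) ≠ 0 := pow_ne_zero _ (Units.ne_zero ω)
  have h := Equiv.sum_comp (Equiv.mulLeft₀ ((ω : F) ^ 2) hne) (fun u : F => ψ (-(κ * u)) • ρ (S.x 9 u) (ρ (S.t ω 1) v))
  rw [← h]
  refine Finset.sum_congr rfl fun u _ => ?_
  simp only [Equiv.mulLeft₀_apply]
  have e : S.t ω 1 * S.x 9 u = S.x 9 ((ω : F) ^ 2 * u) * S.t ω 1 := by
    have := S.t_conj ω 1 9 (by norm_num) u
    have e2 : ((chiV 9 ω (1 : Fˣ) : Fˣ) : F) = (ω : F) ^ 2 := by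
      simp [chiV]
    rw [e2] at this
    rw [← this]
    group
  rw [← Module.End.mul_apply (ρ (S.t ω 1)), ← map_mul, e, map_mul, Module.End.mul_apply]
  congr 2
  ring

end K2Aux

open K2Aux

/-- The upper bound in the space `W = Wt [(11, l), (10, 0)]`, `l ≠ 0`, `d = q²`: `x 6` permutes the `x 10`-characters on `Wt [(11, l)]` so
`dim W = q`; `x 8` permutes the `x 9`-characters on `W` (`3 ≠ 0`), so `W = ⊕_κ L_κ` with lines `L_κ = Wt [(9, κ), (11, l), (10, 0)]`; `s = t ω 1`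
stabilises `W` and `s L_κ = L_{κ ω⁻²}`; `ω ≠ 1` so `s` permutes the lines with `κ ≠ 0` in orbits of length 3; on one orbit, the `ζ`-eigenspace has
dimension `≤ 1`. -/
theorem W_bound [Fintype F] [FiniteDimensional ℂ V] (hψ : ψ ≠ 1) (h3 : (3 : F) ≠ 0) (hd : wr S ρ ψ [(11, 1)] = Fintype.card F ^ 2)
    (ω : Fˣ) (hω : ω ^ 3 = 1) (hω1 : ω ≠ 1) (ζ : ℂ) {l : F} (hl : l ≠ 0) :
    finrank ℂ ↥(Wt S ρ ψ [(11, l), (10, 0)] ⊓ LinearMap.ker (ρ (S.t ω 1) - ζ • (1 : Module.End ℂ V))) ≤ (Fintype.card F - 1) / 3 + 1 := by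
  set T := Wt S ρ ψ [(11, l), (10, 0)] ⊓ LinearMap.ker (ρ (S.t ω 1) - ζ • (1 : Module.End ℂ V)) with hT
  have hωF : (ω : F) ^ 3 = 1 := by
    have := congrArg (fun z : Fˣ => (z : F)) hω
    simpa using this
  have hTs : ∀ v ∈ T, ρ (S.t ω 1) v = ζ • v := by
    intro v hv
    have h2 : v ∈ LinearMap.ker (ρ (S.t ω 1) - ζ • (1 : Module.End ℂ V)) := hv.2
    simp only [LinearMap.mem_ker, LinearMap.sub_apply, LinearMap.smul_apply, Module.End.one_apply] at h2
    exact sub_eq_zero.1 h2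
  -- the quotient by the subgroup generated by `ω`
  let N : Subgroup Fˣ := Subgroup.zpowers ω
  let Q := Fˣ ⧸ N
  letI : Fintype Q := Fintype.ofFinite Q
  have hcardQ : Fintype.card Q = (Fintype.card F - 1) / 3 := by
    have h1 := Subgroup.card_eq_card_quotient_mul_card_subgroup N
    haveI : Fact (Nat.Prime 3) := ⟨Nat.prime_three⟩
    have h2 : Nat.card N = 3 := by
      show Nat.card (Subgroup.zpowers ω) = 3
      rw [Nat.card_zpowers]
      exact orderOf_eq_prime hω hω1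
    have h4 : Nat.card Fˣ = Fintype.card F - 1 := by
      rw [Nat.card_eq_fintype_card, Fintype.card_units]
    have h6 : Nat.card (Fˣ ⧸ N) = Fintype.card Q := Nat.card_eq_fintype_card
    rw [h2, h4, h6] at h1
    omega
  let rep : Option Q → F := fun o => o.elim 0 (fun c => ((Quotient.out c : Fˣ) : F))
  let Φ : ↥T →ₗ[ℂ] (∀ o : Option Q, ↥(Wt S ρ ψ [(9, rep o), (11, l), (10, 0)])) :=
    LinearMap.pi fun o =>
      ((eK S ρ ψ (rep o)).comp T.subtype).codRestrict (Wt S ρ ψ [(9, rep o), (11, l), (10, 0)])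
        (fun v => eK_mem (rep o) v.2.1)
  have hΦ : Function.Injective Φ := by
    rw [← LinearMap.ker_eq_bot, LinearMap.ker_eq_bot']
    intro v hv
    by_contra hv0
    have hv0' : (v : V) ≠ 0 := fun h => hv0 (Subtype.ext h)
    have hzeta : ζ ≠ 0 := by
      rintro rfl
      have h2 := hTs v v.2
      rw [zero_smul] at h2
      exact hv0' (rho_inj ρ _ (h2.trans (map_zero _).symm))
    have hrep : ∀ o, eK S ρ ψ (rep o) (v : V) = 0 := by
      intro o
      have := congrFun hv o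
      exact congrArg Subtype.val this
    have hstep : ∀ κ : F, eK S ρ ψ κ (v : V) = 0 → eK S ρ ψ (κ * (ω : F)) (v : V) = 0 := by
      intro κ hκ
      have h2 := s_eK (S := S) (ρ := ρ) (ψ := ψ) ω (κ * (ω : F)) (v : V)
      have e : κ * (ω : F) * (ω : F) ^ 2 = κ := by
        calc κ * (ω : F) * (ω : F) ^ 2 = κ * (ω : F) ^ 3 := by ring
          _ = κ := by rw [hωF, mul_one]
      rw [e, hκ, map_zero, hTs v v.2, map_smul] at h2
      exact (smul_eq_zero.1 h2.symm).resolve_left hzeta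
    have hpow : ∀ (n : ℕ) (κ : F), eK S ρ ψ κ (v : V) = 0 → eK S ρ ψ (κ * ((ω ^ n : Fˣ) : F)) (v : V) = 0 := by
      intro n
      induction n with
      | zero =>
        intro κ hκ
        simpa using hκ
      | succ n ih =>
        intro κ hκ
        have h2 := hstep _ (ih κ hκ)
        have e : κ * ((ω ^ (n + 1) : Fˣ) : F) = κ * ((ω ^ n : Fˣ) : F) * (ω : F) := by
          rw [pow_succ]
          push_cast
          ring
        rw [e]
        exact h2
    have hall : ∀ κ : F, eK S ρ ψ κ (v : V) = 0 := by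
      intro κ
      by_cases hκ : κ = 0
      · rw [hκ]
        exact hrep none
      · set c : Fˣ := Units.mk0 κ hκ with hc
        obtain ⟨h, hh⟩ := QuotientGroup.mk_out_eq_mul N c
        have h0 := hrep (some (QuotientGroup.mk c))
        have e0 : rep (some (QuotientGroup.mk c)) = ((c * (h : Fˣ) : Fˣ) : F) := by
          show ((Quotient.out (QuotientGroup.mk c : Q) : Fˣ) : F) = _
          rw [hh]
        rw [e0] at h0
        have hmem : ((h : Fˣ))⁻¹ ∈ N := N.inv_mem h.2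
        have hmem' : ((h : Fˣ))⁻¹ ∈ Submonoid.powers ω := by
          have : IsOfFinOrder ω := isOfFinOrder_iff_pow_eq_one.2 ⟨3, by norm_num, hω⟩
          exact (this.mem_powers_iff_mem_zpowers).2 hmem
        obtain ⟨n, hn⟩ := hmem'
        have hn' : ω ^ n = (h : Fˣ)⁻¹ := hn
        have h2 := hpow n _ h0
        have e1 : ((c * (h : Fˣ) : Fˣ) : F) * ((ω ^ n : Fˣ) : F) = κ := by
          rw [hn', ← Units.val_mul, mul_assoc, mul_inv_cancel, mul_one]
          rfl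
        rwa [e1] at h2
    have hsum := sum_eK (S := S) (ρ := ρ) hψ (v : V)
    simp only [hall, Finset.sum_const_zero] at hsum
    have hq : (Fintype.card F : ℂ) ≠ 0 := by
      exact_mod_cast Fintype.card_ne_zero
    exact hv0' ((smul_eq_zero.1 hsum.symm).resolve_left hq)
  have hle := LinearMap.finrank_le_finrank_of_injective hΦ
  rw [Module.finrank_pi_fintype] at hle
  have hone : ∀ o, finrank ℂ ↥(Wt S ρ ψ [(9, rep o), (11, l), (10, 0)]) = 1 := fun o => wr_L hψ h3 hd hl (rep o)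
  simp only [hone, Finset.sum_const, Finset.card_univ, smul_eq_mul, mul_one, Fintype.card_option] at hle
  rw [hcardQ] at hle
  exact hle

namespace K2Aux

/-- `g` conjugates `x r` to `x r'`, up to a sign. -/
def ConjX (S : Sys F Γ) (g : Γ) (r r' : ℕ) : Prop :=
  ∃ η : F, (η = 1 ∨ η = -1) ∧ ∀ u, g * S.x r u * g⁻¹ = S.x r' (η * u)

lemma ConjX.trans {g g' : Γ} {r r' r'' : ℕ} (h : ConjX S g r r') (h' : ConjX S g' r' r'') : ConjX S (g' * g) r r'' := by
  obtain ⟨η, hη, h1⟩ := h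
  obtain ⟨η', hη', h2⟩ := h'
  refine ⟨η' * η, ?_, fun u => ?_⟩
  · rcases hη with rfl | rfl <;> rcases hη' with rfl | rfl <;> simp
  · have : g' * g * S.x r u * (g' * g)⁻¹ = g' * (g * S.x r u * g⁻¹) * g'⁻¹ := by group
    rw [this, h1, h2, mul_assoc]

lemma ConjX.inv {g : Γ} {r r' : ℕ} (h : ConjX S g r r') : ConjX S g⁻¹ r' r := by
  obtain ⟨η, hη, h1⟩ := h
  refine ⟨η, hη, fun u => ?_⟩
  have hηη : η * η = 1 := by
    rcases hη with rfl | rfl <;> simp
  have h2 := h1 (η * u)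
  rw [← mul_assoc, hηη, one_mul] at h2
  rw [← h2]
  group

lemma conjA (S : Sys F Γ) {r : ℕ} (hr : r < 12) : ConjX S S.na r (reflA r) := S.na_conj r hr
lemma conjB (S : Sys F Γ) {r : ℕ} (hr : r < 12) : ConjX S S.nb r (reflB r) := S.nb_conj r hr

/-- The transporter. -/
def g0 (S : Sys F Γ) : Γ := S.nb * S.na * S.nb * S.na⁻¹ * S.nb⁻¹

lemma g0_05 (S : Sys F Γ) : ConjX S (g0 S) 0 11 := by
  have h1 : ConjX S S.nb⁻¹ 0 1 := (conjB S (r := 1) (by norm_num)).inv
  have h2 : ConjX S S.na⁻¹ 1 5 := (conjA S (r := 5) (by norm_num)).inv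
  have h3 : ConjX S S.nb 5 6 := conjB S (r := 5) (by norm_num)
  have h4 : ConjX S S.na 6 10 := conjA S (r := 6) (by norm_num)
  have h5 : ConjX S S.nb 10 11 := conjB S (r := 10) (by norm_num)
  have := ((((h1.trans h2).trans h3).trans h4).trans h5)
  have e : g0 S = S.nb * (S.na * (S.nb * (S.na⁻¹ * S.nb⁻¹))) := by
    unfold g0
    group
  rw [e]
  exact this

lemma g0_510 (S : Sys F Γ) : ConjX S (g0 S) 5 10 := by
  have h1 : ConjX S S.nb⁻¹ 5 6 := (conjB S (r := 6) (by norm_num)).inv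
  have h2 : ConjX S S.na⁻¹ 6 10 := (conjA S (r := 10) (by norm_num)).inv
  have h3 : ConjX S S.nb 10 11 := conjB S (r := 10) (by norm_num)
  have h4 : ConjX S S.na 11 11 := conjA S (r := 11) (by norm_num)
  have h5 : ConjX S S.nb 11 10 := conjB S (r := 11) (by norm_num)
  have := ((((h1.trans h2).trans h3).trans h4).trans h5)
  have e : g0 S = S.nb * (S.na * (S.nb * (S.na⁻¹ * S.nb⁻¹))) := by
    unfold g0
    group
  rw [e]
  exact this

lemma g0_comm (S : Sys F Γ) {ω : Fˣ} (hω : ω ^ 3 = 1) : g0 S * S.t ω 1 = S.t ω 1 * g0 S := by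
  set s := S.t ω 1 with hs
  have hsinv : s⁻¹ = S.t ω⁻¹ 1 := by
    rw [hs, t_inv, inv_one]
  have E : S.nb * s * S.nb⁻¹ = s := by
    rw [hs, S.nb_t]
    simp
  have D1 : S.na * s * S.na⁻¹ = s⁻¹ := by
    rw [hs, S.na_t, hω, hsinv]
    simp
  have A : S.nb⁻¹ * s * S.nb = s := by
    conv_lhs => rw [← E]
    group
  have C : S.nb * s⁻¹ * S.nb⁻¹ = s⁻¹ := by
    have : S.nb * s⁻¹ * S.nb⁻¹ = (S.nb * s * S.nb⁻¹)⁻¹ := by group
    rw [this, E]
  have D : S.na * s⁻¹ * S.na⁻¹ = s := by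
    have : S.na * s⁻¹ * S.na⁻¹ = (S.na * s * S.na⁻¹)⁻¹ := by group
    rw [this, D1, inv_inv]
  have B : S.na⁻¹ * s * S.na = s⁻¹ := by
    conv_lhs => rw [← D]
    group
  have key : g0 S * s * (g0 S)⁻¹ = s := by
    have : g0 S * s * (g0 S)⁻¹ =
        S.nb * (S.na * (S.nb * (S.na⁻¹ * (S.nb⁻¹ * s * S.nb) * S.na) * S.nb⁻¹) * S.na⁻¹) * S.nb⁻¹ := by
      unfold g0
      group
    rw [this, A, B, C, D, E]
  calc g0 S * s = g0 S * s * (g0 S)⁻¹ * g0 S := by group
    _ = s * g0 S := by rw [key]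

end K2Aux

open K2Aux

/-- Transport: `g₀ = nb * na * nb * na⁻¹ * nb⁻¹` conjugates `x 0 (u)` to `x 11 (η u)`, `x 5 (u)` to `x 10 (η' u)`, and commutes with `s = t ω 1`
(from `na_t`, `nb_t`, `ω³ = 1`). -/
theorem W_bound' [Fintype F] [FiniteDimensional ℂ V] (hψ : ψ ≠ 1) (h3 : (3 : F) ≠ 0) (hd : wr S ρ ψ [(11, 1)] = Fintype.card F ^ 2)
    (ω : Fˣ) (hω : ω ^ 3 = 1) (hω1 : ω ≠ 1) (ζ : ℂ) :
    finrank ℂ ↥(Wt S ρ ψ [(0, 1), (5, 0)] ⊓ LinearMap.ker (ρ (S.t ω 1) - ζ • (1 : Module.End ℂ V))) ≤ (Fintype.card F - 1) / 3 + 1 := by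
  obtain ⟨η, hη, h0⟩ := g0_05 S
  obtain ⟨η', hη', h5⟩ := g0_510 S
  have hηη : η * η = 1 := by
    rcases hη with rfl | rfl <;> simp
  have hηη' : η' * η' = 1 := by
    rcases hη' with rfl | rfl <;> simp
  have hη0 : η ≠ 0 := by
    rcases hη with rfl | rfl <;> simp
  refine le_trans ?_ (W_bound hψ h3 hd ω hω hω1 ζ hη0)
  refine Cfsg.Agent.Lib.WtSpace.Basic.finrank_le_of_map (g := (ρ (g0 S) : V →ₗ[ℂ] V)) (rho_inj ρ _) ?_
  intro v hv
  refine ⟨?_, ?_⟩
  · have hv1 : v ∈ Wt S ρ ψ [(0, 1), (5, 0)] := hv.1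
    intro p hp u
    simp only [List.mem_cons, List.not_mem_nil, or_false] at hp
    rcases hp with rfl | rfl
    · show ρ (S.x 11 u) (ρ (g0 S) v) = ψ (η * u) • ρ (g0 S) v
      have e : S.x 11 u * g0 S = g0 S * S.x 0 (η * u) := by
        have := h0 (η * u)
        rw [← mul_assoc, hηη, one_mul] at this
        rw [← this]
        group
      rw [← Module.End.mul_apply, ← map_mul, e, map_mul, Module.End.mul_apply, hv1 (0, 1) (by simp) (η * u), map_smul]
      simp only [one_mul]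
    · show ρ (S.x 10 u) (ρ (g0 S) v) = ψ ((0 : F) * u) • ρ (g0 S) v
      have e : S.x 10 u * g0 S = g0 S * S.x 5 (η' * u) := by
        have := h5 (η' * u)
        rw [← mul_assoc, hηη', one_mul] at this
        rw [← this]
        group
      rw [← Module.End.mul_apply, ← map_mul, e, map_mul, Module.End.mul_apply, hv1 (5, 0) (by simp) (η' * u), map_smul]
      simp only [zero_mul]
  · have h2 : v ∈ LinearMap.ker (ρ (S.t ω 1) - ζ • (1 : Module.End ℂ V)) := hv.2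
    change (ρ (g0 S)) v ∈ LinearMap.ker (ρ (S.t ω 1) - ζ • (1 : Module.End ℂ V))
    simp only [LinearMap.mem_ker, LinearMap.sub_apply, LinearMap.smul_apply, Module.End.one_apply] at h2 ⊢
    have h4 := sub_eq_zero.1 h2
    rw [← Module.End.mul_apply (ρ (S.t ω 1)), ← map_mul, ← g0_comm S hω, map_mul, Module.End.mul_apply, h4, map_smul, sub_self]

/-- The contradiction: `a ↦ Π a` is injective on `A`, of dimension `q - 1`, with values in `Wt [(0, 1), (5, 0)]` and in the `ζ`-eigenspace of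
`s` (which commutes with `x 0`, `x 5`). So `q - 1 ≤ (q - 1)/3 + 1`.  (`[Finite Γ]` gives the invariant form.) -/
theorem q1_false [Finite Γ] [Fintype F] [FiniteDimensional ℂ V] (hψ : ψ ≠ 1) (h3 : (3 : F) ≠ 0) (hq : 7 ≤ Fintype.card F) (hfix : NoFix S ρ)
    (hQ : Q1 S ρ ψ) (ω : Fˣ) (hω : ω ^ 3 = 1) (hω1 : ω ≠ 1) : False := by
  obtain ⟨I⟩ := exists_IH ρ
  obtain ⟨ζ, hζ⟩ := exists_zeta hψ hQ ω hω
  set T := Wt S ρ ψ [(0, 1), (5, 0)] ⊓ LinearMap.ker (ρ (S.t ω 1) - ζ • (1 : Module.End ℂ V)) with hT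
  let Pi : V →ₗ[ℂ] V := ∑ u : F, ∑ w : F, ψ (-u) • ((ρ (S.x 0 u) : V →ₗ[ℂ] V).comp (ρ (S.x 5 w) : V →ₗ[ℂ] V))
  have hPi : ∀ a, Pi a = ∑ u : F, ∑ w : F, ψ (-u) • ρ (S.x 0 u) (ρ (S.x 5 w) a) := by
    intro a
    simp [Pi, LinearMap.sum_apply]
  have hmem : ∀ a : ↥(AA S ρ ψ), Pi (a : V) ∈ T := by
    intro a
    refine ⟨?_, ?_⟩
    · intro p hp u'
      simp only [List.mem_cons, List.not_mem_nil, or_false] at hp
      rcases hp with rfl | rfl
      · show ρ (S.x 0 u') (Pi a) = ψ (1 * u') • Pi a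
        rw [hPi]
        simp only [map_sum, map_smul, Finset.smul_sum]
        have h := Equiv.sum_comp (Equiv.addLeft u') (fun u : F => ∑ w : F, ψ (1 * u') • ψ (-u) • ρ (S.x 0 u) (ρ (S.x 5 w) a))
        rw [← h]
        refine Finset.sum_congr rfl fun u _ => Finset.sum_congr rfl fun w _ => ?_
        simp only [Equiv.coe_addLeft]
        have e : ρ (S.x 0 (u' + u)) (ρ (S.x 5 w) (a : V)) = ρ (S.x 0 u') (ρ (S.x 0 u) (ρ (S.x 5 w) (a : V))) := by
          rw [S.x_add 0 (by norm_num), map_mul, Module.End.mul_apply]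
        rw [e, smul_smul, ← AddChar.map_add_eq_mul]
        congr 2
        ring
      · show ρ (S.x 5 u') (Pi a) = ψ ((0 : F) * u') • Pi a
        rw [hPi]
        simp only [zero_mul, AddChar.map_zero_eq_one, one_smul, map_sum, map_smul]
        refine Finset.sum_congr rfl fun u _ => ?_
        have hc := S.comm 5 0 (by simp [commPairs])
        have h1 := Equiv.sum_comp (Equiv.addLeft u') (fun w : F => ψ (-u) • ρ (S.x 0 u) (ρ (S.x 5 w) (a : V)))
        rw [← h1]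
        refine Finset.sum_congr rfl fun w _ => ?_
        simp only [Equiv.coe_addLeft]
        have e : ρ (S.x 5 (u' + w)) (a : V) = ρ (S.x 5 u') (ρ (S.x 5 w) (a : V)) := by
          rw [S.x_add 5 (by norm_num), map_mul, Module.End.mul_apply]
        rw [e]
        congr 1
        rw [← Module.End.mul_apply (ρ (S.x 5 u')), ← map_mul, hc, map_mul, Module.End.mul_apply]
    · change Pi (a : V) ∈ LinearMap.ker (ρ (S.t ω 1) - ζ • (1 : Module.End ℂ V))
      simp only [LinearMap.mem_ker, LinearMap.sub_apply, LinearMap.smul_apply, Module.End.one_apply]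
      rw [hPi]
      simp only [map_sum, map_smul, Finset.smul_sum]
      rw [sub_eq_zero]
      refine Finset.sum_congr rfl fun u _ => Finset.sum_congr rfl fun w _ => ?_
      have hc0 : S.t ω 1 * S.x 0 u = S.x 0 u * S.t ω 1 := by
        have := S.t_conj ω 1 0 (by norm_num) u
        have e2 : ((chiV 0 ω (1 : Fˣ) : Fˣ) : F) = 1 := by
          simp [chiV, hω]
        rw [e2, one_mul] at this
        calc S.t ω 1 * S.x 0 u = S.t ω 1 * S.x 0 u * (S.t ω 1)⁻¹ * S.t ω 1 := by group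
          _ = S.x 0 u * S.t ω 1 := by rw [this]
      have hc5 : S.t ω 1 * S.x 5 w = S.x 5 w * S.t ω 1 := by
        have := S.t_conj ω 1 5 (by norm_num) w
        have e2 : ((chiV 5 ω (1 : Fˣ) : Fˣ) : F) = 1 := by
          simp [chiV]
        rw [e2, one_mul] at this
        calc S.t ω 1 * S.x 5 w = S.t ω 1 * S.x 5 w * (S.t ω 1)⁻¹ * S.t ω 1 := by group
          _ = S.x 5 w * S.t ω 1 := by rw [this]
      have h5 : ρ (S.t ω 1) (ρ (S.x 0 u) (ρ (S.x 5 w) (a : V))) = ρ (S.x 0 u) (ρ (S.x 5 w) (ρ (S.t ω 1) (a : V))) := by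
        rw [← Module.End.mul_apply (ρ (S.t ω 1)), ← map_mul, hc0, map_mul, Module.End.mul_apply,
          ← Module.End.mul_apply (ρ (S.t ω 1)), ← map_mul, hc5, map_mul, Module.End.mul_apply]
      rw [h5, hζ _ a.2, map_smul, map_smul, smul_comm]
  let f : ↥(AA S ρ ψ) →ₗ[ℂ] ↥T := (Pi.comp (AA S ρ ψ).subtype).codRestrict T hmem
  have hf : Function.Injective f := by
    rw [← LinearMap.ker_eq_bot, LinearMap.ker_eq_bot']
    intro a ha
    have h0 : Pi (a : V) = 0 := congrArg Subtype.val ha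
    rw [hPi] at h0
    exact Subtype.ext (Pi_inj hψ (by omega) hfix hQ I a.2 h0)
  have h1 := LinearMap.finrank_le_finrank_of_injective hf
  rw [finrank_AA hψ hQ] at h1
  have h2 := W_bound' (S := S) (ρ := ρ) hψ h3 hQ.hd ω hω hω1 ζ
  have h4 : finrank ℂ ↥T ≤ (Fintype.card F - 1) / 3 + 1 := h2
  omega

/-- The bound when `q ≡ 1 mod 3`, `q ≥ 7`. -/
theorem bound_q1 [Finite Γ] [Fintype F] [FiniteDimensional ℂ V] (hψ : ψ ≠ 1) (h3 : (3 : F) ≠ 0) (hq : 7 ≤ Fintype.card F) (hfix : NoFix S ρ)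
    (hV : Nontrivial V) (ω : Fˣ) (hω : ω ^ 3 = 1) (hω1 : ω ≠ 1) : Fintype.card F ^ 3 + 1 ≤ finrank ℂ V := by
  by_contra hc
  obtain ⟨h1, h2, h4, h5⟩ := struct_q1 (S := S) (ρ := ρ) hψ h3 hq hfix hV (by omega)
  exact q1_false (S := S) (ρ := ρ) hψ h3 hq hfix ⟨fun {_} => by convert h1, h2, h4, h5⟩ ω hω hω1

end Cfsg.Agent.Lib.MinG2
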