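import Cfsg.Agent.Lib.MinG2.Inv

/-! Orbits of weights in characteristic different from three. Pure combinatorics on `F⁴`. -/

set_option autoImplicit false
set_option linter.unusedSectionVars false
set_option linter.unusedVariables false

namespace Cfsg.Agent.Lib.MinG2

open Module
open scoped Classical

variable {F : Type*} [Field F] [Fintype F] {n : F × F × F × F → ℕ}

namespace OrbAux

lemma sum_ge (A : Finset (F × F × F × F)) (m : ℕ) (h : ∀ c ∈ A, c ≠ 0 ∧ m ≤ n c) :
    m * A.card ≤ ∑ c : F × F × F × F, (if c ≠ 0 then n c else 0) := by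
  calc m * A.card = ∑ c ∈ A, m := by simp [mul_comm]
    _ ≤ ∑ c ∈ A, (if c ≠ 0 then n c else 0) := Finset.sum_le_sum (fun c hc => by
        rw [if_pos (h c hc).1]; exact (h c hc).2)
    _ ≤ _ := Finset.sum_le_sum_of_subset_of_nonneg (Finset.subset_univ _) (fun _ _ _ => Nat.zero_le _)

/-- Move any nonzero weight to `c3 ≠ 0`, `c2 = 0`. -/
lemma normal_form (h3 : (3 : F) ≠ 0) (hq : 5 ≤ Fintype.card F) (hI : Inv n) {c : F × F × F × F} (hc : c ≠ 0)
    (hpos : 0 < n c) : ∃ a b d : F, d ≠ 0 ∧ 0 < n (a, b, 0, d) := by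
  obtain ⟨c0, c1, c2, c3⟩ := c
  have key : ∃ c0 c1 c2 c3 : F, c3 ≠ 0 ∧ 0 < n (c0, c1, c2, c3) := by
    obtain ⟨e0, e1, e2, e3, he0, he1, he2, he3, hsw⟩ := hI.swap
    have he3' : e3 ≠ 0 := by
      rcases he3 with h | h <;> rw [h] <;> simp
    by_cases h3' : c3 = 0
    · by_cases h0 : c0 = 0
      · subst h3' h0
        have hne : c1 ≠ 0 ∨ c2 ≠ 0 := by
          by_contra hh
          push Not at hh
          exact hc (by rw [hh.1, hh.2]; rfl)
        have : ∃ t : F, t ≠ 0 ∧ c1 + c2 * t ≠ 0 := by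
          by_cases h2 : c2 = 0
          · refine ⟨1, one_ne_zero, ?_⟩
            rw [h2, zero_mul, add_zero]
            rcases hne with h | h
            · exact h
            · exact absurd h2 h
          · have hcard : ({0, -c1 / c2} : Finset F).card < (Finset.univ : Finset F).card := by
              refine lt_of_le_of_lt (Finset.card_le_two) ?_
              rw [Finset.card_univ]; omega
            obtain ⟨t, -, ht⟩ := Finset.exists_mem_notMem_of_card_lt_card hcard
            simp only [Finset.mem_insert, Finset.mem_singleton, not_or] at ht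
            refine ⟨t, ht.1, fun h => ht.2 ?_⟩
            field_simp
            linear_combination h
        obtain ⟨t, ht, ht'⟩ := this
        have e1' := hI.shift t 0 c1 c2 0
        have e2' := hsw (0 + c1 * t + c2 * t ^ 2 - 0 * t ^ 3) (c1 + 2 * c2 * t - 3 * 0 * t ^ 2) (c2 - 3 * 0 * t) 0
        refine ⟨e0 * 0, e1 * (c2 - 3 * 0 * t), e2 * (c1 + 2 * c2 * t - 3 * 0 * t ^ 2), e3 * (0 + c1 * t + c2 * t ^ 2 - 0 * t ^ 3), ?_, ?_⟩
        · refine mul_ne_zero he3' ?_
          have : 0 + c1 * t + c2 * t ^ 2 - 0 * t ^ 3 = t * (c1 + c2 * t) := by ring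
          rw [this]
          exact mul_ne_zero ht ht'
        · rw [← e2', ← e1']
          exact hpos
      · refine ⟨e0 * c3, e1 * c2, e2 * c1, e3 * c0, mul_ne_zero he3' h0, ?_⟩
        rw [← hsw]
        exact hpos
    · exact ⟨c0, c1, c2, c3, h3', hpos⟩
  obtain ⟨c0, c1, c2, c3, h3', hp⟩ := key
  have e := hI.shift (c2 / (3 * c3)) c0 c1 c2 c3
  have hz : c2 - 3 * c3 * (c2 / (3 * c3)) = 0 := by
    field_simp
    ring
  rw [hz] at e
  exact ⟨c0 + c1 * (c2 / (3 * c3)) + c2 * (c2 / (3 * c3)) ^ 2 - c3 * (c2 / (3 * c3)) ^ 3, c1 + 2 * c2 * (c2 / (3 * c3)) - 3 * c3 * (c2 / (3 * c3)) ^ 2, c3, h3', by rw [← e]; exact hp⟩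

/-- An element `g` of `Fˣ` with `g² ≠ 1`, `g³ ≠ 1`. -/
lemma exists_g (hq : 5 ≤ Fintype.card F) : ∃ g : Fˣ, g ^ 2 ≠ 1 ∧ g ^ 3 ≠ 1 := by
  obtain ⟨g, hg⟩ := IsCyclic.exists_generator (α := Fˣ)
  have ho : orderOf g = Fintype.card F - 1 := by
    rw [orderOf_eq_card_of_forall_mem_zpowers hg, Nat.card_eq_fintype_card, Fintype.card_units]
  have h4 : 4 ≤ orderOf g := by omega
  refine ⟨g, fun h => ?_, fun h => ?_⟩
  · have := orderOf_dvd_of_pow_eq_one h
    have := Nat.le_of_dvd (by norm_num) this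
    omega
  · have := orderOf_dvd_of_pow_eq_one h
    have := Nat.le_of_dvd (by norm_num) this
    omega

/-- The large orbits. -/
lemma big_orbit (h3 : (3 : F) ≠ 0) (hq : 5 ≤ Fintype.card F) (hI : Inv n) {a b d : F} (hd : d ≠ 0)
    (hab : a ≠ 0 ∨ b ≠ 0) (hpos : 0 < n (a, b, 0, d)) :
    2 * (Fintype.card F * (Fintype.card F - 1)) ≤ ∑ c : F × F × F × F, (if c ≠ 0 then n c else 0) := by
  obtain ⟨g, hg2, hg3⟩ := exists_g (F := F) hq
  let sg : Bool → Fˣ := fun β => if β then g else 1
  let f : Bool × F × Fˣ → F × F × F × F := fun x =>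
    let s := sg x.1
    let t := x.2.1
    let τ := x.2.2
    let c0 := a * ((τ⁻¹ : Fˣ) : F)
    let c1 := b * (((s * τ)⁻¹ : Fˣ) : F)
    let c2 := (0 : F) * (((s ^ 2 * τ)⁻¹ : Fˣ) : F)
    let c3 := d * (((s ^ 3 * τ)⁻¹ : Fˣ) : F)
    (c0 + c1 * t + c2 * t ^ 2 - c3 * t ^ 3, c1 + 2 * c2 * t - 3 * c3 * t ^ 2, c2 - 3 * c3 * t, c3)
  have hf : Function.Injective f := by
    rintro ⟨β, t, τ⟩ ⟨β', t', τ'⟩ h
    simp only [f, Prod.mk.injEq, zero_mul, zero_sub] at h
    obtain ⟨h0, h1, h2, h3'⟩ := h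
    have hne : ∀ u : Fˣ, ((u : Fˣ) : F) ≠ 0 := fun u => u.ne_zero
    have hc3 : d * (((sg β ^ 3 * τ)⁻¹ : Fˣ) : F) ≠ 0 := mul_ne_zero hd (hne _)
    rw [← h3'] at h2
    have ht : t = t' := by
      have : 3 * (d * (((sg β ^ 3 * τ)⁻¹ : Fˣ) : F)) * t = 3 * (d * (((sg β ^ 3 * τ)⁻¹ : Fˣ) : F)) * t' := by
        simpa using h2
      exact mul_left_cancel₀ (mul_ne_zero h3 hc3) this
    subst ht
    rw [← h3'] at h1 h0
    have h1' : b * (((sg β * τ)⁻¹ : Fˣ) : F) = b * (((sg β' * τ')⁻¹ : Fˣ) : F) := by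
      simpa using h1
    rw [h1'] at h0
    have h0' : a * ((τ⁻¹ : Fˣ) : F) = a * ((τ'⁻¹ : Fˣ) : F) := by
      simpa using h0
    have h3u : sg β ^ 3 * τ = sg β' ^ 3 * τ' := by
      have := mul_left_cancel₀ hd h3'
      exact inv_inj.mp (Units.ext this)
    have hss : sg β = sg β' → τ = τ' := by
      intro h
      rw [h] at h3u
      exact mul_left_cancel h3u
    have hbb : β = β' := by
      by_contra hne'
      have hcases : (sg β = 1 ∧ sg β' = g) ∨ (sg β = g ∧ sg β' = 1) := by
        cases β <;> cases β' <;> simp_all [sg]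
      rcases hab with ha | hb
      · have hτ : τ = τ' := by
          have := mul_left_cancel₀ ha h0'
          exact inv_inj.mp (Units.ext this)
        subst hτ
        have : sg β ^ 3 = sg β' ^ 3 := mul_right_cancel h3u
        rcases hcases with ⟨h1, h2⟩ | ⟨h1, h2⟩
        · rw [h1, h2] at this; exact hg3 (by simpa using this.symm)
        · rw [h1, h2] at this; exact hg3 (by simpa using this)
      · have hτ : sg β * τ = sg β' * τ' := by
          have := mul_left_cancel₀ hb h1'
          exact inv_inj.mp (Units.ext this)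
        rcases hcases with ⟨h1, h2⟩ | ⟨h1, h2⟩
        · rw [h1, h2] at hτ h3u
          simp only [one_mul, one_pow] at hτ h3u
          rw [hτ] at h3u
          have : g * τ' = g ^ 3 * τ' := h3u
          have h5 := mul_right_cancel this
          have : g ^ 2 = 1 := by
            have : g * 1 = g * g ^ 2 := by
              calc g * 1 = g := mul_one g
                _ = g ^ 3 := h5
                _ = g * g ^ 2 := by group
            exact (mul_left_cancel this).symm
          exact hg2 this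
        · rw [h1, h2] at hτ h3u
          simp only [one_mul, one_pow] at hτ h3u
          rw [← hτ] at h3u
          have : g ^ 3 * τ = g * τ := h3u
          have h5 := mul_right_cancel this
          have : g ^ 2 = 1 := by
            have : g * g ^ 2 = g * 1 := by
              calc g * g ^ 2 = g ^ 3 := by group
                _ = g := h5
                _ = g * 1 := (mul_one g).symm
            exact mul_left_cancel this
          exact hg2 this
    subst hbb
    rw [hss rfl]
  have hcard : (Finset.univ.image f).card = 2 * (Fintype.card F * (Fintype.card F - 1)) := by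
    rw [Finset.card_image_of_injective _ hf, Finset.card_univ, Fintype.card_prod, Fintype.card_prod,
      Fintype.card_bool, Fintype.card_units]
  have := sum_ge (n := n) (Finset.univ.image f) 1 (by
    intro c hc
    obtain ⟨⟨β, t, τ⟩, -, rfl⟩ := Finset.mem_image.mp hc
    constructor
    · intro h0
      have h4 : d * (((sg β ^ 3 * τ)⁻¹ : Fˣ) : F) = 0 := congrArg (fun c : F × F × F × F => c.2.2.2) h0
      exact mul_ne_zero hd (Units.ne_zero _) h4
    · have e1 := hI.torus (sg β) τ a b 0 d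
      have e2 := hI.shift t (a * ((τ⁻¹ : Fˣ) : F)) (b * (((sg β * τ)⁻¹ : Fˣ) : F))
        ((0 : F) * (((sg β ^ 2 * τ)⁻¹ : Fˣ) : F)) (d * (((sg β ^ 3 * τ)⁻¹ : Fˣ) : F))
      show 1 ≤ n _
      rw [← e2, ← e1]
      exact hpos)
  rwa [one_mul, hcard] at this

/-- The cube orbit. -/
lemma cubes (h3 : (3 : F) ≠ 0) (hI : Inv n) : ∃ A : Finset (F × F × F × F), A.card = Fintype.card F ^ 2 - 1 ∧
    (∀ c ∈ A, c ≠ 0 ∧ (c.1 = 0 → c.2.1 = 0 ∧ c.2.2.1 = 0) ∧ ∃ d : Fˣ, n c = n (0, 0, 0, d)) := by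
  obtain ⟨e0, e1, e2, e3, he0, he1, he2, he3, hsw⟩ := hI.swap
  have he0' : e0 ≠ 0 := by
    rcases he0 with h | h <;> rw [h] <;> simp
  let f : Option F × Fˣ → F × F × F × F := fun x =>
    match x with
    | (some t, d) => (-(d : F) * t ^ 3, -3 * (d : F) * t ^ 2, -3 * (d : F) * t, (d : F))
    | (none, d) => (e0 * (d : F), 0, 0, 0)
  have hf : Function.Injective f := by
    rintro ⟨_ | t, d⟩ ⟨_ | t', d'⟩ h
    · simp only [f, Prod.mk.injEq, and_true] at h
      have := mul_left_cancel₀ he0' h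
      rw [Units.ext this]
    · simp only [f, Prod.mk.injEq] at h
      exact absurd h.2.2.2.symm d'.ne_zero
    · simp only [f, Prod.mk.injEq] at h
      exact absurd h.2.2.2 d.ne_zero
    · simp only [f, Prod.mk.injEq] at h
      obtain ⟨-, -, h2, h4⟩ := h
      have hd : d = d' := Units.ext h4
      subst hd
      have : (-3 * (d : F)) * t = (-3 * (d : F)) * t' := h2
      have h5 : (-3 * (d : F)) ≠ 0 := mul_ne_zero (neg_ne_zero.mpr h3) d.ne_zero
      rw [mul_left_cancel₀ h5 this]
  refine ⟨Finset.univ.image f, ?_, ?_⟩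
  · rw [Finset.card_image_of_injective _ hf, Finset.card_univ, Fintype.card_prod, Fintype.card_option,
      Fintype.card_units]
    have : 1 ≤ Fintype.card F := Fintype.card_pos
    obtain ⟨k, hk⟩ := Nat.exists_eq_add_of_le this
    rw [hk]
    simp only [Nat.add_sub_cancel_left]
    rw [show (1 + k + 1) * k = (1 + k) ^ 2 - 1 by
      have : (1 + k) ^ 2 = (1 + k + 1) * k + 1 := by ring
      omega]
  · intro c hc
    obtain ⟨⟨_ | t, d⟩, -, rfl⟩ := Finset.mem_image.mp hc
    · refine ⟨fun h => ?_, fun h => ?_, d, ?_⟩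
      · have h4 : e0 * (d : F) = 0 := congrArg (fun c : F × F × F × F => c.1) h
        exact mul_ne_zero he0' d.ne_zero h4
      · exact absurd h (mul_ne_zero he0' d.ne_zero)
      · have := hsw 0 0 0 (d : F)
        simp only [mul_zero] at this
        exact this.symm
    · refine ⟨fun h => ?_, fun h => ?_, d, ?_⟩
      · have h4 : (d : F) = 0 := congrArg (fun c : F × F × F × F => c.2.2.2) h
        exact d.ne_zero h4
      · have h' : -(d : F) * t ^ 3 = 0 := h
        have ht : t = 0 := by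
          have := (mul_eq_zero.mp h').resolve_left (neg_ne_zero.mpr d.ne_zero)
          exact pow_eq_zero_iff (by norm_num) |>.mp this
        subst ht
        simp [f]
      · have := hI.shift t 0 0 0 (d : F)
        rw [this]
        refine congrArg n ?_
        show (-(d : F) * t ^ 3, -3 * (d : F) * t ^ 2, -3 * (d : F) * t, (d : F)) = _
        simp only [Prod.mk.injEq]
        refine ⟨by ring, by ring, by ring, trivial⟩

/-- All the `(0,0,0,d)` have the same multiplicity. -/
lemma n_cube_eq (hI : Inv n) (d d' : Fˣ) : n (0, 0, 0, (d : F)) = n (0, 0, 0, (d' : F)) := by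
  have := hI.torus 1 (d * d'⁻¹) 0 0 0 (d : F)
  rw [this]
  refine congrArg n ?_
  simp only [zero_mul, Prod.mk.injEq, true_and]
  have := d.ne_zero
  simp
  field_simp

end OrbAux

open OrbAux

/-- Any nonzero `c` can be moved to `c3 ≠ 0`, then `c2 = 0` by a shift. If moreover `c0 = c1 = 0` the orbit has `q² - 1`
elements (`(−c3 r³, −3 c3 r², −3 c3 r, c3)` and `(c0, 0, 0, 0)`); otherwise the orbit has at least `q (q-1)²/3` elements. -/
theorem orbit_bound (h3 : (3 : F) ≠ 0) (hq : 5 ≤ Fintype.card F) (hI : Inv n) {c : F × F × F × F} (hc : c ≠ 0)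
    (hpos : 0 < n c) : Fintype.card F ^ 2 - 1 ≤ ∑ c : F × F × F × F, (if c ≠ 0 then n c else 0) := by
  obtain ⟨a, b, d, hd, hp⟩ := normal_form h3 hq hI hc hpos
  by_cases hab : a ≠ 0 ∨ b ≠ 0
  · have h1 := big_orbit h3 hq hI hd hab hp
    refine le_trans ?_ h1
    obtain ⟨k, hk⟩ : ∃ k, Fintype.card F = k + 5 := ⟨Fintype.card F - 5, by omega⟩
    rw [hk]
    simp only [show k + 5 - 1 = k + 4 by omega]
    have : (k + 5) ^ 2 ≤ 2 * ((k + 5) * (k + 4)) := by nlinarith
    omega
  · push Not at hab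
    rw [hab.1, hab.2] at hp
    obtain ⟨A, hA, hA'⟩ := cubes (n := n) h3 hI
    have := sum_ge (n := n) A 1 (by
      intro c hc
      obtain ⟨h0, -, d', hd'⟩ := hA' c hc
      refine ⟨h0, ?_⟩
      rw [hd']
      have := n_cube_eq hI (Units.mk0 d hd) d'
      simp only [Units.val_mk0] at this
      omega)
    rwa [one_mul, hA] at this

/-- If `q ≥ 7` and the sum is at most `q²`, the support is in the single orbit of the cubes, with multiplicity one. -/
theorem struct1 (h3 : (3 : F) ≠ 0) (hq : 7 ≤ Fintype.card F) (hI : Inv n) {c : F × F × F × F} (hc : c ≠ 0)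
    (hpos : 0 < n c) (hle : ∑ c : F × F × F × F, (if c ≠ 0 then n c else 0) ≤ Fintype.card F ^ 2) :
    (∀ c3 : F, c3 ≠ 0 → n (0, 0, 0, c3) = 1) ∧ (∀ c1 c2 c3 : F, (c1 ≠ 0 ∨ c2 ≠ 0) → n (0, c1, c2, c3) = 0) := by
  obtain ⟨a, b, d, hd, hp⟩ := normal_form h3 (by omega) hI hc hpos
  obtain ⟨k, hk⟩ : ∃ k, Fintype.card F = k + 7 := ⟨Fintype.card F - 7, by omega⟩
  have hab : a = 0 ∧ b = 0 := by
    by_contra hab
    have hab' : a ≠ 0 ∨ b ≠ 0 := by tauto
    have h1 := big_orbit h3 (by omega) hI hd hab' hp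
    have h2 := le_trans h1 hle
    rw [hk] at h2
    simp only [show k + 7 - 1 = k + 6 by omega] at h2
    nlinarith
  rw [hab.1, hab.2] at hp
  obtain ⟨A, hA, hA'⟩ := cubes (n := n) h3 hI
  have hall : ∀ d' : Fˣ, n (0, 0, 0, (d' : F)) = n (0, 0, 0, d) := fun d' => by
    have := n_cube_eq hI d' (Units.mk0 d hd)
    simpa using this
  have hm : n (0, 0, 0, d) = 1 := by
    have := sum_ge (n := n) A (n (0, 0, 0, d)) (by
      intro c hc
      obtain ⟨h0, -, d', hd'⟩ := hA' c hc
      exact ⟨h0, by rw [hd', hall]⟩)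
    have h2 := le_trans this hle
    rw [hA, hk] at h2
    by_contra hne
    have h3 : 2 ≤ n (0, 0, 0, d) := by omega
    have h4 : 2 * ((k + 7) ^ 2 - 1) ≤ n (0, 0, 0, d) * ((k + 7) ^ 2 - 1) := Nat.mul_le_mul_right _ h3
    have h5 : 1 ≤ (k + 7) ^ 2 := Nat.one_le_pow _ _ (by omega)
    have h6 : 49 ≤ (k + 7) ^ 2 := by nlinarith
    omega
  refine ⟨fun c3 h3' => ?_, fun c1 c2 c3 h12 => ?_⟩
  · have := hall (Units.mk0 c3 h3')
    simp only [Units.val_mk0] at this
    rw [this, hm]
  · by_contra hne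
    have hpos' : 0 < n (0, c1, c2, c3) := Nat.pos_of_ne_zero hne
    -- the scalings of `(0, c1, c2, c3)`
    let g : Fˣ → F × F × F × F := fun τ => (0, c1 * ((τ⁻¹ : Fˣ) : F), c2 * ((τ⁻¹ : Fˣ) : F), c3 * ((τ⁻¹ : Fˣ) : F))
    have hg : Function.Injective g := by
      intro τ τ' h
      simp only [g, Prod.mk.injEq, true_and] at h
      rcases h12 with h1 | h1
      · have := mul_left_cancel₀ h1 h.1
        exact inv_inj.mp (Units.ext this)
      · have := mul_left_cancel₀ h1 h.2.1
        exact inv_inj.mp (Units.ext this)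
    have hdisj : Disjoint A (Finset.univ.image g) := by
      rw [Finset.disjoint_left]
      intro c hc hc'
      obtain ⟨τ, -, rfl⟩ := Finset.mem_image.mp hc'
      obtain ⟨-, h5, -⟩ := hA' _ hc
      obtain ⟨h6, h7⟩ := h5 rfl
      have h6' : c1 * ((τ⁻¹ : Fˣ) : F) = 0 := h6
      have h7' : c2 * ((τ⁻¹ : Fˣ) : F) = 0 := h7
      rcases h12 with h1 | h1
      · exact mul_ne_zero h1 (Units.ne_zero _) h6'
      · exact mul_ne_zero h1 (Units.ne_zero _) h7'
    have := sum_ge (n := n) (A ∪ Finset.univ.image g) 1 (by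
      intro c hc
      rcases Finset.mem_union.mp hc with hc | hc
      · obtain ⟨h0, -, d', hd'⟩ := hA' c hc
        exact ⟨h0, by rw [hd', hall, hm]⟩
      · obtain ⟨τ, -, rfl⟩ := Finset.mem_image.mp hc
        constructor
        · intro h0
          have h6' : c1 * ((τ⁻¹ : Fˣ) : F) = 0 := congrArg (fun c : F × F × F × F => c.2.1) h0
          have h7' : c2 * ((τ⁻¹ : Fˣ) : F) = 0 := congrArg (fun c : F × F × F × F => c.2.2.1) h0
          rcases h12 with h1 | h1
          · exact mul_ne_zero h1 (Units.ne_zero _) h6'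
          · exact mul_ne_zero h1 (Units.ne_zero _) h7'
        · have e1 := hI.torus 1 τ 0 c1 c2 c3
          have : g τ = (0 * ((τ⁻¹ : Fˣ) : F), c1 * (((1 * τ)⁻¹ : Fˣ) : F), c2 * (((1 ^ 2 * τ)⁻¹ : Fˣ) : F),
              c3 * (((1 ^ 3 * τ)⁻¹ : Fˣ) : F)) := by simp [g]
          rw [this, ← e1]
          exact hpos')
    rw [one_mul, Finset.card_union_of_disjoint hdisj, hA, Finset.card_image_of_injective _ hg, Finset.card_univ,
      Fintype.card_units] at this
    have h2 := le_trans this hle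
    rw [hk] at h2
    have h5 : 49 ≤ (k + 7) ^ 2 := by nlinarith
    simp only [show k + 7 - 1 = k + 6 by omega] at h2
    omega

end Cfsg.Agent.Lib.MinG2
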