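import Cfsg.Agent.Lib.MinG2.Orb

/-! The bound when `3 ≠ 0`: `q³ - 1 ≤ k`. -/

set_option autoImplicit false
set_option linter.unusedSectionVars false
set_option linter.unusedVariables false

namespace Cfsg.Agent.Lib.MinG2

open Module
open scoped Classical

variable {F : Type*} [Field F] {Γ : Type*} [Group Γ] {V : Type*} [AddCommGroup V] [Module ℂ V]
variable {S : Sys F Γ} {ρ : Representation ℂ Γ V} {ψ : AddChar F ℂ}

/-- There is a nonzero weight: from `exists_m` and `d_pos`. -/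
theorem exists_support [Fintype F] [FiniteDimensional ℂ V] (hψ : ψ ≠ 1) (hq : 2 < Fintype.card F) (hfix : NoFix S ρ)
    (hV : Nontrivial V) : ∃ c : F × F × F × F, c ≠ 0 ∧ 0 < nf S ρ ψ c := by
  obtain ⟨m, hm1, hm2⟩ := exists_m (S := S) (ρ := ρ) hψ
  have hd := d_pos (S := S) (ρ := ρ) hψ hq hfix hV
  have hm0 : 0 < m := by
    rcases Nat.eq_zero_or_pos m with h | h
    · rw [hm1, h, mul_zero] at hd
      exact absurd hd (lt_irrefl _)
    · exact h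
  have hs : 0 < ∑ c : F × F × F × F, (if c.1 ≠ 0 then nf S ρ ψ c else 0) := by
    rw [hm2]
    exact Nat.mul_pos (by omega) hm0
  obtain ⟨c, -, hc⟩ := Finset.exists_ne_zero_of_sum_ne_zero (Nat.pos_iff_ne_zero.1 hs)
  by_cases h1 : c.1 ≠ 0
  · rw [if_pos h1] at hc
    refine ⟨c, ?_, Nat.pos_of_ne_zero hc⟩
    rintro rfl
    exact h1 rfl
  · rw [if_neg h1] at hc
    exact absurd rfl hc

/-- Splitting off the zero weight. -/
private lemma sum_split (n : F × F × F × F → ℕ) [Fintype F] :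
    ∑ c : F × F × F × F, n c = n 0 + ∑ c : F × F × F × F, (if c ≠ 0 then n c else 0) := by
  have h : ∀ c : F × F × F × F, n c = (if c = 0 then n c else 0) + (if c ≠ 0 then n c else 0) := by
    intro c
    by_cases hc : c = 0
    · simp [hc]
    · simp [hc]
  calc ∑ c : F × F × F × F, n c
      = ∑ c : F × F × F × F, ((if c = 0 then n c else 0) + (if c ≠ 0 then n c else 0)) :=
        Finset.sum_congr rfl fun c _ => h c
    _ = _ := by
        rw [Finset.sum_add_distrib]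
        congr 1
        rw [Finset.sum_ite_eq' Finset.univ (0 : F × F × F × F) n]
        simp

/-- `q³ - 1 ≤ k` when `3 ≠ 0`, `q ≥ 5`: `k = (q-1) d + ∑ nf`, `q² ∣ d`, `0 < d`, `q² - 1 ≤ ∑_{c ≠ 0} nf c`. -/
theorem bound_q2 [Fintype F] [FiniteDimensional ℂ V] (hψ : ψ ≠ 1) (h3 : (3 : F) ≠ 0) (hq : 5 ≤ Fintype.card F)
    (hfix : NoFix S ρ) (hV : Nontrivial V) : Fintype.card F ^ 3 - 1 ≤ finrank ℂ V := by
  obtain ⟨c, hc, hpos⟩ := exists_support (S := S) (ρ := ρ) hψ (by omega) hfix hV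
  have h1 := orbit_bound h3 hq (inv_nf (S := S) (ρ := ρ) (ψ := ψ)) hc hpos
  have h2 := k_eq (S := S) (ρ := ρ) hψ
  obtain ⟨d', hd'⟩ := sq_dvd (S := S) (ρ := ρ) hψ h3
  have hd := d_pos (S := S) (ρ := ρ) hψ (by omega) hfix hV
  rw [sum_split (nf S ρ ψ)] at h2
  set q := Fintype.card F with hq'
  set A := ∑ c : F × F × F × F, (if c ≠ 0 then nf S ρ ψ c else 0)
  rw [hd'] at h2 hd
  have hd0 : 1 ≤ d' := by
    rcases Nat.eq_zero_or_pos d' with h | h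
    · rw [h, mul_zero] at hd
      exact absurd hd (lt_irrefl _)
    · exact h
  obtain ⟨r, hr⟩ : ∃ r, q = r + 1 := ⟨q - 1, by omega⟩
  have h2' : finrank ℂ V = r * (q ^ 2 * d') + (nf S ρ ψ 0 + A) := by
    rw [h2, hr]
    simp
  have h4 : r * q ^ 2 * 1 ≤ r * (q ^ 2 * d') := by
    rw [mul_assoc]
    exact Nat.mul_le_mul_left _ (Nat.mul_le_mul_left _ hd0)
  have e : q ^ 3 = r * q ^ 2 * 1 + q ^ 2 := by
    rw [hr]
    ring
  rw [e]
  omega

/-- The structure when `k ≤ q³`. -/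
theorem struct_q1 [Fintype F] [FiniteDimensional ℂ V] (hψ : ψ ≠ 1) (h3 : (3 : F) ≠ 0) (hq : 7 ≤ Fintype.card F)
    (hfix : NoFix S ρ) (hV : Nontrivial V) (hk : finrank ℂ V ≤ Fintype.card F ^ 3) :
    wr S ρ ψ [(11, 1)] = Fintype.card F ^ 2 ∧ wr S ρ ψ (Ul F) ≤ 1 ∧
    (∀ c3 : F, c3 ≠ 0 → nf S ρ ψ (0, 0, 0, c3) = 1) ∧ (∀ c1 c2 c3 : F, (c1 ≠ 0 ∨ c2 ≠ 0) → nf S ρ ψ (0, c1, c2, c3) = 0) := by
  obtain ⟨c, hc, hpos⟩ := exists_support (S := S) (ρ := ρ) hψ (by omega) hfix hV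
  have hI := inv_nf (S := S) (ρ := ρ) (ψ := ψ)
  have h1 := orbit_bound h3 (by omega) hI hc hpos
  have h2 := k_eq (S := S) (ρ := ρ) hψ
  obtain ⟨d', hd'⟩ := sq_dvd (S := S) (ρ := ρ) hψ h3
  have hd := d_pos (S := S) (ρ := ρ) hψ (by omega) hfix hV
  rw [sum_split (nf S ρ ψ)] at h2
  have hU : wr S ρ ψ (Ul F) = nf S ρ ψ 0 := rfl
  rw [hU]
  set q := Fintype.card F with hq'
  set A := ∑ c : F × F × F × F, (if c ≠ 0 then nf S ρ ψ c else 0) with hA
  rw [hd'] at h2 hd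
  have hd0 : 1 ≤ d' := by
    rcases Nat.eq_zero_or_pos d' with h | h
    · rw [h, mul_zero] at hd
      exact absurd hd (lt_irrefl _)
    · exact h
  obtain ⟨r, hr⟩ : ∃ r, q = r + 1 := ⟨q - 1, by omega⟩
  have hr6 : 6 ≤ r := by omega
  have h2' : finrank ℂ V = r * (q ^ 2 * d') + (nf S ρ ψ 0 + A) := by
    rw [h2, hr]
    simp
  have hqr : q ^ 3 = r * q ^ 2 + q ^ 2 := by
    rw [hr]
    ring
  have hq2 : 1 ≤ q ^ 2 := Nat.one_le_pow _ _ (by omega)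
  -- `d' = 1`
  have hd1 : d' = 1 := by
    by_contra hne
    have hge : 2 ≤ d' := by omega
    have h5 : r * (q ^ 2 * 2) ≤ r * (q ^ 2 * d') := Nat.mul_le_mul_left _ (Nat.mul_le_mul_left _ hge)
    have h6 : q ^ 2 * 1 ≤ r * q ^ 2 := by
      rw [mul_comm (q ^ 2) 1]
      exact Nat.mul_le_mul_right _ (by omega)
    have h7 : r * (q ^ 2 * 2) = r * q ^ 2 + r * q ^ 2 := by ring
    have h8 : 6 * q ^ 2 ≤ r * q ^ 2 := Nat.mul_le_mul_right _ hr6
    omega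
  subst hd1
  have h9 : r * (q ^ 2 * 1) = r * q ^ 2 := by ring
  have hle : nf S ρ ψ 0 + A ≤ q ^ 2 := by
    rw [h2', h9] at hk
    omega
  have hA2 : A ≤ q ^ 2 := by omega
  obtain ⟨hs1, hs2⟩ := struct1 h3 hq hI hc hpos hA2
  exact ⟨by simpa using hd', by omega, hs1, hs2⟩

end Cfsg.Agent.Lib.MinG2
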