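import Mathlib

/-!
# Abstract relations of `G₂(F)` and the weight spaces of a representation

Root indices of `chevG2`: 0:-(3a+2b), 1:-(3a+b), 2:-(2a+b), 3:-(a+b), 4:-a, 5:-b, 6:b, 7:a, 8:a+b, 9:2a+b,
10:3a+b, 11:3a+2b.
-/

set_option autoImplicit false
set_option linter.unusedSectionVars false
set_option linter.unusedVariables false

namespace Cfsg.Agent.Lib.MinG2

open Module

/-- The character of the torus element `t s τ` on the root `r`. -/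
def chiV {F : Type*} [Field F] (r : ℕ) (s τ : Fˣ) : Fˣ :=
  match r with
  | 0 => (s ^ 3 * τ ^ 2)⁻¹
  | 1 => (s ^ 3 * τ)⁻¹
  | 2 => (s ^ 2 * τ)⁻¹
  | 3 => (s * τ)⁻¹
  | 4 => s⁻¹
  | 5 => τ⁻¹
  | 6 => τ
  | 7 => s
  | 8 => s * τ
  | 9 => s ^ 2 * τ
  | 10 => s ^ 3 * τ
  | 11 => s ^ 3 * τ ^ 2
  | _ => 1

/-- The reflection in `a`. -/
def reflA : ℕ → ℕ
  | 0 => 0 | 1 => 5 | 2 => 3 | 3 => 2 | 4 => 7 | 5 => 1 | 6 => 10 | 7 => 4 | 8 => 9 | 9 => 8 | 10 => 6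
  | 11 => 11 | n => n

/-- The reflection in `b`. -/
def reflB : ℕ → ℕ
  | 0 => 1 | 1 => 0 | 2 => 2 | 3 => 4 | 4 => 3 | 5 => 6 | 6 => 5 | 7 => 8 | 8 => 7 | 9 => 9 | 10 => 11
  | 11 => 10 | n => n

/-- Pairs of roots whose root groups commute (those we use). -/
def commPairs : List (ℕ × ℕ) :=
  [(6,8),(6,9),(6,11),(8,10),(8,11),(9,10),(9,11),(10,11),(7,10),(7,11),(4,6),(4,11),(5,10),(5,0),(5,7),(5,9)]

/-- The relations of `G₂(F)` we use. -/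
structure Sys (F : Type*) [Field F] (Γ : Type*) [Group Γ] where
  x : ℕ → F → Γ
  x_add : ∀ r, r < 12 → ∀ a b, x r (a + b) = x r a * x r b
  comm : ∀ r s, (r, s) ∈ commPairs → ∀ u w, x r u * x s w = x s w * x r u
  r10_6 : ∀ u t, x 10 u * x 6 t = x 6 t * x 10 u * x 11 (-(t * u))
  r9_8 : ∀ u t, x 9 u * x 8 t = x 8 t * x 9 u * x 11 (-(3 * t * u))
  r6_7 : ∀ u t, x 6 u * x 7 t = x 7 t * x 6 u * (x 8 (t * u) * x 9 (t ^ 2 * u) * x 10 (-(t ^ 3 * u)) * x 11 (-(t ^ 3 * u ^ 2)))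
  r8_7 : ∀ u t, x 8 u * x 7 t = x 7 t * x 8 u * (x 9 (2 * t * u) * x 10 (-(3 * t ^ 2 * u)) * x 11 (-(3 * t * u ^ 2)))
  r9_7 : ∀ u t, x 9 u * x 7 t = x 7 t * x 9 u * x 10 (-(3 * t * u))
  r8_4 : ∀ u t, x 8 u * x 4 t = x 4 t * x 8 u * x 6 (3 * t * u)
  r9_4 : ∀ u t, x 9 u * x 4 t = x 4 t * x 9 u * (x 8 (2 * t * u) * x 6 (3 * t ^ 2 * u) * x 11 (3 * t * u ^ 2))
  r10_4 : ∀ u t, x 10 u * x 4 t = x 4 t * x 10 u * (x 9 (-(t * u)) * x 8 (-(t ^ 2 * u)) * x 6 (-(t ^ 3 * u)) * x 11 (t ^ 3 * u ^ 2))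
  r0_10 : ∀ u t, x 0 u * x 10 t = x 10 t * x 0 u * x 5 (-(t * u))
  r11_5 : ∀ u t, x 11 u * x 5 t = x 5 t * x 11 u * x 10 (-(t * u))
  r8_5 : ∀ u t, x 8 u * x 5 t = x 5 t * x 8 u * (x 7 (-(t * u)) * x 9 (t * u ^ 2) * x 11 (-(t * u ^ 3)) * x 10 (2 * t ^ 2 * u ^ 3))
  /-- the torus; `s` is the value of the character on `a`, `τ` on `b` -/
  t : Fˣ → Fˣ → Γ
  t_mul : ∀ s τ s' τ', t s τ * t s' τ' = t (s * s') (τ * τ')
  t_one : t 1 1 = 1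
  t_conj : ∀ s τ r, r < 12 → ∀ u, t s τ * x r u * (t s τ)⁻¹ = x r ((chiV r s τ : F) * u)
  /-- `na = n_a(1)`, `nb = n_b(1)` -/
  na : Γ
  nb : Γ
  na_conj : ∀ r, r < 12 → ∃ η : F, (η = 1 ∨ η = -1) ∧ ∀ u, na * x r u * na⁻¹ = x (reflA r) (η * u)
  nb_conj : ∀ r, r < 12 → ∃ η : F, (η = 1 ∨ η = -1) ∧ ∀ u, nb * x r u * nb⁻¹ = x (reflB r) (η * u)
  na_t : ∀ s τ, na * t s τ * na⁻¹ = t s⁻¹ (s ^ 3 * τ)
  nb_t : ∀ s τ, nb * t s τ * nb⁻¹ = t (s * τ) τ⁻¹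
  /-- `n_b(c) = h_b(c) n_b(1)` -/
  nb_eq : ∀ c : Fˣ, x 6 c * x 5 (-((c : F)⁻¹)) * x 6 c = t c⁻¹ (c ^ 2) * nb
  /-- generation by the simple root groups and their opposites -/
  gen : ∀ K : Subgroup Γ, (∀ r, r ∈ [4, 5, 6, 7] → ∀ u, x r u ∈ K) → K = ⊤

/-- The symmetry of the roots in characteristic three (`ReeG2.Blocks.rhoN`). -/
def rhoS : ℕ → ℕ
  | 0 => 2 | 1 => 3 | 2 => 0 | 3 => 1 | 4 => 5 | 5 => 4 | 6 => 7 | 7 => 6 | 8 => 10 | 9 => 11 | 10 => 8 | 11 => 9 | n => n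

/-- The exponent attached to a root (`ReeG2.Blocks.cc`): 3 on the short roots 2,3,4,7,8,9 and 1 on the long ones. -/
def ccS (r : ℕ) : ℕ := if r ∈ [2, 3, 4, 7, 8, 9] then 3 else 1

variable {F : Type*} [Field F] {Γ : Type*} [Group Γ] {V : Type*} [AddCommGroup V] [Module ℂ V]

/-- The simultaneous eigenspace of the root groups in the list `l`: `x_r(u)` acts by `ψ (a * u)` for `(r, a) ∈ l`. -/
def Wt (S : Sys F Γ) (ρ : Representation ℂ Γ V) (ψ : AddChar F ℂ) (l : List (ℕ × F)) : Submodule ℂ V where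
  carrier := {v | ∀ p ∈ l, ∀ u, ρ (S.x p.1 u) v = ψ (p.2 * u) • v}
  add_mem' := by
    intro a b ha hb p hp u
    rw [map_add, ha p hp u, hb p hp u, smul_add]
  zero_mem' := by
    intro p hp u
    simp
  smul_mem' := by
    intro c v hv p hp u
    rw [map_smul, hv p hp u, smul_comm]

lemma mem_Wt {S : Sys F Γ} {ρ : Representation ℂ Γ V} {ψ : AddChar F ℂ} {l : List (ℕ × F)} {v : V} :
    v ∈ Wt S ρ ψ l ↔ ∀ p ∈ l, ∀ u, ρ (S.x p.1 u) v = ψ (p.2 * u) • v := Iff.rfl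

/-- The dimension of a weight space. -/
noncomputable def wr (S : Sys F Γ) (ρ : Representation ℂ Γ V) (ψ : AddChar F ℂ) (l : List (ℕ × F)) : ℕ :=
  finrank ℂ (Wt S ρ ψ l)

/-- The dimension of the weight space of `c = (c0, c1, c2, c3)` in the fixed vectors of the long root group
`x 11`: `x 6, x 8, x 9, x 10` act by `c0, c1, c2, c3`. -/
noncomputable def nf (S : Sys F Γ) (ρ : Representation ℂ Γ V) (ψ : AddChar F ℂ) (c : F × F × F × F) : ℕ :=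
  wr S ρ ψ [(11, 0), (6, c.1), (8, c.2.1), (9, c.2.2.1), (10, c.2.2.2)]

/-- No nonzero vector is fixed by the generators. -/
def NoFix (S : Sys F Γ) (ρ : Representation ℂ Γ V) : Prop :=
  ∀ v : V, (∀ r, r ∈ [4, 5, 6, 7] → ∀ u, ρ (S.x r u) v = v) → v = 0

/-- The list for the fixed vectors of `U = X₆ X₈ X₉ X₁₀ X₁₁`. -/
def Ul (F : Type*) [Field F] : List (ℕ × F) := [(11, 0), (6, 0), (8, 0), (9, 0), (10, 0)]

/-- The list for the fixed vectors of `U' = X₇ X₈ X₉ X₁₀ X₁₁`. -/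
def Ul' (F : Type*) [Field F] : List (ℕ × F) := [(11, 0), (7, 0), (8, 0), (9, 0), (10, 0)]

end Cfsg.Agent.Lib.MinG2
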