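import Cfsg.Agent.Lib.MinG2.Ar

/-! Characteristic three: the twist, and the dimension of the fixed vectors of `U`. -/

set_option autoImplicit false
set_option linter.unusedSectionVars false
set_option linter.unusedVariables false

namespace Cfsg.Agent.Lib.MinG2

open Module
open scoped Classical

variable {F : Type*} [Field F] {Γ : Type*} [Group Γ] {V : Type*} [AddCommGroup V] [Module ℂ V]
variable {S : Sys F Γ} {ρ : Representation ℂ Γ V} {ψ : AddChar F ℂ}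

lemma tw_cube_surj [Fintype F] (h3 : (3 : F) = 0) (u : F) : ∃ w : F, w ^ 3 = u := by
  have hinj : Function.Injective (fun w : F => w ^ 3) := by
    intro a b hab
    have hab' : a ^ 3 = b ^ 3 := hab
    have : (a - b) ^ 3 = 0 := by
      linear_combination hab' + (-a ^ 2 * b + a * b ^ 2) * h3
    exact sub_eq_zero.mp (pow_eq_zero_iff (by norm_num) |>.mp this)
  exact (Finite.injective_iff_surjective.mp hinj) u

lemma tw_mem_Ul {v : V} : v ∈ Wt S ρ ψ (Ul F) ↔ (∀ u, ρ (S.x 11 u) v = v) ∧ (∀ u, ρ (S.x 6 u) v = v) ∧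
    (∀ u, ρ (S.x 8 u) v = v) ∧ (∀ u, ρ (S.x 9 u) v = v) ∧ (∀ u, ρ (S.x 10 u) v = v) := by
  simp [Ul, mem_Wt]

lemma tw_mem_Ul' {v : V} : v ∈ Wt S ρ ψ (Ul' F) ↔ (∀ u, ρ (S.x 11 u) v = v) ∧ (∀ u, ρ (S.x 7 u) v = v) ∧
    (∀ u, ρ (S.x 8 u) v = v) ∧ (∀ u, ρ (S.x 9 u) v = v) ∧ (∀ u, ρ (S.x 10 u) v = v) := by
  simp [Ul', mem_Wt]

section tw
variable [Fintype F] (h3 : (3 : F) = 0) (σ : Γ →* Γ) (hσ : ∀ r, r < 12 → ∀ t, σ (S.x r t) = S.x (rhoS r) (t ^ ccS r))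

include hσ in
lemma tw_s4 (t : F) : σ (S.x 4 t) = S.x 5 (t ^ 3) := by simpa [rhoS, ccS] using hσ 4 (by norm_num) t
include hσ in
lemma tw_s5 (t : F) : σ (S.x 5 t) = S.x 4 t := by simpa [rhoS, ccS] using hσ 5 (by norm_num) t
include hσ in
lemma tw_s6 (t : F) : σ (S.x 6 t) = S.x 7 t := by simpa [rhoS, ccS] using hσ 6 (by norm_num) t
include hσ in
lemma tw_s7 (t : F) : σ (S.x 7 t) = S.x 6 (t ^ 3) := by simpa [rhoS, ccS] using hσ 7 (by norm_num) t
include hσ in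
lemma tw_s8 (t : F) : σ (S.x 8 t) = S.x 10 (t ^ 3) := by simpa [rhoS, ccS] using hσ 8 (by norm_num) t
include hσ in
lemma tw_s9 (t : F) : σ (S.x 9 t) = S.x 11 (t ^ 3) := by simpa [rhoS, ccS] using hσ 9 (by norm_num) t
include hσ in
lemma tw_s10 (t : F) : σ (S.x 10 t) = S.x 8 t := by simpa [rhoS, ccS] using hσ 10 (by norm_num) t
include hσ in
lemma tw_s11 (t : F) : σ (S.x 11 t) = S.x 9 t := by simpa [rhoS, ccS] using hσ 11 (by norm_num) t

include h3 hσ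

/-- `V^{σ(x 11)} = V^{x 9}`. -/
theorem wr_tw_11 : wr S (ρ.comp σ) ψ [(11, 0)] = wr S ρ ψ [(9, 0)] := by
  have : Wt S (ρ.comp σ) ψ [(11, 0)] = Wt S ρ ψ [(9, 0)] := by
    ext v
    simp only [mem_Wt, List.mem_singleton, forall_eq, zero_mul, AddChar.map_zero_eq_one, one_smul,
      MonoidHom.comp_apply, tw_s11 σ hσ]
  unfold wr
  rw [this]

/-- `V^{σ(x 9)} = V^{x 11}`: `u ↦ u³` is bijective. -/
theorem wr_tw_9 : wr S (ρ.comp σ) ψ [(9, 0)] = wr S ρ ψ [(11, 0)] := by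
  have : Wt S (ρ.comp σ) ψ [(9, 0)] = Wt S ρ ψ [(11, 0)] := by
    ext v
    simp only [mem_Wt, List.mem_singleton, forall_eq, zero_mul, AddChar.map_zero_eq_one, one_smul,
      MonoidHom.comp_apply, tw_s9 σ hσ]
    constructor
    · intro h u
      obtain ⟨w, rfl⟩ := tw_cube_surj h3 u
      exact h w
    · intro h u
      exact h _
  unfold wr
  rw [this]

/-- `σ U = U'`. -/
theorem wr_tw_U : wr S (ρ.comp σ) ψ (Ul F) = wr S ρ ψ (Ul' F) := by
  have : Wt S (ρ.comp σ) ψ (Ul F) = Wt S ρ ψ (Ul' F) := by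
    ext v
    rw [tw_mem_Ul, tw_mem_Ul']
    simp only [MonoidHom.comp_apply, tw_s11 σ hσ, tw_s6 σ hσ, tw_s8 σ hσ, tw_s9 σ hσ, tw_s10 σ hσ]
    constructor
    · rintro ⟨h11, h6, h8, h9, h10⟩
      refine ⟨?_, h6, h10, h11, ?_⟩
      · intro u
        obtain ⟨w, rfl⟩ := tw_cube_surj h3 u
        exact h9 w
      · intro u
        obtain ⟨w, rfl⟩ := tw_cube_surj h3 u
        exact h8 w
    · rintro ⟨h11, h7, h8, h9, h10⟩
      exact ⟨h9, h7, fun u => h10 _, fun u => h11 _, h8⟩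
  unfold wr
  rw [this]

/-- `NoFix` passes to the twist: `σ (x 4), σ (x 5), σ (x 6), σ (x 7)` run over `x 5, x 4, x 7, x 6`. -/
theorem noFix_tw (hfix : NoFix S ρ) : NoFix S (ρ.comp σ) := by
  intro v hv
  have h4 : ∀ u, ρ (σ (S.x 4 u)) v = v := hv 4 (by simp)
  have h5 : ∀ u, ρ (σ (S.x 5 u)) v = v := hv 5 (by simp)
  have h6 : ∀ u, ρ (σ (S.x 6 u)) v = v := hv 6 (by simp)
  have h7 : ∀ u, ρ (σ (S.x 7 u)) v = v := hv 7 (by simp)
  simp only [tw_s4 σ hσ, tw_s5 σ hσ, tw_s6 σ hσ, tw_s7 σ hσ] at h4 h5 h6 h7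
  apply hfix
  intro r hr u
  simp only [List.mem_cons, List.not_mem_nil, or_false] at hr
  rcases hr with rfl | rfl | rfl | rfl
  · exact h5 u
  · obtain ⟨w, rfl⟩ := tw_cube_surj h3 u
    exact h4 w
  · obtain ⟨w, rfl⟩ := tw_cube_surj h3 u
    exact h7 w
  · exact h6 u

end tw

lemma tw_x_t (s τ : Fˣ) {r : ℕ} (hr : r < 12) (u : F) :
    S.x r u * S.t s τ = S.t s τ * S.x r (((chiV r s τ)⁻¹ : Fˣ) * u) := by
  have := S.t_conj s τ r hr (((chiV r s τ)⁻¹ : Fˣ) * u)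
  have e : (chiV r s τ : F) * (((chiV r s τ)⁻¹ : Fˣ) * u) = u := by simp
  rw [e] at this
  rw [← this]
  group

lemma tw_x_t_inv (s τ : Fˣ) {r : ℕ} (hr : r < 12) (u : F) :
    S.x r u * (S.t s τ)⁻¹ = (S.t s τ)⁻¹ * S.x r ((chiV r s τ : F) * u) := by
  rw [← S.t_conj s τ r hr u]
  group

/-- The torus moves the weights of `x_r`. -/
lemma tw_wr_torus [FiniteDimensional ℂ V] (s τ : Fˣ) {r : ℕ} (hr : r < 12) {l : List (ℕ × F)}
    (hl : ∀ p ∈ l, p.1 < 12 ∧ p.2 = 0) (a : F) :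
    wr S ρ ψ ((r, a) :: l) = wr S ρ ψ ((r, ((chiV r s τ)⁻¹ : Fˣ) * a) :: l) := by
  apply wr_eq_of_maps (S.t s τ)
  · intro v hv p hp u
    rw [← Module.End.mul_apply, ← map_mul]
    simp only [List.mem_cons] at hp
    rcases hp with rfl | hp
    · simp only
      rw [tw_x_t s τ hr u, map_mul, Module.End.mul_apply,
        hv (r, a) (by simp) (((chiV r s τ)⁻¹ : Fˣ) * u), map_smul]
      congr 2
      ring
    · obtain ⟨hp1, hp2⟩ := hl p hp
      rw [tw_x_t s τ hp1 u, map_mul, Module.End.mul_apply,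
        hv p (by simp [hp]) (((chiV p.1 s τ)⁻¹ : Fˣ) * u), map_smul]
      simp [hp2]
  · intro v hv p hp u
    rw [← Module.End.mul_apply, ← map_mul]
    simp only [List.mem_cons] at hp
    rcases hp with rfl | hp
    · simp only
      rw [tw_x_t_inv s τ hr u, map_mul, Module.End.mul_apply,
        hv (r, ((chiV r s τ)⁻¹ : Fˣ) * a) (by simp) ((chiV r s τ : F) * u), map_smul]
      congr 2
      have e : (((chiV r s τ)⁻¹ : Fˣ) : F) * (chiV r s τ : F) = 1 := by simp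
      linear_combination (a * u) * e
    · obtain ⟨hp1, hp2⟩ := hl p hp
      rw [tw_x_t_inv s τ hp1 u, map_mul, Module.End.mul_apply,
        hv p (by simp [hp]) ((chiV p.1 s τ : F) * u), map_smul]
      simp [hp2]

/-- Some nontrivial character of `x_r` on the stable `Wt l` forces all nontrivial characters. -/
lemma tw_card_le [Fintype F] [FiniteDimensional ℂ V] (hψ : ψ ≠ 1) {r : ℕ} (hr : r < 12) {l : List (ℕ × F)}
    (hl : ∀ p ∈ l, p.1 < 12 ∧ p.2 = 0)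
    (hst : ∀ v ∈ Wt S ρ ψ l, ∀ u, ρ (S.x r u) v ∈ Wt S ρ ψ l)
    (hchi : ∀ c : Fˣ, ∃ s τ : Fˣ, chiV r s τ = c)
    {a : F} (ha : a ≠ 0) (h : wr S ρ ψ ((r, a) :: l) ≠ 0) :
    Fintype.card F - 1 ≤ wr S ρ ψ l := by
  rw [wr_cons hψ hr hst]
  have key : ∀ b : F, b ≠ 0 → 1 ≤ wr S ρ ψ ((r, b) :: l) := by
    intro b hb
    obtain ⟨s, τ, hc⟩ := hchi (Units.mk0 (a / b) (div_ne_zero ha hb))
    have h2 := tw_wr_torus (S := S) (ρ := ρ) (ψ := ψ) s τ hr hl a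
    have e : (((chiV r s τ)⁻¹ : Fˣ) : F) * a = b := by
      rw [hc]
      simp only [Units.val_inv_eq_inv_val, Units.val_mk0]
      field_simp
    rw [e] at h2
    omega
  calc Fintype.card F - 1 = ∑ _b ∈ Finset.univ.erase (0 : F), 1 := by
        simp [Finset.card_erase_of_mem]
    _ ≤ ∑ b ∈ Finset.univ.erase (0 : F), wr S ρ ψ ((r, b) :: l) :=
        Finset.sum_le_sum fun b hb => key b (Finset.ne_of_mem_erase hb)
    _ ≤ ∑ b : F, wr S ρ ψ ((r, b) :: l) :=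
        Finset.sum_le_sum_of_subset (Finset.subset_univ _)

/-- If no nontrivial character of `x_r` occurs on the stable `Wt l` then `x_r` is trivial on it. -/
lemma tw_fix_of_no_char [Fintype F] [FiniteDimensional ℂ V] (hψ : ψ ≠ 1) {r : ℕ} (hr : r < 12) {l : List (ℕ × F)}
    (hst : ∀ v ∈ Wt S ρ ψ l, ∀ u, ρ (S.x r u) v ∈ Wt S ρ ψ l)
    (hno : ∀ a : F, a ≠ 0 → wr S ρ ψ ((r, a) :: l) = 0) :
    ∀ v ∈ Wt S ρ ψ l, ∀ u, ρ (S.x r u) v = v := by
  have h1 : wr S ρ ψ l = wr S ρ ψ ((r, (0 : F)) :: l) := by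
    rw [wr_cons hψ hr hst]
    exact Finset.sum_eq_single 0 (fun b _ hb => hno b hb) (fun h => absurd (Finset.mem_univ _) h)
  have hle : Wt S ρ ψ ((r, (0 : F)) :: l) ≤ Wt S ρ ψ l := by
    intro v hv p hp u
    exact hv p (by simp [hp]) u
  have heq : Wt S ρ ψ ((r, (0 : F)) :: l) = Wt S ρ ψ l := Submodule.eq_of_le_of_finrank_eq hle h1.symm
  intro v hv u
  rw [← heq] at hv
  have := hv (r, 0) (by simp) u
  simpa using this

lemma tw_hst7 : ∀ v ∈ Wt S ρ ψ (Ul F), ∀ u, ρ (S.x 7 u) v ∈ Wt S ρ ψ (Ul F) := by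
  intro v hv t
  rw [tw_mem_Ul] at hv ⊢
  obtain ⟨h11, h6, h8, h9, h10⟩ := hv
  refine ⟨?_, ?_, ?_, ?_, ?_⟩
  · intro u
    rw [← Module.End.mul_apply, ← map_mul, ← S.comm 7 11 (by simp [commPairs]) t u, map_mul,
      Module.End.mul_apply, h11]
  · intro u
    rw [← Module.End.mul_apply, ← map_mul, S.r6_7]
    simp only [map_mul, Module.End.mul_apply, h11, h10, h9, h8, h6]
  · intro u
    rw [← Module.End.mul_apply, ← map_mul, S.r8_7]
    simp only [map_mul, Module.End.mul_apply, h11, h10, h9, h8, h6]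
  · intro u
    rw [← Module.End.mul_apply, ← map_mul, S.r9_7]
    simp only [map_mul, Module.End.mul_apply, h11, h10, h9, h8, h6]
  · intro u
    rw [← Module.End.mul_apply, ← map_mul, ← S.comm 7 10 (by simp [commPairs]) t u, map_mul,
      Module.End.mul_apply, h10]

lemma tw_hst5 : ∀ v ∈ Wt S ρ ψ (Ul' F), ∀ u, ρ (S.x 5 u) v ∈ Wt S ρ ψ (Ul' F) := by
  intro v hv t
  rw [tw_mem_Ul'] at hv ⊢
  obtain ⟨h11, h7, h8, h9, h10⟩ := hv
  refine ⟨?_, ?_, ?_, ?_, ?_⟩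
  · intro u
    rw [← Module.End.mul_apply, ← map_mul, S.r11_5]
    simp only [map_mul, Module.End.mul_apply, h11, h10, h9, h8, h7]
  · intro u
    rw [← Module.End.mul_apply, ← map_mul, ← S.comm 5 7 (by simp [commPairs]) t u, map_mul,
      Module.End.mul_apply, h7]
  · intro u
    rw [← Module.End.mul_apply, ← map_mul, S.r8_5]
    simp only [map_mul, Module.End.mul_apply, h11, h10, h9, h8, h7]
  · intro u
    rw [← Module.End.mul_apply, ← map_mul, ← S.comm 5 9 (by simp [commPairs]) t u, map_mul,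
      Module.End.mul_apply, h9]
  · intro u
    rw [← Module.End.mul_apply, ← map_mul, ← S.comm 5 10 (by simp [commPairs]) t u, map_mul,
      Module.End.mul_apply, h10]

lemma tw_na_stab {v : V} (hv : v ∈ Wt S ρ ψ (Ul F)) : ρ S.na⁻¹ v ∈ Wt S ρ ψ (Ul F) := by
  have hh : ∀ r, r < 12 → (∀ w, ρ (S.x (reflA r) w) v = v) → ∀ w, ρ (S.x r w) (ρ S.na⁻¹ v) = ρ S.na⁻¹ v := by
    intro r hr hf w
    obtain ⟨η, _, hη⟩ := S.na_conj r hr
    have e : S.x r w * S.na⁻¹ = S.na⁻¹ * (S.na * S.x r w * S.na⁻¹) := by group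
    rw [← Module.End.mul_apply, ← map_mul, e, hη, map_mul, Module.End.mul_apply, hf]
  rw [tw_mem_Ul] at hv ⊢
  obtain ⟨h11, h6, h8, h9, h10⟩ := hv
  exact ⟨hh 11 (by norm_num) h11, hh 6 (by norm_num) h10, hh 8 (by norm_num) h9, hh 9 (by norm_num) h8,
    hh 10 (by norm_num) h6⟩

/-- `R = V^U ≠ 0` implies `q - 1 ≤ dim V^U` or `q - 1 ≤ dim V^{U'}`. `x 7` normalises `U`. If `x 7` is nontrivial on `R`, some nontrivial character occurs, and the torus makes all `q - 1` nontrivial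
characters occur in `R`. Otherwise `R ≤ V^{U'}`, `x 4` is trivial on `R` too as `na` stabilises `R` and `na x 7 na⁻¹ = x 4 (η ·)`. `x 5` normalises `U'` (`comm`, `r8_5`, `r11_5`); if `x 5` is trivial on `V^{U'}` then a nonzero
`v ∈ R` is fixed by `x 4, x 5, x 6, x 7`, contradicting `NoFix`; so some nontrivial character of `x 5` occurs in `V^{U'}` and the torus makes all of them occur. -/
theorem R_lemma [Fintype F] [FiniteDimensional ℂ V] (hψ : ψ ≠ 1) (hfix : NoFix S ρ) (h : wr S ρ ψ (Ul F) ≠ 0) :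
    Fintype.card F - 1 ≤ wr S ρ ψ (Ul F) ∨ Fintype.card F - 1 ≤ wr S ρ ψ (Ul' F) := by
  have hlU : ∀ p ∈ Ul F, p.1 < 12 ∧ p.2 = 0 := by simp [Ul]
  have hlU' : ∀ p ∈ Ul' F, p.1 < 12 ∧ p.2 = 0 := by simp [Ul']
  by_cases hA : ∃ a : F, a ≠ 0 ∧ wr S ρ ψ ((7, a) :: Ul F) ≠ 0
  · obtain ⟨a, ha, h'⟩ := hA
    exact Or.inl (tw_card_le hψ (by norm_num) hlU tw_hst7 (fun c => ⟨c, 1, rfl⟩) ha h')
  push Not at hA
  have hf7 := tw_fix_of_no_char hψ (by norm_num) tw_hst7 hA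
  by_cases hB : ∃ a : F, a ≠ 0 ∧ wr S ρ ψ ((5, a) :: Ul' F) ≠ 0
  · obtain ⟨a, ha, h'⟩ := hB
    exact Or.inr (tw_card_le hψ (by norm_num) hlU' tw_hst5
      (fun c => ⟨1, c⁻¹, by simp [chiV]⟩) ha h')
  push Not at hB
  have hf5 := tw_fix_of_no_char hψ (by norm_num) tw_hst5 hB
  exfalso
  have hne : Wt S ρ ψ (Ul F) ≠ ⊥ := by
    intro h0
    apply h
    unfold wr
    rw [h0]
    simp
  obtain ⟨v, hv, hv0⟩ := Submodule.exists_mem_ne_zero_of_ne_bot hne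
  refine hv0 (hfix v ?_)
  have hv' := (tw_mem_Ul).1 hv
  obtain ⟨h11, h6, h8, h9, h10⟩ := hv'
  have hvU' : v ∈ Wt S ρ ψ (Ul' F) := (tw_mem_Ul').2 ⟨h11, hf7 v hv, h8, h9, h10⟩
  intro r hr u
  simp only [List.mem_cons, List.not_mem_nil, or_false] at hr
  rcases hr with rfl | rfl | rfl | rfl
  · -- `x 4`
    obtain ⟨η, hη1, hη⟩ := S.na_conj 7 (by norm_num)
    have hηη : η * η = 1 := by
      rcases hη1 with rfl | rfl <;> simp
    have e := hη (η * u)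
    have e2 : reflA 7 = 4 := rfl
    rw [e2, ← mul_assoc, hηη, one_mul] at e
    rw [← e, map_mul, map_mul, Module.End.mul_apply, Module.End.mul_apply,
      hf7 _ (tw_na_stab hv), ← Module.End.mul_apply, ← map_mul, mul_inv_cancel, map_one,
      Module.End.one_apply]
  · exact hf5 v hvU' u
  · exact h6 u
  · exact hf7 v hv u

/-- The conclusion in characteristic three, given a twist: if `k ≤ q⁴ + q²` then `k = q⁴ + q² - q - 1 + n0`, `n0 ∈ {0, q - 1, q, q + 1}`. -/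
theorem char3_values [Fintype F] [FiniteDimensional ℂ V] (hψ : ψ ≠ 1) (h3 : (3 : F) = 0) (h3q : 3 ∣ Fintype.card F) (hq : 9 ≤ Fintype.card F) (hfix : NoFix S ρ) (hV : Nontrivial V)
    (σ : Γ →* Γ) (hσ : ∀ r, r < 12 → ∀ t, σ (S.x r t) = S.x (rhoS r) (t ^ ccS r)) (hk : finrank ℂ V ≤ Fintype.card F ^ 4 + Fintype.card F ^ 2) :
    ∃ n0 : ℕ, (n0 = 0 ∨ n0 = Fintype.card F - 1 ∨ n0 = Fintype.card F ∨ n0 = Fintype.card F + 1) ∧
      finrank ℂ V = Fintype.card F ^ 4 + Fintype.card F ^ 2 + n0 - Fintype.card F - 1 := by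
  obtain ⟨m, m0, m1, nc, D, Wa, Wb, P⟩ := exists_pk (S := S) (ρ := ρ) hψ h3 hq hfix hV
  obtain ⟨m', m0', m1', nc', D', Wa', Wb', P'⟩ :=
    exists_pk (S := S) (ρ := ρ.comp σ) hψ h3 hq (noFix_tw h3 σ hσ hfix) hV
  rw [wr_tw_U h3 σ hσ, wr_tw_9 h3 σ hσ, wr_tw_11 h3 σ hσ] at P'
  obtain ⟨h1, h2⟩ := arith h3q hq P P' hk
  refine ⟨wr S ρ ψ (Ul F), ?_, ?_⟩
  · by_cases h0 : wr S ρ ψ (Ul F) = 0
    · exact Or.inl h0
    · right
      have h4 := R_lemma hψ hfix h0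
      have h5 : wr S ρ ψ (Ul F) = wr S ρ ψ (Ul' F) := by omega
      have h6 : Fintype.card F - 1 ≤ wr S ρ ψ (Ul F) := by
        rcases h4 with h4 | h4
        · exact h4
        · omega
      omega
  · omega

end Cfsg.Agent.Lib.MinG2
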