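import Cfsg.Agent.Lib.MinG2.K2
import Cfsg.Agent.Lib.MinG2.Tw
import Cfsg.Agent.Lib.MinG2.Inst
import Cfsg.Statements.S2338
import Cfsg.Agent.Lib.Char.Central

/-! The assembly. -/

set_option autoImplicit false
set_option linter.unusedSectionVars false
set_option linter.unusedVariables false
set_option linter.ambiguousOpen false
set_option linter.style.haveILetI false

namespace Cfsg.Agent.Lib.MinG2

open Module
open Cfsg Lie

/-- The degree of an irreducible representation divides the order of the group (team `Lib/Char`). -/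
theorem deg_dvd {G : Type*} [Group G] [Finite G] (k : ℕ) (ρ : Representation ℂ G (Fin k → ℂ)) (hρ : ρ.IsIrreducible) : k ∣ Nat.card G := by
  haveI : ρ.IsIrreducible := hρ
  have := Cfsg.Agent.Lib.Char.Central.finrank_dvd_card (ρ := ρ)
  simpa using this

section field
variable {F : Type*} [Field F] [Fintype F]

lemma three_dvd_card_of (h3 : (3 : F) = 0) : 3 ∣ Fintype.card F := by
  obtain ⟨p, hp⟩ := CharP.exists F
  have hpp : p.Prime := CharP.char_is_prime F p
  have hdvd : p ∣ 3 := (CharP.cast_eq_zero_iff F p 3).1 (by exact_mod_cast h3)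
  have hp3 : p = 3 := (Nat.prime_dvd_prime_iff_eq hpp Nat.prime_three).1 hdvd
  subst hp3
  haveI := hp
  obtain ⟨n, hn, hc⟩ := FiniteField.card F 3
  rw [hc]
  exact dvd_pow_self _ (by exact (PNat.ne_zero n))

lemma char3_data (h : 3 ∣ Fintype.card F) (hq : 3 < Fintype.card F) :
    (3 : F) = 0 ∧ 9 ≤ Fintype.card F ∧ Odd (Fintype.card F) := by
  obtain ⟨p, hp⟩ := CharP.exists F
  have hpp : p.Prime := CharP.char_is_prime F p
  haveI := hp
  haveI : Fact p.Prime := ⟨hpp⟩
  obtain ⟨n, hn, hc⟩ := FiniteField.card F p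
  have h3p : 3 ∣ p := by
    rw [hc] at h
    exact Nat.prime_three.dvd_of_dvd_pow h
  have hp3 : p = 3 := ((Nat.prime_dvd_prime_iff_eq Nat.prime_three hpp).1 h3p).symm
  subst hp3
  refine ⟨?_, ?_, ?_⟩
  · exact_mod_cast CharP.cast_eq_zero F 3
  · rw [hc]
    have hn2 : 2 ≤ (n : ℕ) := by
      by_contra hlt
      have h1 : (n : ℕ) = 1 := by have := n.pos; omega
      rw [hc, h1] at hq
      omega
    calc 9 = 3 ^ 2 := by norm_num
      _ ≤ 3 ^ (n : ℕ) := Nat.pow_le_pow_right (by norm_num) hn2
  · rw [hc]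
    exact Odd.pow (by decide)

end field

/-- The statement. -/
theorem main {F : Type*} [Field F] [Fintype F] (k : ℕ) (ρ : Representation ℂ (Cfsg.Lie.chevG2.group F) (Fin k → ℂ)) (hρ : ρ.IsIrreducible) (hk : 2 ≤ k) :
    (Fintype.card F % 3 = 1 → 4 < Fintype.card F → Fintype.card F ^ 3 + 1 ≤ k) ∧
    (Fintype.card F % 3 = 2 → 2 < Fintype.card F → Fintype.card F ^ 3 - 1 ≤ k) ∧
    (Fintype.card F % 3 = 0 → 3 < Fintype.card F → Fintype.card F ^ 4 + Fintype.card F ^ 2 + 1 ≤ k) := by
  classical
  obtain ⟨S, hS⟩ := exists_sys F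
  obtain ⟨ψ, hψ1⟩ : ∃ ψ : AddChar F ℂ, ψ 1 ≠ 1 := by
    obtain ⟨ψ, hψ⟩ := AddChar.exists_apply_ne_zero.mpr (one_ne_zero (α := F))
    exact ⟨ψ, hψ⟩
  have hψ : ψ ≠ 1 := by
    rintro rfl
    simp at hψ1
  haveI : Nontrivial (Fin k → ℂ) := by
    haveI : Nontrivial (Fin k) := Fin.nontrivial_iff_two_le.2 hk
    infer_instance
  have hfin : finrank ℂ (Fin k → ℂ) = k := by simp
  have hV : Nontrivial (Fin k → ℂ) := inferInstance
  have hfix : NoFix S ρ := by
    intro v hv
    by_contra hv0
    let K : Subgroup ↥(chevG2.group F) :=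
      { carrier := {g | ρ g v = v}
        mul_mem' := by
          intro a b ha hb
          show ρ (a * b) v = v
          rw [map_mul, Module.End.mul_apply, hb, ha]
        one_mem' := by
          show ρ 1 v = v
          simp
        inv_mem' := by
          intro a ha
          show ρ a⁻¹ v = v
          conv_lhs => rw [← ha]
          rw [← Module.End.mul_apply, ← map_mul, inv_mul_cancel, map_one]
          rfl }
    have hK : K = ⊤ := S.gen K (fun r hr u => hv r hr u)
    have hall : ∀ g, ρ g v = v := fun g => by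
      have : g ∈ K := by rw [hK]; trivial
      exact this
    let L : Subrepresentation ρ := ⟨Submodule.span ℂ {v}, fun g w hw => by
      obtain ⟨c, rfl⟩ := Submodule.mem_span_singleton.1 hw
      rw [map_smul, hall]
      exact Submodule.smul_mem _ _ (Submodule.mem_span_singleton_self v)⟩
    rcases hρ.eq_bot_or_eq_top L with h | h
    · have h1 : L.toSubmodule = ⊥ := congrArg Subrepresentation.toSubmodule h
      have h2 : v ∈ L.toSubmodule := Submodule.mem_span_singleton_self v
      rw [h1, Submodule.mem_bot] at h2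
      exact hv0 h2
    · have h1 : L.toSubmodule = ⊤ := congrArg Subrepresentation.toSubmodule h
      have h2 : finrank ℂ (Submodule.span ℂ {v}) = 1 := finrank_span_singleton hv0
      have h3 : Submodule.span ℂ {v} = (⊤ : Submodule ℂ (Fin k → ℂ)) := h1
      rw [h3, finrank_top, hfin] at h2
      omega
  refine ⟨?_, ?_, ?_⟩
  · intro h1 h4
    have h3 : (3 : F) ≠ 0 := by
      intro h
      have := three_dvd_card_of h
      omega
    have hq7 : 7 ≤ Fintype.card F := by omega
    obtain ⟨ω, hω⟩ : ∃ ω : Fˣ, orderOf ω = 3 := by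
      haveI : Fact (Nat.Prime 3) := ⟨Nat.prime_three⟩
      apply exists_prime_orderOf_dvd_card
      rw [Fintype.card_units]
      omega
    have h2 := bound_q1 (S := S) (ρ := ρ) hψ h3 hq7 hfix hV ω (by rw [← hω]; exact pow_orderOf_eq_one ω) (by
      rintro rfl
      simp at hω)
    rwa [hfin] at h2
  · intro h1 h2
    have h3 : (3 : F) ≠ 0 := by
      intro h
      have := three_dvd_card_of h
      omega
    have h5 := bound_q2 (S := S) (ρ := ρ) hψ h3 (by omega) hfix hV
    rwa [hfin] at h5
  · intro h0 h3q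
    by_contra hc
    have hdvd3 : 3 ∣ Fintype.card F := Nat.dvd_of_mod_eq_zero h0
    obtain ⟨h3, hq9, hodd⟩ := char3_data hdvd3 h3q
    obtain ⟨σ, hσ⟩ := hS h3
    obtain ⟨n0, hn, hval⟩ := char3_values (S := S) (ρ := ρ) hψ h3 hdvd3 hq9 hfix hV σ hσ (by rw [hfin]; omega)
    rw [hfin] at hval
    have hd := deg_dvd k ρ hρ
    rw [card_chevG2, hval] at hd
    exact no_dvd hdvd3 hq9 hodd hn hd

end Cfsg.Agent.Lib.MinG2
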